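import Mathlib

/-!
# S2522 : products of two regular unipotents -- definitions and PIECE STATEMENTS

Setting: `V` a finite dimensional vector space over a field `K`, `g : Module.End K V`.

* `RegUnip B`  : `B - 1` nilpotent of rank `dim V - 1` (regular unipotent).
* `RUPair g B C` : `g = B * C` with `B`, `C` regular unipotent.
* `InG g` : `det g = 1`, `g` not scalar, `rank (g - 1) ≥ 2`.
* `SProp g` : for all `f ≠ 0`, `ξ ≠ 0` there is an RU pair `(B, C)` of `g` with
  `f ∉ range (B - 1)` and `ξ` not vanishing on `ker (C - 1)`.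
* `child g e φ h` (for `φ (g e) = 1`): the operator `w ↦ g w - φ (g w) • g e` on `ker φ`.

* `proj e φ he` (for `φ e = 1`): the projection `v ↦ v - φ v • e` onto `ker φ`.
* `lift e φ he X D` : `v ↦ (φ v + X (p v)) • e + D (p v)` and `extB g e φ he B₁` :
  `v ↦ φ v • g e + B₁ (p v)`, where `p = proj e φ he`.

Every piece is a `def X : Prop`; a piece is landed as a theorem `main : X.{u, v}`.
-/

set_option autoImplicit false

namespace Cfsg.Agent.Lib.Helper53.RUStmt

universe u v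

section Defs

variable {K : Type u} [Field K] {V : Type v} [AddCommGroup V] [Module K V]

/-- regular unipotent: `B - 1` is nilpotent of rank `dim V - 1` -/
def RegUnip (B : Module.End K V) : Prop :=
  IsNilpotent (B - 1) ∧ Module.finrank K (LinearMap.range (B - 1)) + 1 = Module.finrank K V

/-- `g = B * C` with `B`, `C` regular unipotent -/
def RUPair (g B C : Module.End K V) : Prop := RegUnip B ∧ RegUnip C ∧ g = B * C

/-- determinant one, not scalar, `rank (g - 1) ≥ 2` -/
def InG (g : Module.End K V) : Prop :=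
  LinearMap.det g = 1 ∧ (¬ ∃ c : K, g = c • (1 : Module.End K V)) ∧
    2 ≤ Module.finrank K (LinearMap.range (g - 1))

/-- the strengthened induction statement -/
def SProp (g : Module.End K V) : Prop :=
  ∀ (f : V) (ξ : Module.Dual K V), f ≠ 0 → ξ ≠ 0 →
    ∃ B C : Module.End K V, RUPair g B C ∧ f ∉ LinearMap.range (B - 1) ∧
      ∃ v : V, (C - 1) v = 0 ∧ ξ v ≠ 0

/-- the child operator `w ↦ g w - φ (g w) • g e` on `ker φ` (Schur complement) -/
def child (g : Module.End K V) (e : V) (φ : Module.Dual K V) (h : φ (g e) = 1) :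
    Module.End K (LinearMap.ker φ) :=
  LinearMap.codRestrict (LinearMap.ker φ)
    ((g - (φ.comp g).smulRight (g e)).comp (LinearMap.ker φ).subtype)
    (fun w => by
      rw [LinearMap.mem_ker]
      simp only [LinearMap.comp_apply, Submodule.subtype_apply, LinearMap.sub_apply,
        LinearMap.smulRight_apply, map_sub, map_smul, h, smul_eq_mul, mul_one, sub_self])

@[simp] theorem child_apply (g : Module.End K V) (e : V) (φ : Module.Dual K V) (h : φ (g e) = 1)
    (w : LinearMap.ker φ) :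
    ((child g e φ h w : LinearMap.ker φ) : V) = g (w : V) - φ (g (w : V)) • g e := rfl

/-- the conditions on the functional `φ` -/
def PhiGood (g : Module.End K V) (f : V) (ξ φ : Module.Dual K V) : Prop :=
  φ f ≠ 0 ∧ (∀ t : K, φ ∘ₗ (g - 1) ≠ t • ξ) ∧ (∀ t : K, φ ∘ₗ (g - 1) ≠ t • φ) ∧
  (LinearMap.ker (g - 1) ≠ ⊥ → ∃ k : V, (g - 1) k = 0 ∧ φ k ≠ 0) ∧
  (∀ c : K, c ≠ 1 → c ^ (Module.finrank K V - 1) = 1 →
    Module.finrank K V ≤ Module.finrank K (LinearMap.ker (g - c • (1 : Module.End K V))) + 2 →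
    ∃ v : V, g v = c • v ∧ φ v ≠ 0)

/-- the conditions on the vector `e` (before normalising `φ e = 1`) -/
def EGood (g : Module.End K V) (ξ φ : Module.Dual K V) (e : V) : Prop :=
  φ ((g - 1) e) = 0 ∧ φ e ≠ 0 ∧ ξ e ≠ 0 ∧ (g - 1) e ≠ 0 ∧
  (Module.finrank K (LinearMap.range (g - 1)) = 2 → e ∉ LinearMap.range (g - 1)) ∧
  (LinearMap.ker (g - 1) = ⊥ → Module.finrank K V = 3 → ∀ w : V, φ w = 0 → g e ≠ (g - 1) w)

/-- the projection onto `ker φ` along `e` (for `φ e = 1`): `v ↦ v - φ v • e` -/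
def proj (e : V) (φ : Module.Dual K V) (he : φ e = 1) : V →ₗ[K] LinearMap.ker φ :=
  LinearMap.codRestrict (LinearMap.ker φ) (LinearMap.id - φ.smulRight e)
    (fun v => by
      rw [LinearMap.mem_ker]
      simp only [LinearMap.sub_apply, LinearMap.id_coe, id_eq, LinearMap.smulRight_apply, map_sub,
        map_smul, he, smul_eq_mul, mul_one, sub_self])

@[simp] theorem proj_apply (e : V) (φ : Module.Dual K V) (he : φ e = 1) (v : V) :
    ((proj e φ he v : LinearMap.ker φ) : V) = v - φ v • e := rfl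

/-- `lift e φ he X D : v ↦ (φ v + X (p v)) • e + D (p v)` with `p = proj e φ he` -/
def lift (e : V) (φ : Module.Dual K V) (he : φ e = 1) (X : Module.Dual K (LinearMap.ker φ))
    (D : Module.End K (LinearMap.ker φ)) : Module.End K V :=
  (φ + X ∘ₗ proj e φ he).smulRight e + (LinearMap.ker φ).subtype ∘ₗ D ∘ₗ proj e φ he

theorem lift_apply (e : V) (φ : Module.Dual K V) (he : φ e = 1)
    (X : Module.Dual K (LinearMap.ker φ)) (D : Module.End K (LinearMap.ker φ)) (v : V) :
    lift e φ he X D v = (φ v + X (proj e φ he v)) • e + (D (proj e φ he v) : V) := rfl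

/-- `extB g e φ he B₁ : v ↦ φ v • g e + B₁ (p v)` with `p = proj e φ he` -/
def extB (g : Module.End K V) (e : V) (φ : Module.Dual K V) (he : φ e = 1)
    (B₁ : Module.End K (LinearMap.ker φ)) : Module.End K V :=
  φ.smulRight (g e) + (LinearMap.ker φ).subtype ∘ₗ B₁ ∘ₗ proj e φ he

theorem extB_apply (g : Module.End K V) (e : V) (φ : Module.Dual K V) (he : φ e = 1)
    (B₁ : Module.End K (LinearMap.ker φ)) (v : V) :
    extB g e φ he B₁ v = φ v • g e + (B₁ (proj e φ he v) : V) := rfl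

end Defs

/-! ## Pieces -/

/-- COV: a vector space over a field with at least 4 elements is not the union of 4 proper
subspaces. -/
def Cov4Stmt : Prop :=
  ∀ (K : Type u) [Field K] (V : Type v) [AddCommGroup V] [Module K V], 4 ≤ Cardinal.mk K →
    ∀ U₁ U₂ U₃ U₄ : Submodule K V, U₁ ≠ ⊤ → U₂ ≠ ⊤ → U₃ ≠ ⊤ → U₄ ≠ ⊤ →
      ∃ x : V, x ∉ U₁ ∧ x ∉ U₂ ∧ x ∉ U₃ ∧ x ∉ U₄

/-! ### the functional `φ` -/

/-- conclusion of PCORE -/
def PCoreStmt : Prop :=
  ∀ (K : Type u) [Field K] (V : Type v) [AddCommGroup V] [Module K V] [Module.Finite K V],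
    4 ≤ Cardinal.mk K → ∀ (g : Module.End K V) (f : V) (ξ : Module.Dual K V), f ≠ 0 →
    2 ≤ Module.finrank K (LinearMap.range (g - 1)) →
    ∀ U₁ U₂ : Submodule K V, U₁ ≠ ⊥ → U₂ ≠ ⊥ →
    ∃ φ : Module.Dual K V, φ f ≠ 0 ∧ (∀ t : K, φ ∘ₗ (g - 1) ≠ t • ξ) ∧
      (∃ x ∈ U₁, φ x ≠ 0) ∧ (∃ x ∈ U₂, φ x ≠ 0)

/-- PCORE: a functional avoiding four proper subspaces of the dual. -/
def PCorePiece : Prop := Cov4Stmt.{u, max u v} → PCoreStmt.{u, v}

/-- CU: two distinct "bad" scalars force `V = E_c ⊕ E_c'`. -/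
def CUStmt : Prop :=
  ∀ (K : Type u) [Field K] (V : Type v) [AddCommGroup V] [Module K V] [Module.Finite K V],
    3 ≤ Module.finrank K V → ∀ (g : Module.End K V) (c c' : K), c ≠ 1 → c' ≠ 1 → c ≠ c' →
    c ^ (Module.finrank K V - 1) = 1 → c' ^ (Module.finrank K V - 1) = 1 →
    Module.finrank K V ≤ Module.finrank K (LinearMap.ker (g - c • (1 : Module.End K V))) + 2 →
    Module.finrank K V ≤ Module.finrank K (LinearMap.ker (g - c' • (1 : Module.End K V))) + 2 →
    LinearMap.ker (g - 1) = ⊥ ∧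
      LinearMap.range (g - c' • (1 : Module.End K V)) ≤
        LinearMap.ker (g - c • (1 : Module.End K V))

/-- conclusion of PHIA -/
def PhiAStmt : Prop :=
  ∀ (K : Type u) [Field K] (V : Type v) [AddCommGroup V] [Module K V] [Module.Finite K V],
    4 ≤ Cardinal.mk K → 3 ≤ Module.finrank K V → ∀ g : Module.End K V, InG g →
    LinearMap.ker (g - 1) ≠ ⊥ →
    ∀ (f : V) (ξ : Module.Dual K V), f ≠ 0 → ξ ≠ 0 → ∃ φ : Module.Dual K V, PhiGood g f ξ φ

/-- PHIA: a good functional when `g` has a fixed vector. -/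
def PhiAPiece : Prop := PCoreStmt.{u, v} → CUStmt.{u, v} → PhiAStmt.{u, v}

/-- conclusion of PHIB -/
def PhiBStmt : Prop :=
  ∀ (K : Type u) [Field K] (V : Type v) [AddCommGroup V] [Module K V] [Module.Finite K V],
    4 ≤ Cardinal.mk K → 3 ≤ Module.finrank K V → ∀ g : Module.End K V, InG g →
    LinearMap.ker (g - 1) = ⊥ →
    ∀ (f : V) (ξ : Module.Dual K V), f ≠ 0 → ξ ≠ 0 → ∃ φ : Module.Dual K V, PhiGood g f ξ φ

/-- PHIB: a good functional when `g` has no fixed vector. -/
def PhiBPiece : Prop := PCoreStmt.{u, v} → CUStmt.{u, v} → PhiBStmt.{u, v}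

/-- existence of a good functional (assembled from PHIA, PHIB) -/
def PhiStmt : Prop :=
  ∀ (K : Type u) [Field K] (V : Type v) [AddCommGroup V] [Module K V] [Module.Finite K V],
    4 ≤ Cardinal.mk K → 3 ≤ Module.finrank K V → ∀ g : Module.End K V, InG g →
    ∀ (f : V) (ξ : Module.Dual K V), f ≠ 0 → ξ ≠ 0 → ∃ φ : Module.Dual K V, PhiGood g f ξ φ

/-! ### the vector `e` -/

/-- C13: dimension 3, eigenvalue 1, `rank (g - 1) = 2`. -/
def CaseI3Stmt : Prop :=
  ∀ (K : Type u) [Field K] (V : Type v) [AddCommGroup V] [Module K V] [Module.Finite K V],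
    Module.finrank K V = 3 → ∀ g : Module.End K V, LinearMap.det g = 1 →
    Module.finrank K (LinearMap.range (g - 1)) = 2 → ∀ φ : Module.Dual K V,
    (∃ k : V, (g - 1) k = 0 ∧ φ k ≠ 0) → ∃ x : V, φ ((g - 1) x) = 0 ∧ x ∉ LinearMap.range (g - 1)

/-- C23: dimension 3, no eigenvalue 1. -/
def CaseII3Stmt : Prop :=
  ∀ (K : Type u) [Field K] (V : Type v) [AddCommGroup V] [Module K V] [Module.Finite K V],
    Module.finrank K V = 3 → ∀ g : Module.End K V, LinearMap.det g = 1 →
    LinearMap.ker (g - 1) = ⊥ → ∀ φ : Module.Dual K V, (∀ t : K, φ ∘ₗ (g - 1) ≠ t • φ) →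
    ∃ x : V, φ ((g - 1) x) = 0 ∧ ∀ w : V, φ w = 0 → g x ≠ (g - 1) w

/-- conclusion of ECORE -/
def ECoreStmt : Prop :=
  ∀ (K : Type u) [Field K] (V : Type v) [AddCommGroup V] [Module K V] [Module.Finite K V],
    4 ≤ Cardinal.mk K → ∀ (g : Module.End K V) (f : V) (ξ φ : Module.Dual K V), ξ ≠ 0 →
    PhiGood g f ξ φ → ∀ U₁ U₂ : Submodule K V,
    (∃ x : V, φ ((g - 1) x) = 0 ∧ x ∉ U₁) → (∃ x : V, φ ((g - 1) x) = 0 ∧ x ∉ U₂) →
    ∃ e : V, φ ((g - 1) e) = 0 ∧ φ e ≠ 0 ∧ ξ e ≠ 0 ∧ e ∉ U₁ ∧ e ∉ U₂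

/-- ECORE: a vector of `ker (φ ∘ (g - 1))` avoiding four proper subspaces. -/
def ECorePiece : Prop := Cov4Stmt.{u, v} → ECoreStmt.{u, v}

/-- conclusion of EA -/
def EAStmt : Prop :=
  ∀ (K : Type u) [Field K] (V : Type v) [AddCommGroup V] [Module K V] [Module.Finite K V],
    4 ≤ Cardinal.mk K → 3 ≤ Module.finrank K V → ∀ g : Module.End K V, InG g →
    LinearMap.ker (g - 1) ≠ ⊥ →
    ∀ (f : V) (ξ φ : Module.Dual K V), ξ ≠ 0 → PhiGood g f ξ φ → ∃ e : V, EGood g ξ φ e

/-- EA: a good vector when `g` has a fixed vector. -/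
def EAPiece : Prop := ECoreStmt.{u, v} → CaseI3Stmt.{u, v} → EAStmt.{u, v}

/-- conclusion of EB -/
def EBStmt : Prop :=
  ∀ (K : Type u) [Field K] (V : Type v) [AddCommGroup V] [Module K V] [Module.Finite K V],
    4 ≤ Cardinal.mk K → 3 ≤ Module.finrank K V → ∀ g : Module.End K V, InG g →
    LinearMap.ker (g - 1) = ⊥ →
    ∀ (f : V) (ξ φ : Module.Dual K V), ξ ≠ 0 → PhiGood g f ξ φ → ∃ e : V, EGood g ξ φ e

/-- EB: a good vector when `g` has no fixed vector. -/
def EBPiece : Prop := ECoreStmt.{u, v} → CaseII3Stmt.{u, v} → EBStmt.{u, v}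

/-- existence of a good vector, given a good functional (assembled from EA, EB) -/
def EStmt : Prop :=
  ∀ (K : Type u) [Field K] (V : Type v) [AddCommGroup V] [Module K V] [Module.Finite K V],
    4 ≤ Cardinal.mk K → 3 ≤ Module.finrank K V → ∀ g : Module.End K V, InG g →
    ∀ (f : V) (ξ φ : Module.Dual K V), ξ ≠ 0 → PhiGood g f ξ φ → ∃ e : V, EGood g ξ φ e

/-! ### the child -/

/-- RANK: the child has `rank (child - 1) ≥ 2`. -/
def RankStmt : Prop :=
  ∀ (K : Type u) [Field K] (V : Type v) [AddCommGroup V] [Module K V] [Module.Finite K V],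
    3 ≤ Module.finrank K V → ∀ g : Module.End K V,
    2 ≤ Module.finrank K (LinearMap.range (g - 1)) →
    ∀ (e : V) (φ : Module.Dual K V) (_he : φ e = 1) (hge : φ (g e) = 1),
    (LinearMap.ker (g - 1) ≠ ⊥ → ∃ k : V, (g - 1) k = 0 ∧ φ k ≠ 0) →
    (Module.finrank K (LinearMap.range (g - 1)) = 2 → e ∉ LinearMap.range (g - 1)) →
    (LinearMap.ker (g - 1) = ⊥ → Module.finrank K V = 3 → ∀ w : V, φ w = 0 → g e ≠ (g - 1) w) →
    2 ≤ Module.finrank K (LinearMap.range (child g e φ hge - 1))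

/-- NSC: the child is not a scalar `c ≠ 1`. -/
def NonScalarStmt : Prop :=
  ∀ (K : Type u) [Field K] (V : Type v) [AddCommGroup V] [Module K V] [Module.Finite K V],
    3 ≤ Module.finrank K V → ∀ g : Module.End K V,
    ∀ (e : V) (φ : Module.Dual K V) (_he : φ e = 1) (hge : φ (g e) = 1),
    (g - 1) e ≠ 0 →
    (∀ c : K, c ≠ 1 → c ^ (Module.finrank K V - 1) = 1 →
      Module.finrank K V ≤ Module.finrank K (LinearMap.ker (g - c • (1 : Module.End K V))) + 2 →
      ∃ x : V, g x = c • x ∧ φ x ≠ 0) →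
    LinearMap.det (child g e φ hge) = 1 →
    ∀ c : K, c ≠ 1 → child g e φ hge ≠ c • (1 : Module.End K (LinearMap.ker φ))

/-- DET: the child has the same determinant. -/
def DetChildStmt : Prop :=
  ∀ (K : Type u) [Field K] (V : Type v) [AddCommGroup V] [Module K V] [Module.Finite K V]
    (g : Module.End K V) (e : V) (φ : Module.Dual K V) (_he : φ e = 1) (hge : φ (g e) = 1),
    LinearMap.det (child g e φ hge) = LinearMap.det g

/-! ### extension -/

/-- LIFT: `lift e φ he X D` is regular unipotent if `D` is and `X` does not vanish on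
`ker (D - 1)`. -/
def LiftStmt : Prop :=
  ∀ (K : Type u) [Field K] (V : Type v) [AddCommGroup V] [Module K V] [Module.Finite K V]
    (e : V) (φ : Module.Dual K V) (he : φ e = 1) (X : Module.Dual K (LinearMap.ker φ))
    (D : Module.End K (LinearMap.ker φ)), RegUnip D →
    (∃ k : LinearMap.ker φ, (D - 1) k = 0 ∧ X k ≠ 0) → RegUnip (lift e φ he X D)

/-- EXTB: `extB g e φ he B₁` is regular unipotent with `range (B - 1) = ker φ`. -/
def ExtBStmt : Prop :=
  ∀ (K : Type u) [Field K] (V : Type v) [AddCommGroup V] [Module K V] [Module.Finite K V]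
    (g : Module.End K V) (e : V) (φ : Module.Dual K V) (he : φ e = 1) (_hge : φ (g e) = 1)
    (B₁ : Module.End K (LinearMap.ker φ)), RegUnip B₁ →
    (∀ x : LinearMap.ker φ, (x : V) = g e - e → x ∉ LinearMap.range (B₁ - 1)) →
    RegUnip (extB g e φ he B₁) ∧ LinearMap.range (extB g e φ he B₁ - 1) = LinearMap.ker φ

/-- the extension step (E) (assembled from LIFT, EXTB) -/
def ExtStmt : Prop :=
  ∀ (K : Type u) [Field K] (V : Type v) [AddCommGroup V] [Module K V] [Module.Finite K V]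
    (g : Module.End K V) (e : V) (φ : Module.Dual K V) (_he : φ e = 1) (hge : φ (g e) = 1)
    (B₁ C₁ : Module.End K (LinearMap.ker φ)),
    RUPair (child g e φ hge) B₁ C₁ →
    (∀ x : LinearMap.ker φ, (x : V) = g e - e → x ∉ LinearMap.range (B₁ - 1)) →
    (∃ w : LinearMap.ker φ, (C₁ - 1) w = 0 ∧ φ (g (w : V)) ≠ 0) →
    ∃ B C : Module.End K V, RUPair g B C ∧ LinearMap.range (B - 1) = LinearMap.ker φ ∧
      (C - 1) e = 0

/-- FIXX: a functional with two prescribed inequalities (needs `|K| ≥ 3`). -/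
def FixXStmt : Prop :=
  ∀ (K : Type u) [Field K] (W : Type v) [AddCommGroup W] [Module K W] [Module.Finite K W],
    3 ≤ Cardinal.mk K → ∀ (k₁ k₂ : W) (a : K), k₁ ≠ 0 → k₂ ≠ 0 →
    ∃ X : Module.Dual K W, X k₁ ≠ 0 ∧ X k₂ ≠ a

/-- the fixed vector step (assembled from LIFT, FIXX) -/
def FixStmt : Prop :=
  ∀ (K : Type u) [Field K] (V : Type v) [AddCommGroup V] [Module K V] [Module.Finite K V],
    3 ≤ Cardinal.mk K →
    ∀ (g : Module.End K V) (e : V) (φ : Module.Dual K V) (_he : φ e = 1) (_hfix : g e = e)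
      (hge : φ (g e) = 1) (B₁ C₁ : Module.End K (LinearMap.ker φ)),
      RUPair (child g e φ hge) B₁ C₁ → ∃ B C : Module.End K V, RUPair g B C

/-! ### dimension 2 -/

/-- conclusion of D2V -/
def D2VStmt : Prop :=
  ∀ (K : Type u) [Field K] (V : Type v) [AddCommGroup V] [Module K V] [Module.Finite K V],
    4 ≤ Cardinal.mk K → Module.finrank K V = 2 → ∀ g : Module.End K V, InG g →
    ∀ (f : V) (ξ : Module.Dual K V), f ≠ 0 → ξ ≠ 0 →
    ∃ v : V, ξ v ≠ 0 ∧ (∀ t : K, (g - 1) v ≠ t • f) ∧ (∀ t : K, g v ≠ t • v)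

/-- D2V: in dimension 2 a vector avoiding four lines. -/
def D2VPiece : Prop := Cov4Stmt.{u, v} → D2VStmt.{u, v}

/-- D2NIL: in dimension 2, determinant 1 with a fixed vector and `≠ 1` is regular unipotent. -/
def D2NilStmt : Prop :=
  ∀ (K : Type u) [Field K] (V : Type v) [AddCommGroup V] [Module K V] [Module.Finite K V],
    Module.finrank K V = 2 → ∀ C : Module.End K V, LinearMap.det C = 1 → C ≠ 1 →
    ∀ v : V, v ≠ 0 → C v = v → RegUnip C

/-- conclusion of DIM2: the base of the induction. -/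
def Dim2Stmt : Prop :=
  ∀ (K : Type u) [Field K] (V : Type v) [AddCommGroup V] [Module K V] [Module.Finite K V],
    4 ≤ Cardinal.mk K → Module.finrank K V = 2 → ∀ g : Module.End K V, InG g → SProp g

/-- DIM2: the base of the induction from D2V and D2NIL. -/
def Dim2Piece : Prop := D2VStmt.{u, v} → D2NilStmt.{u, v} → Dim2Stmt.{u, v}

/-! ### the induction, the unipotent case, the translation to matrices -/

/-- the conclusion of the main induction -/
def SConcl : Prop :=
  ∀ (K : Type u) [Field K], 4 ≤ Cardinal.mk K → ∀ (n : ℕ), 2 ≤ n →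
    ∀ (V : Type v) [AddCommGroup V] [Module K V] [Module.Finite K V], Module.finrank K V = n →
    ∀ g : Module.End K V, InG g → SProp g

/-- conclusion of UNI: elements with `rank (g - 1) ≤ 1` and determinant 1. -/
def UniStmt : Prop :=
  ∀ (K : Type u) [Field K] (V : Type v) [AddCommGroup V] [Module K V] [Module.Finite K V],
    3 ≤ Cardinal.mk K → 1 ≤ Module.finrank K V → ∀ g : Module.End K V, LinearMap.det g = 1 →
    Module.finrank K (LinearMap.range (g - 1)) ≤ 1 → ∃ B C : Module.End K V, RUPair g B C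

/-- UNI: induction on the dimension with FIX and DET. -/
def UniPiece : Prop := FixStmt.{u, v} → DetChildStmt.{u, v} → UniStmt.{u, v}

/-- CHAIN: a regular unipotent `B` has `(B - 1) ^ n = 0` and `(B - 1) ^ (n - 1) ≠ 0`. -/
def ChainStmt : Prop :=
  ∀ (K : Type u) [Field K] (V : Type v) [AddCommGroup V] [Module K V] [Module.Finite K V]
    (B : Module.End K V), RegUnip B →
    (B - 1) ^ Module.finrank K V = 0 ∧ ∃ v : V, ((B - 1) ^ (Module.finrank K V - 1)) v ≠ 0

/-- conclusion of CONJ: a regular unipotent matrix is conjugate to the Jordan block `J`. -/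
def ConjStmt : Prop :=
  ∀ (K : Type u) [Field K] (n : ℕ) (J : GL (Fin n) K),
    (∀ i j : Fin n, (J : Matrix (Fin n) (Fin n) K) i j =
      if i = j then 1 else if j.val = i.val + 1 then 1 else 0) →
    ∀ B : Module.End K (Fin n → K), RegUnip B →
      ∃ x : GL (Fin n) K, LinearMap.toMatrix' B =
        (x : Matrix (Fin n) (Fin n) K) * (J : Matrix (Fin n) (Fin n) K) *
          ((x⁻¹ : GL (Fin n) K) : Matrix (Fin n) (Fin n) K)

/-- CONJ: from the Jordan chain. -/
def ConjPiece : Prop := ChainStmt.{u, u} → ConjStmt.{u}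

/-- FIN: the frozen statement from the induction, the unipotent case and CONJ. -/
def FinStmt : Prop :=
  SConcl.{u, u} → UniStmt.{u, u} → ConjStmt.{u} →
  ∀ {K : Type u} [Field K] (_hK : 4 ≤ Cardinal.mk K) (n : ℕ) (_hn : 3 ≤ n) (J g : GL (Fin n) K)
    (_hJ : ∀ i j : Fin n, (J : Matrix (Fin n) (Fin n) K) i j =
      if i = j then 1 else if j.val = i.val + 1 then 1 else 0)
    (_hg : ¬ ∃ c : K, (g : Matrix (Fin n) (Fin n) K) = c • (1 : Matrix (Fin n) (Fin n) K))
    (_hdet : (g : Matrix (Fin n) (Fin n) K).det = 1),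
    ∃ x y : GL (Fin n) K, g = (x * J * x⁻¹) * (y * J * y⁻¹)

end Cfsg.Agent.Lib.Helper53.RUStmt
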