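import Mathlib
import Cfsg.Agent.Lib.Helper32.D8Stmt
import Cfsg.Agent.Lib.Helper26.GenChar
import Cfsg.Agent.Lib.CT.Ops

/-!
# S3716 / COMMON (a common constituent of two generalized characters of norm 4)
-/

set_option autoImplicit false

namespace Cfsg.Agent.Lib.Helper53.D8COMMON

open Cfsg Cfsg.Agent.Lib.CT Cfsg.Agent.Lib.CT.Wedderburn Cfsg.Agent.Lib.Helper26.GenChar
open Cfsg.Agent.Lib.Helper32
open scoped ComplexConjugate

universe u

theorem main (hM : D8Stmt.MULT4.{u}) : D8Stmt.COMMON.{u} := by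
  intro G _ _ Ψ Ψ' hΨ hΨ' h1 h1' hn hn' ht ht' hp
  classical
  haveI := finite_irrCharacter G
  haveI := Fintype.ofFinite (IrrCharacter G)
  obtain ⟨c, hc, hec⟩ := exists_int_mult hΨ
  obtain ⟨d, hd, hed⟩ := exists_int_mult hΨ'
  have hprod : classInner Ψ Ψ' = ((∑ ψ : IrrCharacter G, c ψ * d ψ : ℤ) : ℂ) := by
    conv_lhs => rw [hed]
    rw [classInner_sum_right]
    push_cast
    refine Finset.sum_congr rfl fun ψ _ => ?_
    rw [classInner_smul_right, hc ψ, map_intCast]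
    ring
  rw [hp] at hprod
  have hprod' : ∑ ψ : IrrCharacter G, c ψ * d ψ = 2 := by exact_mod_cast hprod.symm
  obtain ⟨t₀, ht₀⟩ : ∃ t₀ : IrrCharacter G, (t₀ : G → ℂ) = D8Stmt.triv G :=
    ⟨⟨fun _ => (1 : ℂ), Ops.isIrrCharacter_one⟩, rfl⟩
  have hct : c t₀ = 1 := by
    have h2 := hc t₀
    rw [ht₀, ht] at h2
    exact_mod_cast h2.symm
  have hdt : d t₀ = 1 := by
    have h2 := hd t₀
    rw [ht₀, ht'] at h2
    exact_mod_cast h2.symm
  have hcv : ∀ ψ : IrrCharacter G, c ψ = 0 ∨ c ψ = 1 ∨ c ψ = -1 := by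
    intro ψ
    rcases hM Ψ (ψ : G → ℂ) hΨ h1 hn ψ.2 with h | h | h
    · left; rw [hc ψ] at h; exact_mod_cast h
    · right; left; rw [hc ψ] at h; exact_mod_cast h
    · right; right; rw [hc ψ] at h; exact_mod_cast h
  have hdv : ∀ ψ : IrrCharacter G, d ψ = 0 ∨ d ψ = 1 ∨ d ψ = -1 := by
    intro ψ
    rcases hM Ψ' (ψ : G → ℂ) hΨ' h1' hn' ψ.2 with h | h | h
    · left; rw [hd ψ] at h; exact_mod_cast h
    · right; left; rw [hd ψ] at h; exact_mod_cast h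
    · right; right; rw [hd ψ] at h; exact_mod_cast h
  have e1 := Finset.add_sum_erase Finset.univ (fun ψ => c ψ * d ψ) (Finset.mem_univ t₀)
  beta_reduce at e1
  rw [hct, hdt, hprod'] at e1
  have hex : ∃ ψ ∈ Finset.univ.erase t₀, 0 < c ψ * d ψ := by
    by_contra hcon
    push Not at hcon
    have h2 := Finset.sum_nonpos (fun ψ hψ => hcon ψ hψ)
    linarith
  obtain ⟨ψ, hψ, hpos⟩ := hex
  have hψt : ψ ≠ t₀ := Finset.ne_of_mem_erase hψ
  refine ⟨(ψ : G → ℂ), ψ.2, fun h => hψt (Subtype.ext (h.trans ht₀.symm)), ?_⟩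
  have key : (c ψ = 1 ∧ d ψ = 1) ∨ (c ψ = -1 ∧ d ψ = -1) := by
    rcases hcv ψ with h | h | h <;> rcases hdv ψ with h' | h' | h' <;> simp [h, h'] at hpos ⊢
  rcases key with ⟨h, h'⟩ | ⟨h, h'⟩
  · left
    exact ⟨by rw [hc ψ, h]; simp, by rw [hd ψ, h']; simp⟩
  · right
    exact ⟨by rw [hc ψ, h]; simp, by rw [hd ψ, h']; simp⟩

end Cfsg.Agent.Lib.Helper53.D8COMMON
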