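import Mathlib
import Cfsg.Agent.Lib.Helper32.D8Stmt
import Cfsg.Agent.Lib.Helper26.GenChar
import Cfsg.Agent.Lib.CT.Ops

/-!
# S3716 / XM (Parseval for two generalized characters of norm 4)
-/

set_option autoImplicit false

namespace Cfsg.Agent.Lib.Helper53.D8XM

open Cfsg Cfsg.Agent.Lib.CT Cfsg.Agent.Lib.CT.Wedderburn Cfsg.Agent.Lib.Helper26.GenChar
open Cfsg.Agent.Lib.Helper32
open scoped ComplexConjugate

universe u

theorem main (hM : D8Stmt.MULT4.{u}) : D8Stmt.XM.{u} := by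
  intro G _ _ Ψ Ψ' X e hΨ hΨ' h1 h1' hn hn' ht ht' hp hX hXt he hΨX hcontra
  classical
  haveI := finite_irrCharacter G
  haveI := Fintype.ofFinite (IrrCharacter G)
  obtain ⟨c, hc, hec⟩ := exists_int_mult hΨ
  obtain ⟨d, hd, hed⟩ := exists_int_mult hΨ'
  have hprod : classInner Ψ Ψ' = ((∑ ψ : IrrCharacter G, c ψ * d ψ : ℤ) : ℂ) := by
    conv_lhs => rw [hed]
    rw [classInner_sum_right]
    push_cast
    refine Finset.sum_congr rfl fun ψ _ => ?_
    rw [classInner_smul_right, hc ψ, map_intCast]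
    ring
  rw [hp] at hprod
  have hprod' : ∑ ψ : IrrCharacter G, c ψ * d ψ = 2 := by exact_mod_cast hprod.symm
  have hsq := classInner_self_eq_sum_sq c hc hec
  rw [hn] at hsq
  have hsq' : ∑ ψ : IrrCharacter G, c ψ * c ψ = 4 := by exact_mod_cast hsq.symm
  obtain ⟨t₀, ht₀⟩ : ∃ t₀ : IrrCharacter G, (t₀ : G → ℂ) = D8Stmt.triv G :=
    ⟨⟨fun _ => (1 : ℂ), Ops.isIrrCharacter_one⟩, rfl⟩
  have hct : c t₀ = 1 := by
    have h2 := hc t₀
    rw [ht₀, ht] at h2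
    exact_mod_cast h2.symm
  have hdt : d t₀ = 0 := by
    have h2 := hd t₀
    rw [ht₀, ht'] at h2
    exact_mod_cast h2.symm
  have hcv : ∀ ψ : IrrCharacter G, c ψ = 0 ∨ c ψ = 1 ∨ c ψ = -1 := by
    intro ψ
    rcases hM Ψ (ψ : G → ℂ) hΨ h1 hn ψ.2 with h | h | h
    · left; rw [hc ψ] at h; exact_mod_cast h
    · right; left; rw [hc ψ] at h; exact_mod_cast h
    · right; right; rw [hc ψ] at h; exact_mod_cast h
  have hdv : ∀ ψ : IrrCharacter G, d ψ = 0 ∨ d ψ = 1 ∨ d ψ = -1 := by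
    intro ψ
    rcases hM Ψ' (ψ : G → ℂ) hΨ' h1' hn' ψ.2 with h | h | h
    · left; rw [hd ψ] at h; exact_mod_cast h
    · right; left; rw [hd ψ] at h; exact_mod_cast h
    · right; right; rw [hd ψ] at h; exact_mod_cast h
  obtain ⟨X', hX'⟩ : ∃ X' : IrrCharacter G, (X' : G → ℂ) = X := ⟨⟨X, hX⟩, rfl⟩
  have hXne : X' ≠ t₀ := fun h => hXt (by rw [← hX', h, ht₀])
  have hcX : (c X' : ℂ) = e := by rw [← hc X', hX']; exact hΨX
  have hdX : (d X' : ℂ) = -e := by rw [← hd X', hX']; exact hcontra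
  have hfX : c X' * c X' - c X' * d X' = 2 := by
    have h2 : ((c X' * c X' - c X' * d X' : ℤ) : ℂ) = ((2 : ℤ) : ℂ) := by
      push_cast
      rw [hcX, hdX]
      rcases he with h | h <;> rw [h] <;> norm_num
    exact_mod_cast h2
  have hf0 : ∀ ψ : IrrCharacter G, 0 ≤ c ψ * c ψ - c ψ * d ψ := by
    intro ψ
    rcases hcv ψ with h | h | h <;> rcases hdv ψ with h' | h' | h' <;> rw [h, h'] <;> norm_num
  have hsum : ∑ ψ : IrrCharacter G, (c ψ * c ψ - c ψ * d ψ) = 2 := by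
    rw [Finset.sum_sub_distrib, hsq', hprod']; norm_num
  have e1 := Finset.add_sum_erase Finset.univ (fun ψ => c ψ * c ψ - c ψ * d ψ)
    (Finset.mem_univ t₀)
  have e2 := Finset.add_sum_erase (Finset.univ.erase t₀) (fun ψ => c ψ * c ψ - c ψ * d ψ)
    (Finset.mem_erase.mpr ⟨hXne, Finset.mem_univ X'⟩)
  have e3 : 0 ≤ ∑ ψ ∈ (Finset.univ.erase t₀).erase X', (c ψ * c ψ - c ψ * d ψ) :=
    Finset.sum_nonneg (fun ψ _ => hf0 ψ)
  beta_reduce at e1 e2
  rw [hct, hdt] at e1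
  rw [hfX] at e2
  linarith

end Cfsg.Agent.Lib.Helper53.D8XM
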