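import Mathlib
import Cfsg.Agent.Lib.Helper25.ACStmt

/-!
# S3912 / AB8 (call by helper25)

An abelian subgroup of order divisible by 8 in a group with at most one involution has an element
of order 8.
-/

set_option autoImplicit false

universe u

namespace Cfsg.Agent.Lib.Helper53.ACAB8

open Cfsg.Agent.Lib.Helper25.ACStmt

theorem main : Ab8.{u} := by
  intro G _ _ B₁ hcomm hinv h8
  classical
  obtain ⟨T, hT⟩ := Sylow.exists_subgroup_card_pow_prime (G := ↥B₁) 2 (n := 3)
    (by norm_num; exact h8)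
  have hc : ∀ a b : T, Commute a b := fun a b =>
    Subtype.ext (Subtype.ext (hcomm a.1.1 a.1.2 b.1.1 b.1.2))
  obtain ⟨sq, hsq⟩ : ∃ sq : T →* T, ∀ x, sq x = x ^ 2 :=
    ⟨{ toFun := fun x => x ^ 2, map_one' := one_pow 2,
       map_mul' := fun a b => (hc a b).mul_pow 2 }, fun x => rfl⟩
  have ho : ∀ y : T, y ≠ 1 → y ^ 2 = 1 → orderOf ((y : ↥B₁) : G) = 2 := by
    intro y hy1 hy2
    rw [Subgroup.orderOf_coe, Subgroup.orderOf_coe]
    exact orderOf_eq_prime hy2 hy1
  have hker : Nat.card sq.ker ≤ 2 := by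
    by_cases hex : ∃ t₀ : T, t₀ ≠ 1 ∧ t₀ ^ 2 = 1
    · obtain ⟨t₀, ht1, ht2⟩ := hex
      have hsub : (sq.ker : Set T) ⊆ {1, t₀} := by
        intro x hx
        have hx2 : x ^ 2 = 1 := by
          have h1 : sq x = 1 := hx
          rw [hsq] at h1
          exact h1
        by_cases hx1 : x = 1
        · left
          exact hx1
        · right
          have h2 := hinv _ _ (ho x hx1 hx2) (ho t₀ ht1 ht2)
          exact Subtype.ext (Subtype.ext h2)
      have e1 : Nat.card sq.ker = Set.ncard (sq.ker : Set T) :=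
        Nat.card_coe_set_eq (sq.ker : Set T)
      have e2 : Set.ncard (sq.ker : Set T) ≤ Set.ncard ({1, t₀} : Set T) :=
        Set.ncard_le_ncard hsub (Set.toFinite _)
      have e3 : Set.ncard ({1, t₀} : Set T) ≤ 2 := by
        have h3 := Set.ncard_insert_le (1 : T) ({t₀} : Set T)
        rw [Set.ncard_singleton] at h3
        exact h3
      omega
    · have hbot : sq.ker = ⊥ := by
        rw [Subgroup.eq_bot_iff_forall]
        intro x hx
        by_contra hx1
        have h1 : sq x = 1 := hx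
        rw [hsq] at h1
        exact hex ⟨x, hx1, h1⟩
      rw [hbot, Subgroup.card_bot]
      norm_num
  have hc1 : Nat.card T = Nat.card (T ⧸ sq.ker) * Nat.card sq.ker :=
    Subgroup.card_eq_card_quotient_mul_card_subgroup sq.ker
  have hc2 : Nat.card (T ⧸ sq.ker) = Nat.card sq.range :=
    Nat.card_congr (QuotientGroup.quotientKerEquivRange sq).toEquiv
  obtain ⟨x, hx4⟩ : ∃ x : T, x ^ 4 ≠ 1 := by
    by_contra hall
    push Not at hall
    have hrk : sq.range ≤ sq.ker := by
      rintro _ ⟨u, rfl⟩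
      rw [MonoidHom.mem_ker, hsq, hsq, ← pow_mul]
      exact hall u
    have h3 : Nat.card sq.range ≤ 2 := le_trans (Subgroup.card_le_of_le hrk) hker
    have h4 : Nat.card T ≤ 2 * 2 := by
      rw [hc1, hc2]
      exact Nat.mul_le_mul h3 hker
    rw [hT] at h4
    norm_num at h4
  refine ⟨((x : ↥B₁) : G), (x : ↥B₁).2, ?_⟩
  rw [Subgroup.orderOf_coe, Subgroup.orderOf_coe]
  have hd : orderOf x ∣ 2 ^ 3 := by
    rw [← hT]
    exact orderOf_dvd_natCard x
  obtain ⟨j, hj, hjo⟩ := (Nat.dvd_prime_pow Nat.prime_two).mp hd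
  have hj3 : j = 3 := by
    by_contra hne
    have hj2 : j ≤ 2 := by omega
    apply hx4
    have h5 : orderOf x ∣ 4 := by
      rw [hjo]
      exact pow_dvd_pow 2 hj2
    exact orderOf_dvd_iff_pow_eq_one.mp h5
  rw [hjo, hj3]
  norm_num

end Cfsg.Agent.Lib.Helper53.ACAB8
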