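import Mathlib
import Cfsg.Agent.Lib.Helper25.ACStmt

/-!
# S3912 / NOEIGHTHAT (call by helper25)

`Q` with at most one involution and a normal nonabelian `V` of order 8 containing all `x` with
`x ^ 4 = 1` has no element of order 8.
-/

set_option autoImplicit false

universe u

namespace Cfsg.Agent.Lib.Helper53.ACNOEIGHTHAT

open Cfsg.Agent.Lib.Helper25.ACStmt

theorem main : NoEightHat.{u} := by
  intro Q _ _ hinv V hVn hV8 hnab h4 x hx8
  classical
  obtain ⟨a, haV, b, hbV, hab⟩ := hnab
  obtain ⟨z, hz⟩ : ∃ z : Q, z = x ^ 4 := ⟨_, rfl⟩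
  have hx8' : x ^ 8 = 1 := by
    rw [← hx8]
    exact pow_orderOf_eq_one x
  have hz1 : z ≠ 1 := by
    rw [hz]
    intro h
    have h1 := orderOf_dvd_of_pow_eq_one h
    rw [hx8] at h1
    norm_num at h1
  have hzz : z * z = 1 := by
    rw [hz, ← pow_add]
    exact hx8'
  have hzo : orderOf z = 2 := orderOf_eq_prime (by rw [pow_two]; exact hzz) hz1
  have L2 : ∀ q : Q, q * q = 1 → q = 1 ∨ q = z := by
    intro q hq
    by_cases hq1 : q = 1
    · left
      exact hq1
    · right
      exact hinv q z (orderOf_eq_prime (by rw [pow_two]; exact hq) hq1) hzo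
  have L1 : ∀ v ∈ V, v ^ 4 = 1 := by
    intro v hv
    have hd : orderOf v ∣ 2 ^ 3 := by
      have h1 : orderOf (⟨v, hv⟩ : V) ∣ Nat.card V := orderOf_dvd_natCard _
      rw [hV8, Subgroup.orderOf_mk] at h1
      exact h1
    obtain ⟨k, hk, hko⟩ := (Nat.dvd_prime_pow Nat.prime_two).mp hd
    by_cases hk3 : k = 3
    · exfalso
      have hcard : Nat.card (Subgroup.zpowers v) = 8 := by
        rw [Nat.card_zpowers, hko, hk3]
        norm_num
      have hle : Subgroup.zpowers v ≤ V := (Subgroup.zpowers_le).mpr hv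
      have heq : Subgroup.zpowers v = V :=
        Subgroup.eq_of_le_of_card_ge hle (by rw [hcard, hV8])
      have ha : a ∈ Subgroup.zpowers v := by rw [heq]; exact haV
      have hb : b ∈ Subgroup.zpowers v := by rw [heq]; exact hbV
      obtain ⟨m, rfl⟩ := Subgroup.mem_zpowers_iff.mp ha
      obtain ⟨n, rfl⟩ := Subgroup.mem_zpowers_iff.mp hb
      exact hab (Commute.zpow_zpow_self v m n)
    · have hk2 : k ≤ 2 := by omega
      have h5 : orderOf v ∣ 4 := by
        rw [hko]
        exact pow_dvd_pow 2 hk2
      exact orderOf_dvd_iff_pow_eq_one.mp h5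
  have L3 : ∀ v ∈ V, v * v = 1 ∨ v * v = z := by
    intro v hv
    apply L2
    have h1 := L1 v hv
    calc v * v * (v * v) = v ^ 4 := by
          rw [show (4 : ℕ) = 2 + 2 from rfl, pow_add, pow_two]
      _ = 1 := h1
  have L4 : ∀ v ∈ V, z * v = v * z := by
    intro v hv
    rcases L3 v hv with h | h
    · rcases L2 v h with h1 | h1
      · rw [h1]
        simp
      · rw [h1]
    · rw [← h]
      group
  have hzx : z * x = x * z := by
    rw [hz, ← pow_succ, ← pow_succ']
  have F1 : ∀ p ∈ V, ∀ q ∈ V, p * p = z → q * q = z → p * q ≠ q * p → q * p = p * q * z := by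
    intro p hp q hq hpz hqz hne
    rcases L3 (p * q) (V.mul_mem hp hq) with h | h
    · exfalso
      rcases L2 (p * q) h with h1 | h1
      · apply hne
        have h2 : q * p = 1 := by
          calc q * p = p⁻¹ * (p * q) * p := by group
            _ = 1 := by rw [h1]; group
        rw [h1, h2]
      · apply hne
        have h2 : q * p = z := by
          calc q * p = p⁻¹ * (p * q) * p := by group
            _ = p⁻¹ * z * p := by rw [h1]
            _ = p⁻¹ * (z * p) := by group
            _ = p⁻¹ * (p * z) := by rw [L4 p hp]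
            _ = z := by group
        rw [h1, h2]
    · calc q * p = p⁻¹ * ((p * q) * (p * q)) * q⁻¹ := by group
        _ = p⁻¹ * z * q⁻¹ := by rw [h]
        _ = p⁻¹ * (p * p) * q⁻¹ := by rw [hpz]
        _ = p * (q * (q * q) * ((q * q) * (q * q))⁻¹) := by group
        _ = p * (q * z * (z * z)⁻¹) := by rw [hqz]
        _ = p * q * z := by rw [hzz]; group
  obtain ⟨i, hi⟩ : ∃ i : Q, i = x * x := ⟨_, rfl⟩
  have hiV : i ∈ V := by
    apply h4
    rw [hi, ← pow_two, ← pow_mul]
    exact hx8'
  have hii : i * i = z := by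
    rw [hi, hz, show (4 : ℕ) = 2 + 2 from rfl, pow_add, pow_two]
  have hxV : x ∉ V := by
    intro hxV
    have h1 := L1 x hxV
    rw [← hz] at h1
    exact hz1 h1
  have hcz : ∀ v ∈ V, v * v = 1 → ∀ w ∈ V, v * w = w * v := by
    intro v hv hvv w hw
    rcases L2 v hvv with h1 | h1
    · rw [h1]
      simp
    · rw [h1]
      exact L4 w hw
  have haa : a * a = z := by
    rcases L3 a haV with h | h
    · exact absurd (hcz a haV h b hbV) hab
    · exact h
  obtain ⟨j, hjV, hij⟩ : ∃ j ∈ V, i * j ≠ j * i := by
    by_contra hcon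
    push Not at hcon
    have h1 : (i * a) * (i * a) = 1 := by
      calc (i * a) * (i * a) = i * (a * i) * a := by group
        _ = i * (i * a) * a := by rw [hcon a haV]
        _ = (i * i) * (a * a) := by group
        _ = 1 := by rw [hii, haa, hzz]
    have h3 := hcon b hbV
    rcases L2 (i * a) h1 with h2 | h2
    · apply hab
      have ha : a = i⁻¹ := by
        calc a = i⁻¹ * (i * a) := by group
          _ = i⁻¹ := by rw [h2]; group
      rw [ha]
      calc i⁻¹ * b = i⁻¹ * (b * i) * i⁻¹ := by group
        _ = i⁻¹ * (i * b) * i⁻¹ := by rw [h3]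
        _ = b * i⁻¹ := by group
    · apply hab
      have ha : a = i⁻¹ * z := by
        calc a = i⁻¹ * (i * a) := by group
          _ = i⁻¹ * z := by rw [h2]
      have h4' := L4 b hbV
      rw [ha]
      calc i⁻¹ * z * b = i⁻¹ * (z * b) := by group
        _ = i⁻¹ * (b * z) := by rw [h4']
        _ = i⁻¹ * (b * i) * i⁻¹ * z := by group
        _ = i⁻¹ * (i * b) * i⁻¹ * z := by rw [h3]
        _ = b * (i⁻¹ * z) := by group
  have hjj : j * j = z := by
    rcases L3 j hjV with h | h
    · exact absurd (hcz j hjV h i hiV).symm hij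
    · exact h
  obtain ⟨j', hj'⟩ : ∃ j' : Q, j' = x⁻¹ * j * x := ⟨_, rfl⟩
  have hj'V : j' ∈ V := by
    rw [hj']
    have h1 := hVn.conj_mem j hjV x⁻¹
    simpa using h1
  have hj'j' : j' * j' = z := by
    calc j' * j' = x⁻¹ * (j * j) * x := by rw [hj']; group
      _ = x⁻¹ * (z * x) := by rw [hjj]; group
      _ = x⁻¹ * (x * z) := by rw [hzx]
      _ = z := by group
  have hij' : i * j' ≠ j' * i := by
    intro h
    apply hij
    have e1 : i * j = x * (i * j') * x⁻¹ := by rw [hj', hi]; group
    have e2 : j * i = x * (j' * i) * x⁻¹ := by rw [hj', hi]; group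
    rw [e1, e2, h]
  by_cases hc : j' * j = j * j'
  · -- `x` normalizes `zpowers j`: contradiction
    have hjinv : j⁻¹ * j' = j' * j⁻¹ := by
      calc j⁻¹ * j' = j⁻¹ * (j' * j) * j⁻¹ := by group
        _ = j⁻¹ * (j * j') * j⁻¹ := by rw [hc]
        _ = j' * j⁻¹ := by group
    have h1 : (j' * j⁻¹) * (j' * j⁻¹) = 1 := by
      calc (j' * j⁻¹) * (j' * j⁻¹) = j' * (j⁻¹ * j') * j⁻¹ := by group
        _ = j' * (j' * j⁻¹) * j⁻¹ := by rw [hjinv]
        _ = (j' * j') * (j * j)⁻¹ := by group
        _ = 1 := by rw [hj'j', hjj]; group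
    have h2 : x⁻¹ * j' * x = j := by
      rcases L2 _ h1 with h | h
      · have hj'eq : j' = j := by
          calc j' = (j' * j⁻¹) * j := by group
            _ = j := by rw [h]; group
        rw [hj'eq]
        exact hj'.symm.trans hj'eq
      · have hj'eq : j' = z * j := by
          calc j' = (j' * j⁻¹) * j := by group
            _ = z * j := by rw [h]
        calc x⁻¹ * j' * x = x⁻¹ * (z * j) * x := by rw [← hj'eq]
          _ = (x⁻¹ * (z * x)) * (x⁻¹ * j * x) := by group
          _ = (x⁻¹ * (x * z)) * j' := by rw [hzx, ← hj']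
          _ = z * j' := by group
          _ = z * (z * j) := by rw [← hj'eq]
          _ = j := by rw [← mul_assoc, hzz, one_mul]
    apply hij
    have h3 : x⁻¹ * j' * x = i⁻¹ * j * i := by rw [hj', hi]; group
    rw [h3] at h2
    calc i * j = i * (i⁻¹ * j * i) := by rw [h2]
      _ = j * i := by group
  · have R1 : j * i = i * j * z := F1 i hiV j hjV hii hjj hij
    have R2 : j' * i = i * j' * z := F1 i hiV j' hj'V hii hj'j' hij'
    have R3 : j * j' = j' * j * z := F1 j' hj'V j hjV hj'j' hjj hc
    have hzj : z * j = j * z := L4 j hjV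
    have hmm : (j' * j) * (j' * j) = z := by
      calc (j' * j) * (j' * j) = j' * (j * j') * j := by group
        _ = j' * (j' * j * z) * j := by rw [R3]
        _ = j' * j' * j * (z * j) := by group
        _ = j' * j' * j * (j * z) := by rw [hzj]
        _ = (j' * j') * (j * j) * z := by group
        _ = z := by rw [hj'j', hjj, hzz, one_mul]
    have him : (j' * j) * i = i * (j' * j) := by
      calc (j' * j) * i = j' * (j * i) := by group
        _ = j' * (i * j * z) := by rw [R1]
        _ = (j' * i) * j * z := by group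
        _ = (i * j' * z) * j * z := by rw [R2]
        _ = i * j' * (z * j) * z := by group
        _ = i * j' * (j * z) * z := by rw [hzj]
        _ = i * (j' * j) * (z * z) := by group
        _ = i * (j' * j) := by rw [hzz, mul_one]
    have hw : (x * j) ^ 4 = 1 := by
      have e1 : (x * j) * (x * j) = i * (j' * j) := by rw [hi, hj']; group
      calc (x * j) ^ 4 = ((x * j) * (x * j)) * ((x * j) * (x * j)) := by
            rw [show (4 : ℕ) = 2 + 2 from rfl, pow_add, pow_two]
        _ = (i * (j' * j)) * (i * (j' * j)) := by rw [e1]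
        _ = i * ((j' * j) * i) * (j' * j) := by group
        _ = i * (i * (j' * j)) * (j' * j) := by rw [him]
        _ = (i * i) * ((j' * j) * (j' * j)) := by group
        _ = 1 := by rw [hii, hmm, hzz]
    have hxjV : x * j ∈ V := h4 _ hw
    apply hxV
    have e3 : x = (x * j) * j⁻¹ := by group
    rw [e3]
    exact V.mul_mem hxjV (V.inv_mem hjV)

end Cfsg.Agent.Lib.Helper53.ACNOEIGHTHAT
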