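import Mathlib
import Cfsg.Agent.Lib.Helper25.ACStmt
import Cfsg.Agent.Lib.Helper63.PFrattini

/-!
# S3912 / PAB (call by helper25)

`r` odd, `P` an `r`-group, `N` of order `r` containing all elements of order `r` and all
commutators: `P` is abelian (class-2 power map).
-/

set_option autoImplicit false

universe u

namespace Cfsg.Agent.Lib.Helper53.ACPAB

open Cfsg.Agent.Lib.Helper25.ACStmt

/-- `y ^ k * x = c ^ k * (x * y ^ k)` for a central `c` with `y * x = c * (x * y)`. -/
theorem pow_mul_comm' {P : Type u} [Group P] (x y c : P) (hc : ∀ z : P, z * c = c * z)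
    (hyx : y * x = c * (x * y)) (k : ℕ) : y ^ k * x = c ^ k * (x * y ^ k) := by
  have hck : ∀ (j : ℕ) (z : P), z * c ^ j = c ^ j * z := by
    intro j z
    have h1 : Commute z c := hc z
    exact (h1.pow_right j)
  induction k with
  | zero => simp
  | succ k ih =>
    calc y ^ (k + 1) * x = y * (y ^ k * x) := by rw [pow_succ', mul_assoc]
      _ = y * (c ^ k * (x * y ^ k)) := by rw [ih]
      _ = c ^ k * (y * x) * y ^ k := by
        rw [← mul_assoc y, hck k y]
        simp only [mul_assoc]
      _ = c ^ k * (c * (x * y)) * y ^ k := by rw [hyx]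
      _ = c ^ (k + 1) * (x * y ^ (k + 1)) := by
        rw [pow_succ c k, pow_succ' y k]
        simp only [mul_assoc]

/-- `(x * y) ^ n = c ^ (0 + 1 + ... + (n - 1)) * (x ^ n * y ^ n)`. -/
theorem mul_pow_class_two {P : Type u} [Group P] (x y c : P) (hc : ∀ z : P, z * c = c * z)
    (hyx : y * x = c * (x * y)) (n : ℕ) :
    (x * y) ^ n = c ^ (∑ i ∈ Finset.range n, i) * (x ^ n * y ^ n) := by
  have hck : ∀ (j : ℕ) (z : P), z * c ^ j = c ^ j * z := by
    intro j z
    have h1 : Commute z c := hc z
    exact (h1.pow_right j)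
  induction n with
  | zero => simp
  | succ n ih =>
    calc (x * y) ^ (n + 1) = (x * y) ^ n * (x * y) := pow_succ _ _
      _ = c ^ (∑ i ∈ Finset.range n, i) * (x ^ n * y ^ n) * (x * y) := by rw [ih]
      _ = c ^ (∑ i ∈ Finset.range n, i) * (x ^ n * (y ^ n * x) * y) := by
        simp only [mul_assoc]
      _ = c ^ (∑ i ∈ Finset.range n, i) * (x ^ n * (c ^ n * (x * y ^ n)) * y) := by
        rw [pow_mul_comm' x y c hc hyx n]
      _ = c ^ (∑ i ∈ Finset.range n, i) * (c ^ n * (x ^ n * (x * y ^ n)) * y) := by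
        rw [← mul_assoc (x ^ n) (c ^ n), hck n (x ^ n), mul_assoc (c ^ n)]
      _ = c ^ (∑ i ∈ Finset.range (n + 1), i) * (x ^ (n + 1) * y ^ (n + 1)) := by
        rw [Finset.sum_range_succ, pow_add, pow_succ x n, pow_succ y n]
        simp only [mul_assoc]

theorem main : PAb.{u} := by
  intro P _ _ r _ hr2 hP N hN hord hcomm
  classical
  have hr : r.Prime := Fact.out
  have hNn : N.Normal := ⟨fun n hn g => by
    have h1 := hcomm g n
    have h2 : g * n * g⁻¹ = (g * n * g⁻¹ * n⁻¹) * n := by group
    rw [h2]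
    exact N.mul_mem h1 hn⟩
  have hNZ : N ≤ Subgroup.center P :=
    Cfsg.Agent.Lib.Helper63.PFrattini.normal_card_prime_le_center hP N hN
  have hcent : ∀ a b z : P, z * (a * b * a⁻¹ * b⁻¹) = (a * b * a⁻¹ * b⁻¹) * z := by
    intro a b z
    exact (Subgroup.mem_center_iff.mp (hNZ (hcomm a b))) z
  have hNpow : ∀ n ∈ N, n ^ r = 1 := by
    intro n hn
    have h1 : (⟨n, hn⟩ : N) ^ Nat.card N = 1 := pow_card_eq_one'
    rw [hN] at h1
    exact congrArg Subtype.val h1
  -- `r` divides the triangular number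
  have hT : r ∣ ∑ i ∈ Finset.range r, i := by
    have h1 := Finset.sum_range_id_mul_two r
    have h2 : r ∣ (∑ i ∈ Finset.range r, i) * 2 := by
      rw [h1]
      exact dvd_mul_right r (r - 1)
    have h3 : Nat.Coprime r 2 := by
      rw [Nat.coprime_primes hr Nat.prime_two]
      exact hr2
    exact h3.dvd_of_dvd_mul_right h2
  -- the power map is a homomorphism
  have hpow : ∀ x y : P, (x * y) ^ r = x ^ r * y ^ r := by
    intro x y
    have hyx : y * x = (y * x * y⁻¹ * x⁻¹) * (x * y) := by group
    have h1 := mul_pow_class_two x y (y * x * y⁻¹ * x⁻¹) (hcent y x) hyx r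
    obtain ⟨t, ht⟩ := hT
    rw [h1, ht, pow_mul, hNpow _ (hcomm y x), one_pow, one_mul]
  -- `r`-th powers are central
  have hpc : ∀ u t : P, t * u ^ r = u ^ r * t := by
    intro u t
    have h1 : t * u * t⁻¹ = (t * u * t⁻¹ * u⁻¹) * u := by group
    have h2 : (t * u * t⁻¹) ^ r = u ^ r := by
      rw [h1]
      have h3 : Commute (t * u * t⁻¹ * u⁻¹) u := (hcent t u u).symm
      rw [h3.mul_pow, hNpow _ (hcomm t u), one_mul]
    rw [conj_pow] at h2
    calc t * u ^ r = t * u ^ r * t⁻¹ * t := by group
      _ = u ^ r * t := by rw [h2]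
  obtain ⟨φ, hφ⟩ : ∃ φ : P →* P, ∀ x, φ x = x ^ r :=
    ⟨{ toFun := fun x => x ^ r, map_one' := one_pow r, map_mul' := hpow }, fun x => rfl⟩
  have hker : φ.ker ≤ N := by
    intro x hx
    rw [MonoidHom.mem_ker, hφ] at hx
    by_cases hx1 : x = 1
    · rw [hx1]
      exact N.one_mem
    · exact hord x (orderOf_eq_prime hx hx1)
  have hrange : φ.range ≤ Subgroup.center P := by
    rintro _ ⟨u, rfl⟩
    rw [Subgroup.mem_center_iff]
    intro t
    rw [hφ]
    exact hpc u t
  have hc1 : Nat.card P = Nat.card (P ⧸ φ.ker) * Nat.card φ.ker :=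
    Subgroup.card_eq_card_quotient_mul_card_subgroup φ.ker
  have hc2 : Nat.card (P ⧸ φ.ker) = Nat.card φ.range :=
    Nat.card_congr (QuotientGroup.quotientKerEquivRange φ).toEquiv
  have hc3 : Nat.card φ.ker ≤ r := by
    rw [← hN]
    exact Subgroup.card_le_of_le hker
  have hc4 : Nat.card φ.range ≤ Nat.card (Subgroup.center P) := Subgroup.card_le_of_le hrange
  have hc5 := Subgroup.card_mul_index (Subgroup.center P)
  have hpos : 0 < Nat.card (Subgroup.center P) := Nat.card_pos
  have hidx : (Subgroup.center P).index ≤ r := by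
    have h1 : Nat.card (Subgroup.center P) * (Subgroup.center P).index ≤
        Nat.card (Subgroup.center P) * r := by
      rw [hc5, hc1, hc2]
      exact Nat.mul_le_mul hc4 hc3
    exact Nat.le_of_mul_le_mul_left h1 hpos
  obtain ⟨n, hn⟩ := hP.index (Subgroup.center P)
  have hcyc : IsCyclic (P ⧸ Subgroup.center P) := by
    have hcardq : Nat.card (P ⧸ Subgroup.center P) = (Subgroup.center P).index := rfl
    rcases Nat.lt_or_ge n 1 with h0 | h1
    · have hn0 : n = 0 := by omega
      rw [hn0, pow_zero] at hn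
      have hsub : Subsingleton (P ⧸ Subgroup.center P) := by
        rw [← Finite.card_le_one_iff_subsingleton, hcardq, hn]
      exact isCyclic_of_subsingleton
    · have hn1 : n = 1 := by
        by_contra hne
        have h2 : 2 ≤ n := by omega
        have h3 : r ^ 2 ≤ r ^ n := Nat.pow_le_pow_right hr.pos h2
        have h4 : r * 2 ≤ r ^ 2 := by
          rw [pow_two]
          exact Nat.mul_le_mul_left r hr.two_le
        have h5 := hr.pos
        omega
      rw [hn1, pow_one] at hn
      exact isCyclic_of_prime_card (p := r) (by rw [hcardq, hn])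
  intro a b
  exact commutative_of_cyclic_center_quotient (QuotientGroup.mk' (Subgroup.center P))
    (by rw [QuotientGroup.ker_mk']) a b

end Cfsg.Agent.Lib.Helper53.ACPAB
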