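import Mathlib
import Cfsg.Agent.Lib.Helper30.CTIStmt

/-!
# S4064 piece SE1 (helper30's call): a maximal centralizer of even order in a nonsolvable
CN-group has a strongly embedded normalizer (sub-assembly of N3, INVM, N5, CINV, N6).
-/

set_option autoImplicit false
universe u

namespace Cfsg.Agent.Lib.Helper53.CTISE1

open Cfsg.Agent.Lib.Helper30.CTIStmt

theorem ord_conj' {G : Type u} [Group G] (g t : G) : orderOf (g * t * g⁻¹) = orderOf t := by
  have h := (MulAut.conj g).orderOf_eq t
  rwa [MulAut.conj_apply] at h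

theorem main : SE1.{u} := by
  intro hN3 hINVM hN5 hCINV hN6 G _ _ hCN hns M hM heven
  have hNM : NM M ≠ ⊤ := by
    intro h
    have hnorm : M.Normal := Subgroup.normalizer_eq_top_iff.mp h
    exact hns (hN3 G hCN M hnorm hM.nil heven hM.hall)
  have hinvM := hINVM G M heven hM.hall
  have hse := hN5 G M heven hM.ti hinvM hNM
  have h2 : 2 ∣ Nat.card M := even_iff_two_dvd.mp heven
  obtain ⟨t, ht⟩ := exists_prime_orderOf_dvd_card' 2 h2
  have ht2 : orderOf (t : G) = 2 := by rw [Subgroup.orderOf_coe]; exact ht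
  have ht1 : (t : G) ≠ 1 := by
    intro h
    rw [h, orderOf_one] at ht2
    omega
  obtain ⟨g, hg⟩ : ∃ g : G, g ∉ NM M := by
    by_contra hall
    push Not at hall
    exact hNM (eq_top_iff.2 (fun g _ => hall g))
  have huex : ∃ u : G, orderOf u = 2 ∧ u ∉ NM M := by
    refine ⟨g * t * g⁻¹, ?_, ?_⟩
    · rw [ord_conj', ht2]
    · intro hu
      have h3 := hinvM _ hu (by rw [ord_conj', ht2])
      exact hg (hM.ti g t t.2 ht1 h3)
  obtain ⟨z, hzc, hz2⟩ := hCINV M hM.nil heven
  have hcen : ∃ z ∈ M, orderOf z = 2 ∧ ∀ m ∈ M, z * m = m * z := by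
    refine ⟨z, z.2, by rw [Subgroup.orderOf_coe]; exact hz2, ?_⟩
    intro m hm
    have h4 := Subgroup.mem_center_iff.mp hzc ⟨m, hm⟩
    exact (congrArg Subtype.val h4).symm
  exact { hM with even := heven, se := hse, invM := hinvM, cv := hN6 G M hse huex hcen, uex := huex }

end Cfsg.Agent.Lib.Helper53.CTISE1
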