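import Mathlib
import Cfsg.Agent.Lib.Helper30.CTIStmt
import Cfsg.Agent.S1224

/-!
# S4064 piece SE2 (helper30's call): the stage-3 facts `ZD G M` from the stage-2 facts
(sub-assembly of DM, NCARD, DCARD, HMD, N4; uses S1224).
-/

set_option autoImplicit false
universe u

namespace Cfsg.Agent.Lib.Helper53.CTISE2

open Cfsg.Agent.Lib.Helper30.CTIStmt

theorem main : SE2.{u} := by
  intro hDM hNCARD hDCARD hHMD hN4 G _ _ hns M hS
  have hcard := hNCARD G M hS.cc hS.se hS.uex hS.invM hS.cv hS.even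
  have hdM : ∀ u : G, orderOf u = 2 → u ∉ NM M → DU (NM M) u ⊓ M = ⊥ :=
    fun u hu hn => hDM G M hS.cc hS.ti u hu hn
  have hD := fun (u : G) (hu : orderOf u = 2) (hn : u ∉ NM M) =>
    hDCARD G M hS.cc hS.se hS.even u hu hn (hdM u hu hn)
  have hMle : M ≤ NM M := Subgroup.le_normalizer
  have hi2 : 2 ≤ nInv (NM M) := by
    by_contra hlt
    obtain ⟨t, ht⟩ := exists_prime_orderOf_dvd_card' 2 (even_iff_two_dvd.mp hS.even)
    have ht2 : orderOf (t : G) = 2 := by rw [Subgroup.orderOf_coe]; exact ht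
    have ht1 : (t : G) ≠ 1 := by
      intro h
      rw [h, orderOf_one] at ht2
      omega
    have hpos : 0 < nInv (NM M) := Nat.card_pos_iff.2 ⟨⟨⟨(t : G), ht2, hMle t.2⟩⟩, inferInstance⟩
    have h1 : nInv (NM M) = 1 := by omega
    rw [h1, mul_one] at hcard
    have hEq : M = NM M := Subgroup.eq_of_le_of_card_ge hMle hcard.le
    have hMbot : M ≠ ⊥ := by
      intro h
      have : (t : G) ∈ (⊥ : Subgroup G) := h ▸ t.2
      exact ht1 (Subgroup.mem_bot.1 this)
    have hMtop : M ≠ ⊤ := by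
      rw [hEq]
      exact hS.se.1
    have hF : Cfsg.IsFrobeniusComplement M := by
      refine ⟨hMbot, hMtop, ?_⟩
      intro g hg
      rw [eq_bot_iff]
      rintro y ⟨hyM, hyc⟩
      rw [Subgroup.mem_bot]
      by_contra hy1
      obtain ⟨m, hmM, hm⟩ := (Subgroup.mem_smul_pointwise_iff_exists _ _ _).1 hyc
      rw [MulAut.smul_def, MulAut.conj_apply] at hm
      have hm1 : m ≠ 1 := by
        rintro rfl
        apply hy1
        rw [← hm]
        group
      have hgN : g ∈ NM M := hS.ti g m hmM hm1 (by rw [hm]; exact hyM)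
      rw [← hEq] at hgN
      exact hg hgN
    exact hns (hN4 G M hF hS.nil)
  refine { cc := hS.cc, se := hS.se, invM := hS.invM, even := hS.even, hcard := hcard, i2 := hi2,
           dM := hdM, dcard := fun u hu hn => (hD u hu hn).1, dinv := fun u hu hn => (hD u hu hn).2,
           hmd := ?_, swap := ?_ }
  · intro u hu hn
    exact hHMD G (NM M) M (DU (NM M) u) hMle inf_le_left (hdM u hu hn)
      (by rw [hcard, (hD u hu hn).1])
  · intro x y hxy
    have h := Cfsg.Agent.S1224.result (NM M) hS.se x y hxy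
    have hpos : 0 < Nat.card {i : G // orderOf i = 2 ∧ i • x = y} := by
      rw [h]
      exact (by omega : 0 < nInv (NM M))
    obtain ⟨⟨w, hw⟩⟩ := (Nat.card_pos_iff.1 hpos).1
    exact ⟨w, hw.1, hw.2⟩

end Cfsg.Agent.Lib.Helper53.CTISE2
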