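import Mathlib
import Cfsg.Agent.Lib.Helper40.GFStmt

/-!
# S5886 / ALL2 (call by helper40)

All special `F`-transvections in `c.M` give all `F`-transvections in `c.M` (one conjugation).
-/

set_option autoImplicit false

universe u

namespace Cfsg.Agent.Lib.Helper53.GFALL2

open Cfsg.Agent.Lib.Helper40.GFStmt

theorem main : All2.{u} := by
  intro F L _ _ _ _ k c hk τ hτ hall z φs hτκ
  classical
  by_cases hκ : φs z = 0
  · exact hall z φs hκ
  -- `cm` with `τ cm = -1`
  obtain ⟨cm, hcm⟩ : ∃ cm : L, τ cm = -1 := by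
    obtain ⟨a, ha⟩ : ∃ a, τ a ≠ 0 := by
      by_contra h
      push Not at h
      exact hτ (LinearMap.ext fun a => by rw [h a]; rfl)
    refine ⟨(-(τ a)⁻¹) • a, ?_⟩
    rw [map_smul, smul_eq_mul, neg_mul, inv_mul_cancel₀ ha]
  -- `y ≠ 0` in the kernel of `φs`
  obtain ⟨y, hy0, hφy⟩ : ∃ y : V k L, y ≠ 0 ∧ φs y = 0 := by
    have h1 := LinearMap.finrank_range_add_finrank_ker φs
    have h2 : Module.finrank L (LinearMap.range φs) ≤ 1 := by
      have h4 := Submodule.finrank_le (LinearMap.range φs)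
      rw [Module.finrank_self] at h4
      exact h4
    rw [Module.finrank_fintype_fun_eq_card, Fintype.card_fin] at h1
    have h3 : 0 < Module.finrank L (LinearMap.ker φs) := by omega
    obtain ⟨y, hy⟩ := Module.finrank_pos_iff_exists_ne_zero.mp h3
    exact ⟨y.1, fun h => hy (Subtype.ext h), LinearMap.mem_ker.mp y.2⟩
  -- `χ` with `χ z = 0`, `χ y ≠ 0`
  have hynot : y ∉ Submodule.span L ({z} : Set (V k L)) := by
    intro hmem
    obtain ⟨a, rfl⟩ := Submodule.mem_span_singleton.mp hmem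
    rw [map_smul, smul_eq_mul] at hφy
    rcases mul_eq_zero.mp hφy with h | h
    · apply hy0
      rw [h, zero_smul]
    · exact hκ h
  obtain ⟨χ, hχy, hχle⟩ := Submodule.exists_le_ker_of_notMem hynot
  have hχz : χ z = 0 := LinearMap.mem_ker.mp (hχle (Submodule.mem_span_singleton_self z))
  obtain ⟨z', hz'⟩ : ∃ z' : V k L, z' = (cm / φs z) • z + y := ⟨_, rfl⟩
  obtain ⟨φ', hφ'⟩ : ∃ φ' : V k L →ₗ[L] L, φ' = φs + (-cm / χ y) • χ := ⟨_, rfl⟩
  have hφsz' : φs z' = cm := by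
    rw [hz', map_add, map_smul, hφy, add_zero, smul_eq_mul, div_mul_cancel₀ _ hκ]
  have hχz' : χ z' = χ y := by
    rw [hz', map_add, map_smul, hχz, smul_zero, zero_add]
  have hφ'z' : φ' z' = 0 := by
    rw [hφ', LinearMap.add_apply, LinearMap.smul_apply, hφsz', hχz', smul_eq_mul,
      div_mul_cancel₀ _ hχy]
    ring
  have hφ'z : φ' z = φs z := by
    rw [hφ', LinearMap.add_apply, LinearMap.smul_apply, hχz, smul_zero, add_zero]
  obtain ⟨φ, hφ⟩ : ∃ φ : V k L →ₗ[L] L, φ = φs - φ' := ⟨_, rfl⟩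
  have hφz : φ z = 0 := by rw [hφ, LinearMap.sub_apply, hφ'z, sub_self]
  have hφz' : φ z' = cm := by rw [hφ, LinearMap.sub_apply, hφ'z', hφsz', sub_zero]
  obtain ⟨e, heM, he⟩ := hall z φ hφz
  obtain ⟨T, hTM, hT⟩ := hall z' φ' hφ'z'
  have he' : ∀ x, e x = x + τ (φ x) • z := he
  have hT' : ∀ x, T x = x + τ (φ' x) • z' := hT
  have hφ'F : ∀ (s : F) (w : V k L), φ' (s • w) = s • φ' w := by
    intro s w
    rw [smulF, map_smul, algebraMap_smul]
  have hφF : ∀ (s : F) (w : V k L), φ (s • w) = s • φ w := by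
    intro s w
    rw [smulF, map_smul, algebraMap_smul]
  have hTi : ∀ x, T⁻¹ x = x - τ (φ' x) • z' := by
    intro x
    apply T.injective
    have h1 : T (T⁻¹ x) = x := by
      rw [← LinearEquiv.mul_apply, mul_inv_cancel]
      rfl
    rw [h1, hT', map_sub, hφ'F, hφ'z', smul_zero, sub_zero]
    abel
  refine ⟨T * e * T⁻¹, c.M.mul_mem (c.M.mul_mem hTM heM) (c.M.inv_mem hTM), ?_⟩
  intro x
  have h1 : τ (φ (x - τ (φ' x) • z')) = τ (φs x) := by
    rw [map_sub, hφF, hφz', map_sub, map_smul, hcm, smul_eq_mul, mul_neg, mul_one,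
      sub_neg_eq_add, hφ, LinearMap.sub_apply, map_sub]
    ring
  have h2 : τ (φ' (x - τ (φ' x) • z' + τ (φs x) • z)) = τ (φ' x) := by
    rw [map_add, map_sub, hφ'F, hφ'F, hφ'z', hφ'z, smul_zero, sub_zero, map_add, map_smul, hτκ,
      smul_zero, add_zero]
  rw [LinearEquiv.mul_apply, LinearEquiv.mul_apply, hTi, he', hT', h1, h2]
  abel

end Cfsg.Agent.Lib.Helper53.GFALL2
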