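import Mathlib
import Cfsg.Agent.Lib.Helper40.GFStmt
import Cfsg.Agent.Lib.Helper40.KStr

/-!
# S5886 / K3 (call by helper40)

`k ≥ 3`: the commutator of `T` with an `L`-transvection along `v` whose functional kills `v` and
`p` is a special `F`-transvection.
-/

set_option autoImplicit false

universe u

namespace Cfsg.Agent.Lib.Helper53.GFK3

open Cfsg.Agent.Lib.Helper40.GFStmt

theorem main : K3.{u} := by
  intro F L _ _ _ _ k c hk τ hτ v e b p hv he hb hT
  obtain ⟨T, hTM, hTv, hTx⟩ := hT
  classical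
  -- a nonzero functional killing `v` and `p`
  obtain ⟨ψ, hψ0, hψv, hψp⟩ : ∃ ψ : V k L →ₗ[L] L, ψ ≠ 0 ∧ ψ v = 0 ∧ ψ p = 0 := by
    have hlt : Submodule.span L ({v, p} : Set (V k L)) < ⊤ := by
      rw [lt_top_iff_ne_top]
      intro htop
      have h1 : Module.finrank L (Submodule.span L ({v, p} : Set (V k L))) ≤ 2 := by
        have h3 := finrank_span_finset_le_card (R := L) ({v, p} : Finset (V k L))
        have h2 : ({v, p} : Finset (V k L)).card ≤ 2 := Finset.card_le_two
        simp only [Finset.coe_insert, Finset.coe_singleton] at h3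
        unfold Set.finrank at h3
        omega
      rw [htop, finrank_top, Module.finrank_fintype_fun_eq_card, Fintype.card_fin] at h1
      omega
    obtain ⟨ψ, hψ0, hle⟩ := Submodule.exists_le_ker_of_lt_top _ hlt
    refine ⟨ψ, hψ0, ?_, ?_⟩
    · exact LinearMap.mem_ker.mp (hle (Submodule.subset_span (by simp)))
    · exact LinearMap.mem_ker.mp (hle (Submodule.subset_span (by simp)))
  obtain ⟨cb, hcb⟩ := Cfsg.Agent.Lib.Helper40.KStr.exists_rep τ hτ b
  obtain ⟨t, ht⟩ : ∃ t : V k L ≃ₗ[F] V k L,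
      t = (LinearEquiv.transvection hψv).restrictScalars F := ⟨_, rfl⟩
  have htM : t ∈ c.M := by
    rw [ht]
    exact mem_tv c ψ v hψv
  have htx : ∀ x, t x = x + ψ x • v := by
    intro x
    rw [ht]
    show (LinearEquiv.transvection hψv) x = _
    rw [LinearEquiv.transvection.apply]
  have hTi : ∀ y, T (T⁻¹ y) = y := by
    intro y
    rw [← LinearEquiv.mul_apply, mul_inv_cancel]
    rfl
  have hti : ∀ x, t⁻¹ x = x - ψ x • v := by
    intro x
    apply t.injective
    have h1 : t (t⁻¹ x) = x := by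
      rw [← LinearEquiv.mul_apply, mul_inv_cancel]
      rfl
    rw [h1, htx, map_sub, map_smul, hψv, smul_zero, sub_zero]
    abel
  have hψF : ∀ s : F, ψ (s • p) = 0 := by
    intro s
    rw [smulF, map_smul, hψp, smul_zero]
  have hψT : ∀ y, ψ (T y) = ψ y := by
    intro y
    obtain ⟨a', s, h⟩ := hTx y
    have h1 : T y = y + (a' • v + s • p) := by
      rw [← h]
      abel
    rw [h1, map_add, map_add, map_smul, hψv, hψF, smul_zero, add_zero, add_zero]
  have hψTi : ∀ y, ψ (T⁻¹ y) = ψ y := by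
    intro y
    have h1 := hψT (T⁻¹ y)
    rw [hTi] at h1
    exact h1.symm
  refine ⟨T * t * T⁻¹ * t⁻¹,
    c.M.mul_mem (c.M.mul_mem (c.M.mul_mem hTM htM) (c.M.inv_mem hTM)) (c.M.inv_mem htM),
    e • v, cb • ψ, ?_, ?_, ?_, ?_⟩
  · exact smul_ne_zero he hv
  · have hcb0 : cb ≠ 0 := by
      rintro rfl
      apply hb
      ext a
      rw [hcb, mul_zero, map_zero, LinearMap.zero_apply]
    exact smul_ne_zero hcb0 hψ0
  · rw [LinearMap.smul_apply, map_smul, hψv, smul_zero, smul_zero]
  · intro x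
    rw [LinearEquiv.mul_apply, LinearEquiv.mul_apply, LinearEquiv.mul_apply, hti, htx, hψTi]
    rw [map_add, hTi, hTv, map_sub, map_smul, hψv, smul_zero, sub_zero]
    rw [LinearMap.smul_apply, smul_eq_mul, mul_comm cb, ← hcb, add_smul, smul_assoc]
    abel

end Cfsg.Agent.Lib.Helper53.GFK3
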