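import Mathlib
import Cfsg.Agent.Lib.Helper53.SylowConj

set_option autoImplicit false

namespace Cfsg.Agent.Lib.Helper53.GL5

open Matrix

theorem card_GL5 : Nat.card (GL (Fin 5) (ZMod 2)) = 9999360 := by
  rw [Matrix.card_GL_field 5 (𝔽 := ZMod 2), ZMod.card, Fin.prod_univ_five]
  rfl

/-- `A ⊕ 1₃` with `A` of order 3 -/
def Ma : Matrix (Fin 5) (Fin 5) (ZMod 2) :=
  !![0,1,0,0,0;
     1,1,0,0,0;
     0,0,1,0,0;
     0,0,0,1,0;
     0,0,0,0,1]

/-- `A ⊕ A ⊕ 1` -/
def Mc : Matrix (Fin 5) (Fin 5) (ZMod 2) :=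
  !![0,1,0,0,0;
     1,1,0,0,0;
     0,0,0,1,0;
     0,0,1,1,0;
     0,0,0,0,1]

theorem Ma_cube : Ma * (Ma * Ma) = 1 := by decide +kernel
theorem Ma_cube' : (Ma * Ma) * Ma = 1 := by decide +kernel
theorem Mc_cube : Mc * (Mc * Mc) = 1 := by decide +kernel
theorem Mc_cube' : (Mc * Mc) * Mc = 1 := by decide +kernel
theorem Ma_ne : Ma ≠ 1 := by decide +kernel
theorem Mc_ne : Mc ≠ 1 := by decide +kernel
theorem trace_Ma : Matrix.trace Ma = 0 := by decide +kernel
theorem trace_Ma2 : Matrix.trace (Ma * Ma) = 0 := by decide +kernel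
theorem trace_Mc : Matrix.trace Mc = 1 := by decide +kernel


/-- the general linear group `GL₅(𝔽₂)` has no element of order 9 -/
theorem no_order_nine (g : GL (Fin 5) (ZMod 2)) : orderOf g ≠ 9 := by
  intro hg
  have hF3 : Fact (Nat.Prime 3) := ⟨by norm_num⟩
  have hcard : Nat.card (Subgroup.zpowers g) = 9 := by rw [Nat.card_zpowers, hg]
  have hpg : IsPGroup 3 (Subgroup.zpowers g) :=
    IsPGroup.of_card (n := 2) (by rw [hcard]; norm_num)
  obtain ⟨P, hP⟩ := hpg.exists_le_sylow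
  have hPcard : Nat.card P = 9 := by
    obtain ⟨k, hk⟩ := IsPGroup.exists_card_eq P.2
    have h1 : Nat.card (P : Subgroup (GL (Fin 5) (ZMod 2))) ∣ 9999360 := by
      rw [← card_GL5]; exact Subgroup.card_subgroup_dvd_card _
    have h3 : 9 ∣ Nat.card (P : Subgroup (GL (Fin 5) (ZMod 2))) := by
      rw [← hcard]; exact Subgroup.card_dvd_of_le hP
    have hk' : Nat.card (P : Subgroup (GL (Fin 5) (ZMod 2))) = 3 ^ k := hk
    rw [hk'] at h1 h3
    have hk3 : k < 3 := by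
      by_contra hcon
      have h4 : 3 ^ 3 ∣ 3 ^ k := pow_dvd_pow 3 (by omega)
      have h5 : 3 ^ 3 ∣ 9999360 := h4.trans h1
      norm_num at h5
    have hk2 : k = 2 := by
      interval_cases k
      · norm_num at h3
      · norm_num at h3
      · rfl
    show Nat.card (P : Subgroup (GL (Fin 5) (ZMod 2))) = 9
    rw [hk', hk2]; norm_num
  have hPeq : Subgroup.zpowers g = (P : Subgroup (GL (Fin 5) (ZMod 2))) :=
    Subgroup.eq_of_le_of_card_ge hP (by rw [hcard]; exact hPcard.le)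
  have hg9 : g ^ 9 = 1 := by rw [← hg, pow_orderOf_eq_one]
  obtain ⟨y, hy⟩ : ∃ y : GL (Fin 5) (ZMod 2), y = g ^ 3 := ⟨_, rfl⟩
  have hy3 : y * y * y = 1 := by
    rw [hy, ← pow_add, ← pow_add]; exact hg9
  -- every element of order 3 is conjugate to y or y²
  have hconj : ∀ x : GL (Fin 5) (ZMod 2), x * x * x = 1 → x ≠ 1 →
      ∃ k : GL (Fin 5) (ZMod 2), k * x * k⁻¹ = y ∨ k * x * k⁻¹ = y * y := by
    intro x hx3 hx1
    have hx3' : x ^ 3 = 1 := by rw [pow_succ, pow_succ, pow_one]; exact hx3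
    have hox : orderOf x = 3 := orderOf_eq_prime hx3' hx1
    have hpx : IsPGroup 3 (Subgroup.zpowers x) :=
      IsPGroup.of_card (n := 1) (by rw [Nat.card_zpowers, hox]; norm_num)
    obtain ⟨k, hk⟩ := Cfsg.Agent.Lib.Helper53.SylowConj.exists_conj_le_sylow_top
      (Subgroup.zpowers x) hpx P
    have h1 := hk x (Subgroup.mem_zpowers x)
    rw [← hPeq] at h1
    obtain ⟨i, hi⟩ := Subgroup.mem_zpowers_iff.mp h1
    refine ⟨k, ?_⟩
    have h2 : (k * x * k⁻¹) ^ 3 = 1 := by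
      have h3 : k * x * k⁻¹ = MulAut.conj k x := by simp
      rw [h3, ← map_pow, hx3', map_one]
    have h4 : k * x * k⁻¹ ≠ 1 := by
      intro h
      apply hx1
      calc x = k⁻¹ * (k * x * k⁻¹) * k := by group
        _ = 1 := by rw [h]; group
    rw [← hi] at h2 h4 ⊢
    have h5 : g ^ (i * 3) = 1 := by rw [_root_.zpow_mul]; exact_mod_cast h2
    rw [← orderOf_dvd_iff_zpow_eq_one, hg] at h5
    have h6 : (3 : ℤ) ∣ i := by
      obtain ⟨t, ht⟩ := h5
      exact ⟨t, by push_cast at ht; omega⟩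
    obtain ⟨j, rfl⟩ := h6
    have h7 : g ^ (3 * j) = y ^ j := by
      rw [hy, _root_.zpow_mul]; norm_cast
    rw [h7] at h4 ⊢
    have hy3' : y ^ (3 : ℤ) = 1 := by
      have : y ^ (3 : ℕ) = 1 := by rw [pow_succ, pow_succ, pow_one]; exact hy3
      exact_mod_cast this
    have h8 : y ^ j = y ^ (j % 3) := by
      conv_lhs => rw [← Int.emod_add_mul_ediv j 3]
      rw [_root_.zpow_add, _root_.zpow_mul, hy3', _root_.one_zpow, mul_one]
    have h9 : j % 3 = 0 ∨ j % 3 = 1 ∨ j % 3 = 2 := by omega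
    rcases h9 with h9 | h9 | h9
    · exfalso; apply h4; rw [h8, h9, zpow_zero]
    · left; rw [h8, h9, zpow_one]
    · right; rw [h8, h9]
      have : y ^ (2 : ℤ) = y ^ (2 : ℕ) := by norm_cast
      rw [this, pow_two]
  -- traces
  have htr : ∀ k x : GL (Fin 5) (ZMod 2),
      Matrix.trace ((k * x * k⁻¹ : GL (Fin 5) (ZMod 2)) : Matrix (Fin 5) (Fin 5) (ZMod 2)) =
        Matrix.trace (x : Matrix (Fin 5) (Fin 5) (ZMod 2)) := by
    intro k x
    rw [Units.val_mul, Units.val_mul]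
    exact Matrix.trace_units_conj k _
  obtain ⟨a, ha⟩ : ∃ a : GL (Fin 5) (ZMod 2), (a : Matrix (Fin 5) (Fin 5) (ZMod 2)) = Ma :=
    ⟨⟨Ma, Ma * Ma, Ma_cube, Ma_cube'⟩, rfl⟩
  obtain ⟨c, hc⟩ : ∃ c : GL (Fin 5) (ZMod 2), (c : Matrix (Fin 5) (Fin 5) (ZMod 2)) = Mc :=
    ⟨⟨Mc, Mc * Mc, Mc_cube, Mc_cube'⟩, rfl⟩
  have ha3 : a * a * a = 1 := by
    apply Units.ext
    rw [Units.val_mul, Units.val_mul, ha, Units.val_one]; exact Ma_cube'
  have ha1 : a ≠ 1 := by
    intro h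
    apply Ma_ne
    rw [← ha, h]; rfl
  have hc3 : c * c * c = 1 := by
    apply Units.ext
    rw [Units.val_mul, Units.val_mul, hc, Units.val_one]; exact Mc_cube'
  have hc1 : c ≠ 1 := by
    intro h
    apply Mc_ne
    rw [← hc, h]; rfl
  have hta : Matrix.trace (a : Matrix (Fin 5) (Fin 5) (ZMod 2)) = 0 := by rw [ha]; exact trace_Ma
  have hta2 : Matrix.trace ((a * a : GL (Fin 5) (ZMod 2)) : Matrix (Fin 5) (Fin 5) (ZMod 2)) = 0 := by
    rw [Units.val_mul, ha]; exact trace_Ma2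
  have htc : Matrix.trace (c : Matrix (Fin 5) (Fin 5) (ZMod 2)) = 1 := by rw [hc]; exact trace_Mc
  have hyy : Matrix.trace (y : Matrix (Fin 5) (Fin 5) (ZMod 2)) = 0 ∧
      Matrix.trace ((y * y : GL (Fin 5) (ZMod 2)) : Matrix (Fin 5) (Fin 5) (ZMod 2)) = 0 := by
    obtain ⟨k, hk | hk⟩ := hconj a ha3 ha1
    · constructor
      · rw [← hk, htr]; exact hta
      · have h1 : y * y = k * (a * a) * k⁻¹ := by rw [← hk]; group
        rw [h1, htr]; exact hta2
    · constructor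
      · have h1 : y = k * (a * a) * k⁻¹ := by
          calc y = (y * y * y) * y := by rw [hy3, one_mul]
            _ = (y * y) * (y * y) := by group
            _ = k * (a * a) * k⁻¹ := by rw [← hk]; group
        rw [h1, htr]; exact hta2
      · rw [← hk, htr]; exact hta
  obtain ⟨k, hk | hk⟩ := hconj c hc3 hc1
  · have h1 := htr k c
    rw [hk, hyy.1, htc] at h1
    exact absurd h1 (by decide)
  · have h1 := htr k c
    rw [hk, hyy.2, htc] at h1
    exact absurd h1 (by decide)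

end Cfsg.Agent.Lib.Helper53.GL5
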