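import Mathlib

set_option autoImplicit false

namespace Cfsg.Agent.Lib.Helper53.InvolLin

/-- no square root of `-1` in the field with three elements -/
theorem no_sqrt_neg_one {F : Type*} [Field F] [Fintype F] (hF : Fintype.card F = 3) (a : F) :
    a * a ≠ -1 := by
  intro h
  have h3 : (3 : F) = 0 := by
    have := Nat.cast_card_eq_zero F
    rw [hF] at this
    exact_mod_cast this
  have h1 : a ^ 3 = a := by
    have := FiniteField.pow_card a
    rw [hF] at this
    exact this
  have h2 : a = 0 := by
    have h4 : a ^ 3 = -a := by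
      calc a ^ 3 = (a * a) * a := by ring
        _ = -a := by rw [h]; ring
    have h5 : a = -a := h1.symm.trans h4
    have h6 : (3 : F) * a = 0 := by rw [h3, zero_mul]
    linear_combination h6 - h5
  rw [h2] at h
  simp at h

/-- a subspace invariant under an operator squaring to `-1` has even dimension over `𝔽₃` -/
theorem even_finrank_of_invariant {F V : Type*} [Field F] [Fintype F] (hF : Fintype.card F = 3)
    [AddCommGroup V] [Module F V] [FiniteDimensional F V] (Y : Module.End F V)
    (hY : Y * Y = -1) (W : Submodule F V) (hW : ∀ w ∈ W, Y w ∈ W) :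
    Even (Module.finrank F W) := by
  by_contra hodd
  rw [Nat.not_even_iff_odd] at hodd
  obtain ⟨Yw, hYw⟩ : ∃ Yw : Module.End F W, ∀ w : W, (Yw w : V) = Y w :=
    ⟨Y.restrict hW, fun w => rfl⟩
  have h1 : Yw * Yw = (-1 : F) • (1 : Module.End F W) := by
    ext w
    have h2 : Y (Y (w : V)) = -(w : V) := by
      have := congrArg (fun f : Module.End F V => f (w : V)) hY
      simpa using this
    simp [hYw, h2]
  have h3 := congrArg LinearMap.det h1
  rw [LinearMap.det_smul, map_mul, map_one, hodd.neg_one_pow, mul_one] at h3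
  exact no_sqrt_neg_one hF _ h3


/-- nilpotent structure of an order-3 operator inverted by a square root of `-1` in dimension 4
over `𝔽₃` -/
theorem core_linear {F V : Type*} [Field F] [Fintype F] (hF : Fintype.card F = 3)
    [AddCommGroup V] [Module F V] [FiniteDimensional F V] (hV : Module.finrank F V = 4)
    (M Y : Module.End F V) (hY : Y * Y = -1) (hM3 : M * M * M = 1) (hM1 : M ≠ 1)
    (hMY : M * Y * M = Y) :
    Module.finrank F (LinearMap.ker (M - 1)) = 2 ∧
      LinearMap.ker (M - 1) ≤ LinearMap.range (M - 1) := by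
  have h3 : (3 : F) = 0 := by
    have := Nat.cast_card_eq_zero F
    rw [hF] at this
    exact_mod_cast this
  have h3E : ∀ X : Module.End F V, X + X + X = 0 := by
    intro X
    have : X + X + X = (3 : F) • X := by
      rw [show (3 : F) = 1 + 1 + 1 by norm_num, add_smul, add_smul, one_smul]
    rw [this, h3, zero_smul]
  obtain ⟨N, hN⟩ : ∃ N : Module.End F V, N = M - 1 := ⟨_, rfl⟩
  have hN3 : N * N * N = 0 := by
    have h1 : N * N * N = M * M * M - 1 - ((M * M - M) + (M * M - M) + (M * M - M)) := by
      rw [hN]; noncomm_ring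
    rw [h1, h3E, hM3]; simp
  have hYM : Y * M = M * M * Y := by
    calc Y * M = (M * M * M) * Y * M := by rw [hM3, one_mul]
      _ = M * M * (M * Y * M) := by simp only [mul_assoc]
      _ = M * M * Y := by rw [hMY]
  have hYN : Y * N = N * ((M + 1) * Y) := by
    rw [hN]
    calc Y * (M - 1) = Y * M - Y := by rw [mul_sub, mul_one]
      _ = M * M * Y - Y := by rw [hYM]
      _ = (M - 1) * ((M + 1) * Y) := by noncomm_ring
  have hMN : (M + 1) * N = N * (M + 1) := by rw [hN]; noncomm_ring
  have hN0 : N ≠ 0 := by
    intro h; apply hM1; rw [hN] at h; exact sub_eq_zero.mp h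
  have hinv1 : ∀ w ∈ LinearMap.range N, Y w ∈ LinearMap.range N := by
    rintro _ ⟨v, rfl⟩
    refine ⟨((M + 1) * Y) v, ?_⟩
    have := congrArg (fun f : Module.End F V => f v) hYN
    simpa using this.symm
  have hinv2 : ∀ w ∈ LinearMap.range (N * N), Y w ∈ LinearMap.range (N * N) := by
    rintro _ ⟨v, rfl⟩
    refine ⟨((M + 1) * (M + 1) * Y) v, ?_⟩
    have h1 : Y * (N * N) = N * N * ((M + 1) * (M + 1) * Y) := by
      calc Y * (N * N) = (Y * N) * N := by rw [mul_assoc]
        _ = (N * ((M + 1) * Y)) * N := by rw [hYN]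
        _ = N * (M + 1) * (Y * N) := by simp only [mul_assoc]
        _ = N * (M + 1) * (N * ((M + 1) * Y)) := by rw [hYN]
        _ = N * ((M + 1) * N) * ((M + 1) * Y) := by simp only [mul_assoc]
        _ = N * (N * (M + 1)) * ((M + 1) * Y) := by rw [hMN]
        _ = N * N * ((M + 1) * (M + 1) * Y) := by simp only [mul_assoc]
    have := congrArg (fun f : Module.End F V => f v) h1
    simpa using this.symm
  have he1 := even_finrank_of_invariant hF Y hY _ hinv1
  have he2 := even_finrank_of_invariant hF Y hY _ hinv2
  have hle1 : Module.finrank F (LinearMap.range N) ≤ 4 := by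
    rw [← hV]; exact Submodule.finrank_le _
  have hne0 : Module.finrank F (LinearMap.range N) ≠ 0 := by
    intro h
    rw [Submodule.finrank_eq_zero, LinearMap.range_eq_bot] at h
    exact hN0 h
  have hne4 : Module.finrank F (LinearMap.range N) ≠ 4 := by
    intro h
    have htop : LinearMap.range N = ⊤ := Submodule.eq_top_of_finrank_eq (h.trans hV.symm)
    have hsurj : Function.Surjective N := LinearMap.range_eq_top.mp htop
    apply hN0
    ext v
    obtain ⟨v1, rfl⟩ := hsurj v
    obtain ⟨v2, rfl⟩ := hsurj v1
    have := congrArg (fun f : Module.End F V => f v2) hN3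
    simpa using this
  have hr1 : Module.finrank F (LinearMap.range N) = 2 := by
    obtain ⟨k, hk⟩ := he1
    omega
  have hk1 : Module.finrank F (LinearMap.ker N) = 2 := by
    have := LinearMap.finrank_range_add_finrank_ker N
    omega
  have hle : LinearMap.range (N * N) ≤ LinearMap.range N := by
    rintro _ ⟨v, rfl⟩
    exact ⟨N v, rfl⟩
  have hr2 : Module.finrank F (LinearMap.range (N * N)) = 0 := by
    have hle2 : Module.finrank F (LinearMap.range (N * N)) ≤ 2 := by
      rw [← hr1]; exact Submodule.finrank_mono hle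
    obtain ⟨k, hk⟩ := he2
    by_contra hne
    have h2 : Module.finrank F (LinearMap.range (N * N)) = Module.finrank F (LinearMap.range N) := by
      omega
    have heq : LinearMap.range (N * N) = LinearMap.range N :=
      Submodule.eq_of_le_of_finrank_eq hle h2
    apply hN0
    ext v
    have hv : N v ∈ LinearMap.range (N * N) := by rw [heq]; exact ⟨v, rfl⟩
    obtain ⟨v1, hv1⟩ := hv
    have hv1' : N v1 ∈ LinearMap.range (N * N) := by rw [heq]; exact ⟨v1, rfl⟩
    obtain ⟨v2, hv2⟩ := hv1'
    have h4 := congrArg (fun f : Module.End F V => f v2) hN3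
    simp only [Module.End.mul_apply, LinearMap.zero_apply] at h4 hv1 hv2 ⊢
    rw [← hv1, ← hv2, h4]
  have hNN : N * N = 0 := by
    rw [Submodule.finrank_eq_zero, LinearMap.range_eq_bot] at hr2
    exact hr2
  have hrk : LinearMap.range N ≤ LinearMap.ker N := by
    rintro _ ⟨v, rfl⟩
    rw [LinearMap.mem_ker]
    have := congrArg (fun f : Module.End F V => f v) hNN
    simpa using this
  have heq : LinearMap.range N = LinearMap.ker N :=
    Submodule.eq_of_le_of_finrank_eq hrk (hr1.trans hk1.symm)
  rw [← hN]
  exact ⟨hk1, heq.ge⟩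


/-- fixed-point counting for an operator of order dividing 5 on an invariant subspace -/
theorem card_modEq_fixed {F V : Type*} [Field F] [AddCommGroup V] [Module F V] [Finite V]
    (U : Module.End F V) (hU : U ^ 5 = 1) (W : Submodule F V) (hW : ∀ w ∈ W, U w ∈ W) :
    Nat.card W ≡ Nat.card ↥(W ⊓ LinearMap.ker (U - 1)) [MOD 5] := by
  classical
  have hfin : Fintype W := Fintype.ofFinite _
  have hF5 : Fact (Nat.Prime 5) := ⟨by norm_num⟩
  obtain ⟨f, hf⟩ : ∃ f : Function.End W, ∀ w : W, (f w : V) = U w :=
    ⟨fun w => ⟨U w, hW w w.2⟩, fun w => rfl⟩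
  have hpow : ∀ k : ℕ, ∀ w : W, ((f ^ k) w : V) = (U ^ k) w := by
    intro k
    induction k with
    | zero => intro w; rfl
    | succ k ih =>
      intro w
      rw [pow_succ, pow_succ]
      show (((f ^ k) (f w) : W) : V) = (U ^ k) (U w)
      rw [ih, hf]
  have hf5 : f ^ 5 ^ 1 = 1 := by
    funext w
    apply Subtype.ext
    rw [pow_one, hpow, hU]
    rfl
  have h1 := Equiv.Perm.card_fixedPoints_modEq (p := 5) (n := 1) hf5
  rw [Fintype.card_eq_nat_card, Fintype.card_eq_nat_card] at h1
  have h2 : Nat.card ↥(Function.fixedPoints f) = Nat.card ↥(W ⊓ LinearMap.ker (U - 1)) := by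
    apply Nat.card_congr
    refine ⟨fun w => ⟨(w.1 : V), Submodule.mem_inf.mpr ⟨w.1.2, ?_⟩⟩,
      fun w => ⟨⟨w.1, (Submodule.mem_inf.mp w.2).1⟩, ?_⟩, ?_, ?_⟩
    · rw [LinearMap.mem_ker, LinearMap.sub_apply, sub_eq_zero, ← hf]
      exact congrArg Subtype.val w.2
    · apply Subtype.ext
      rw [hf]
      have := (Submodule.mem_inf.mp w.2).2
      rw [LinearMap.mem_ker, LinearMap.sub_apply, sub_eq_zero] at this
      exact this
    · intro w; rfl
    · intro w; rfl
  rw [h2] at h1
  exact h1

/-- cardinality of a subspace over the field with three elements -/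
theorem card_submodule {F V : Type*} [Field F] [Fintype F] (hF : Fintype.card F = 3)
    [AddCommGroup V] [Module F V] [FiniteDimensional F V] (W : Submodule F V) :
    Nat.card W = 3 ^ Module.finrank F W := by
  rw [Module.natCard_eq_pow_finrank (K := F) (V := ↥W), Nat.card_eq_fintype_card, hF]

/-- an operator of order 5 on `𝔽₃⁴` has no nonzero fixed vector -/
theorem ker_eq_bot_of_pow_five {F V : Type*} [Field F] [Fintype F] (hF : Fintype.card F = 3)
    [AddCommGroup V] [Module F V] [FiniteDimensional F V] (hV : Module.finrank F V = 4)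
    (U : Module.End F V) (hU : U ^ 5 = 1) (hU1 : U ≠ 1) : LinearMap.ker (U - 1) = ⊥ := by
  have hfinV : Finite V := Module.finite_of_finite F
  have h1 := card_modEq_fixed U hU ⊤ (fun w _ => Submodule.mem_top)
  rw [top_inf_eq, card_submodule hF, card_submodule hF, finrank_top, hV] at h1
  have hle : Module.finrank F (LinearMap.ker (U - 1)) ≤ 4 := by
    rw [← hV]; exact Submodule.finrank_le _
  have hne4 : Module.finrank F (LinearMap.ker (U - 1)) ≠ 4 := by
    intro h
    have htop : LinearMap.ker (U - 1) = ⊤ := Submodule.eq_top_of_finrank_eq (h.trans hV.symm)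
    apply hU1
    rw [LinearMap.ker_eq_top] at htop
    exact sub_eq_zero.mp htop
  rw [← Submodule.finrank_eq_zero]
  revert h1
  generalize Module.finrank F (LinearMap.ker (U - 1)) = d at hle hne4 ⊢
  intro h1
  interval_cases d
  · rfl
  · exact absurd h1 (by decide)
  · exact absurd h1 (by decide)
  · exact absurd h1 (by decide)
  · exact absurd rfl hne4

/-- an involution commuting with an operator of order 5 on `𝔽₃⁴` is `-1` -/
theorem eq_neg_one_of_commute {F V : Type*} [Field F] [Fintype F] (hF : Fintype.card F = 3)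
    [AddCommGroup V] [Module F V] [FiniteDimensional F V] (hV : Module.finrank F V = 4)
    (U Z : Module.End F V) (hU : U ^ 5 = 1) (hU1 : U ≠ 1) (hZ : Z * Z = 1) (hZ1 : Z ≠ 1)
    (hZU : Z * U = U * Z) : Z = -1 := by
  have hfinV : Finite V := Module.finite_of_finite F
  have hker := ker_eq_bot_of_pow_five hF hV U hU hU1
  have hW : ∀ w ∈ LinearMap.ker (Z - 1), U w ∈ LinearMap.ker (Z - 1) := by
    intro w hw
    rw [LinearMap.mem_ker, LinearMap.sub_apply, sub_eq_zero] at hw ⊢
    have := congrArg (fun f : Module.End F V => f w) hZU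
    simp only [Module.End.mul_apply] at this
    rw [this, hw]
    rfl
  have h1 := card_modEq_fixed U hU _ hW
  rw [hker, inf_bot_eq, card_submodule hF, card_submodule hF, finrank_bot] at h1
  have hle : Module.finrank F (LinearMap.ker (Z - 1)) ≤ 4 := by
    rw [← hV]; exact Submodule.finrank_le _
  have hne4 : Module.finrank F (LinearMap.ker (Z - 1)) ≠ 4 := by
    intro h
    have htop : LinearMap.ker (Z - 1) = ⊤ := Submodule.eq_top_of_finrank_eq (h.trans hV.symm)
    apply hZ1
    rw [LinearMap.ker_eq_top] at htop
    exact sub_eq_zero.mp htop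
  have hbot : LinearMap.ker (Z - 1) = ⊥ := by
    rw [← Submodule.finrank_eq_zero]
    revert h1
    generalize Module.finrank F (LinearMap.ker (Z - 1)) = d at hle hne4 ⊢
    intro h1
    interval_cases d
    · rfl
    · exact absurd h1 (by decide)
    · exact absurd h1 (by decide)
    · exact absurd h1 (by decide)
    · exact absurd rfl hne4
  ext v
  have h2 : (Z + 1) v ∈ LinearMap.ker (Z - 1) := by
    rw [LinearMap.mem_ker]
    have h3 : (Z - 1) * (Z + 1) = 0 := by
      have : (Z - 1) * (Z + 1) = Z * Z - 1 := by noncomm_ring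
      rw [this, hZ, sub_self]
    have := congrArg (fun f : Module.End F V => f v) h3
    simpa using this
  rw [hbot, Submodule.mem_bot] at h2
  have h4 : Z v + v = 0 := by simpa using h2
  simp only [LinearMap.neg_apply, Module.End.one_apply]
  exact eq_neg_of_add_eq_zero_left h4

end Cfsg.Agent.Lib.Helper53.InvolLin
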