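import Mathlib

set_option autoImplicit false

namespace Cfsg.Agent.Lib.Helper53.NormalizerChar

variable {G : Type*} [Group G]

/-- Conjugation by an element normalizing `T`, as an automorphism of `T`. -/
noncomputable def conjAut (T : Subgroup G) (x : G) (hx : x ∈ Subgroup.normalizer (T : Set G)) :
    T ≃* T :=
  ((MulAut.conj x).subgroupMap T).trans
    (MulEquiv.subgroupCongr (Subgroup.mem_normalizer_iff_map_conj_eq.mp hx))

theorem conjAut_apply (T : Subgroup G) (x : G) (hx : x ∈ Subgroup.normalizer (T : Set G))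
    (t : T) : ((conjAut T x hx t : T) : G) = x * t * x⁻¹ := rfl

/-- A subgroup `C` with `C ∩ T` characteristic in `T` is preserved (inside `T`) by conjugation with
elements normalizing `T`. -/
theorem char_conj_mem (T C : Subgroup G) (hchar : (C.subgroupOf T).Characteristic) (x : G)
    (hx : x ∈ Subgroup.normalizer (T : Set G)) (c : G) (hcT : c ∈ T) (hc : c ∈ C) :
    x * c * x⁻¹ ∈ C := by
  have h1 := hchar.fixed (conjAut T x hx)
  have h2 : (⟨c, hcT⟩ : T) ∈ C.subgroupOf T := Subgroup.mem_subgroupOf.mpr hc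
  rw [← h1] at h2
  have h3 : conjAut T x hx ⟨c, hcT⟩ ∈ C.subgroupOf T := h2
  rw [Subgroup.mem_subgroupOf, conjAut_apply] at h3
  exact h3

/-- Elements of the cyclic group generated by an involution. -/
theorem mem_zpowers_of_orderOf_two {j g : G} (hj : orderOf j = 2) (hg : g ∈ Subgroup.zpowers j) :
    g = 1 ∨ g = j := by
  obtain ⟨k, rfl⟩ := Subgroup.mem_zpowers_iff.mp hg
  rw [← zpow_mod_orderOf, hj]
  have h : k % ((2 : ℕ) : ℤ) = 0 ∨ k % ((2 : ℕ) : ℤ) = 1 := by omega
  rcases h with h | h <;> rw [h] <;> simp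

/-- If `⟨j⟩ ∩ T` is characteristic in `T` for an involution `j ∈ T`, then the normalizer of `T`
centralizes `j`. -/
theorem normalizer_le_centralizer_of_char_involution (T : Subgroup G) (j : G) (hj : orderOf j = 2)
    (hjT : j ∈ T) (hchar : ((Subgroup.zpowers j).subgroupOf T).Characteristic) :
    Subgroup.normalizer (T : Set G) ≤ Subgroup.centralizer ({j} : Set G) := by
  intro x hx
  have h1 := char_conj_mem T (Subgroup.zpowers j) hchar x hx j hjT (Subgroup.mem_zpowers j)
  rw [Subgroup.mem_centralizer_iff]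
  intro h hh
  rw [Set.mem_singleton_iff] at hh
  subst hh
  rcases mem_zpowers_of_orderOf_two hj h1 with h2 | h2
  · exfalso
    have : h = 1 := by
      have h3 : x⁻¹ * (x * h * x⁻¹) * x = 1 := by rw [h2]; group
      have h4 : x⁻¹ * (x * h * x⁻¹) * x = h := by group
      rw [h4] at h3; exact h3
    rw [this, orderOf_one] at hj
    norm_num at hj
  · calc h * x = (x * h * x⁻¹) * x := by rw [h2]
      _ = x * h := by group

end Cfsg.Agent.Lib.Helper53.NormalizerChar
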