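import Cfsg.Agent.Lib.Helper53.RUStmt

/-!
# S2522 : assembly of the pieces of `RUStmt`
-/

set_option autoImplicit false

namespace Cfsg.Agent.Lib.Helper53.RUAsm

open Cfsg.Agent.Lib.Helper53.RUStmt

universe u v

section

variable {K : Type u} [Field K] {V : Type v} [AddCommGroup V] [Module K V]

/-- a regular unipotent has a nonzero fixed vector -/
theorem regUnip_exists_fixed [Module.Finite K V] {D : Module.End K V} (h : RegUnip D) :
    ∃ k : V, k ≠ 0 ∧ (D - 1) k = 0 := by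
  have h1 := LinearMap.finrank_range_add_finrank_ker (D - 1)
  have h2 : Module.finrank K (LinearMap.ker (D - 1)) = 1 := by have := h.2; omega
  have h3 : LinearMap.ker (D - 1) ≠ ⊥ := by
    intro hb
    rw [hb] at h2
    simp at h2
  obtain ⟨k, hk, hk0⟩ := Submodule.exists_mem_ne_zero_of_ne_bot h3
  exact ⟨k, hk0, hk⟩

theorem proj_self (e : V) (φ : Module.Dual K V) (he : φ e = 1) : proj e φ he e = 0 := by
  apply Subtype.ext
  rw [proj_apply, he, one_smul, sub_self]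
  rfl

theorem phi_lift (e : V) (φ : Module.Dual K V) (he : φ e = 1)
    (X : Module.Dual K (LinearMap.ker φ)) (D : Module.End K (LinearMap.ker φ)) (v : V) :
    φ (lift e φ he X D v) = φ v + X (proj e φ he v) := by
  rw [lift_apply, map_add, map_smul, he, smul_eq_mul, mul_one,
    (LinearMap.mem_ker.mp (D (proj e φ he v)).2), add_zero]

theorem proj_lift (e : V) (φ : Module.Dual K V) (he : φ e = 1)
    (X : Module.Dual K (LinearMap.ker φ)) (D : Module.End K (LinearMap.ker φ)) (v : V) :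
    proj e φ he (lift e φ he X D v) = D (proj e φ he v) := by
  apply Subtype.ext
  rw [proj_apply, phi_lift, lift_apply]
  abel

theorem g_proj (g : Module.End K V) (e : V) (φ : Module.Dual K V) (he : φ e = 1) (v : V) :
    g ((proj e φ he v : LinearMap.ker φ) : V) = g v - φ v • g e := by
  rw [proj_apply, map_sub, map_smul]

end

/-- PHI from PHIA and PHIB -/
theorem phi_of (hA : PhiAStmt.{u, v}) (hB : PhiBStmt.{u, v}) : PhiStmt.{u, v} := by
  intro K _ V _ _ _ hK hn g hg f ξ hf hξ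
  by_cases h : LinearMap.ker (g - 1) = ⊥
  · exact hB K V hK hn g hg h f ξ hf hξ
  · exact hA K V hK hn g hg h f ξ hf hξ

/-- EVEC from EA and EB -/
theorem e_of (hA : EAStmt.{u, v}) (hB : EBStmt.{u, v}) : EStmt.{u, v} := by
  intro K _ V _ _ _ hK hn g hg f ξ φ hξ hφ
  by_cases h : LinearMap.ker (g - 1) = ⊥
  · exact hB K V hK hn g hg h f ξ φ hξ hφ
  · exact hA K V hK hn g hg h f ξ φ hξ hφ

/-- EXT from LIFT and EXTB -/
theorem ext_of (hL : LiftStmt.{u, v}) (hB : ExtBStmt.{u, v}) : ExtStmt.{u, v} := by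
  intro K _ V _ _ _ g e φ he hge B₁ C₁ hpair hx hw
  obtain ⟨hB₁, hC₁, hprod⟩ := hpair
  obtain ⟨hBru, hBrange⟩ := hB K V g e φ he hge B₁ hB₁ hx
  have hCru : RegUnip (lift e φ he ((φ ∘ₗ g) ∘ₗ (LinearMap.ker φ).subtype) C₁) :=
    hL K V e φ he _ C₁ hC₁ (by
      obtain ⟨w, hw1, hw2⟩ := hw
      exact ⟨w, hw1, hw2⟩)
  refine ⟨extB g e φ he B₁, lift e φ he ((φ ∘ₗ g) ∘ₗ (LinearMap.ker φ).subtype) C₁,
    ⟨hBru, hCru, ?_⟩, hBrange, ?_⟩
  · apply LinearMap.ext
    intro v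
    rw [Module.End.mul_apply, extB_apply, phi_lift, proj_lift]
    have h3 : B₁ (C₁ (proj e φ he v)) = child g e φ hge (proj e φ he v) := by
      rw [hprod]
      rfl
    rw [h3, child_apply]
    have h4 : ((φ ∘ₗ g) ∘ₗ (LinearMap.ker φ).subtype) (proj e φ he v) =
        φ (g ((proj e φ he v : LinearMap.ker φ) : V)) := rfl
    rw [h4]
    generalize φ (g ((proj e φ he v : LinearMap.ker φ) : V)) = a
    rw [g_proj, add_smul]
    abel
  · rw [LinearMap.sub_apply, lift_apply, proj_self, map_zero, map_zero, he]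
    simp

/-- FIX from LIFT and FIXX -/
theorem fix_of (hL : LiftStmt.{u, v}) (hX : FixXStmt.{u, v}) : FixStmt.{u, v} := by
  intro K _ V _ _ _ hK g e φ he hfix hge B₁ C₁ hpair
  obtain ⟨hB₁, hC₁, hprod⟩ := hpair
  obtain ⟨kB, hkB0, hkB⟩ := regUnip_exists_fixed hB₁
  obtain ⟨kC, hkC0, hkC⟩ := regUnip_exists_fixed hC₁
  obtain ⟨X, hX1, hX2⟩ := hX K (LinearMap.ker φ) hK kB kC (φ (g (kC : V))) hkB0 hkC0
  have hBru : RegUnip (lift e φ he X B₁) := hL K V e φ he X B₁ hB₁ ⟨kB, hkB, hX1⟩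
  have hCkC : C₁ kC = kC := by
    have := hkC
    rw [LinearMap.sub_apply, sub_eq_zero] at this
    exact this
  have hCru : RegUnip (lift e φ he ((φ ∘ₗ g) ∘ₗ (LinearMap.ker φ).subtype - X ∘ₗ C₁) C₁) :=
    hL K V e φ he _ C₁ hC₁ ⟨kC, hkC, by
      rw [LinearMap.sub_apply]
      intro h0
      apply hX2
      have h5 : (X ∘ₗ C₁) kC = X kC := by
        rw [LinearMap.comp_apply, hCkC]
      have h6 : ((φ ∘ₗ g) ∘ₗ (LinearMap.ker φ).subtype) kC = φ (g (kC : V)) := rfl
      rw [h5, h6, sub_eq_zero] at h0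
      exact h0.symm⟩
  refine ⟨_, _, hBru, hCru, ?_⟩
  apply LinearMap.ext
  intro v
  rw [Module.End.mul_apply, lift_apply (D := B₁), phi_lift, proj_lift]
  have h3 : B₁ (C₁ (proj e φ he v)) = child g e φ hge (proj e φ he v) := by
    rw [hprod]
    rfl
  rw [h3, child_apply]
  have h4 : ((φ ∘ₗ g) ∘ₗ (LinearMap.ker φ).subtype - X ∘ₗ C₁) (proj e φ he v) =
      φ (g ((proj e φ he v : LinearMap.ker φ) : V)) - X (C₁ (proj e φ he v)) := rfl
  rw [h4, hfix]
  generalize φ (g ((proj e φ he v : LinearMap.ker φ) : V)) = a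
  generalize X (C₁ (proj e φ he v)) = b
  rw [g_proj, hfix]
  have : φ v + (a - b) + b = φ v + a := by ring
  rw [this, add_smul]
  abel

/-- the main induction -/
theorem sInd (hD2 : Dim2Stmt.{u, v}) (hExt : ExtStmt.{u, v}) (hDet : DetChildStmt.{u, v})
    (hPhi : PhiStmt.{u, v}) (hE : EStmt.{u, v}) (hRank : RankStmt.{u, v})
    (hNsc : NonScalarStmt.{u, v}) : SConcl.{u, v} := by
  intro K _ hK n hn
  induction n, hn using Nat.le_induction with
  | base =>
    intro V _ _ _ hV g hg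
    exact hD2 K V hK hV g hg
  | succ n hn ih =>
    intro V _ _ _ hV g hg f ξ hf hξ
    have hn3 : 3 ≤ Module.finrank K V := by omega
    obtain ⟨φ, hφ⟩ := hPhi K V hK hn3 g hg f ξ hf hξ
    obtain ⟨e₀, he₀⟩ := hE K V hK hn3 g hg f ξ φ hξ hφ
    obtain ⟨hφ1, hφ2, hφ3, hφ4, hφ5⟩ := hφ
    obtain ⟨h1, h2, h3, h4, h5, h6⟩ := he₀
    have hc0 : (φ e₀)⁻¹ ≠ 0 := inv_ne_zero h2
    have he : φ ((φ e₀)⁻¹ • e₀) = 1 := by
      rw [map_smul, smul_eq_mul, inv_mul_cancel₀ h2]
    have hAe : φ ((g - 1) ((φ e₀)⁻¹ • e₀)) = 0 := by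
      rw [map_smul, map_smul, h1, smul_zero]
    have hge : φ (g ((φ e₀)⁻¹ • e₀)) = 1 := by
      have h7 : g ((φ e₀)⁻¹ • e₀) = (g - 1) ((φ e₀)⁻¹ • e₀) + (φ e₀)⁻¹ • e₀ := by
        rw [LinearMap.sub_apply, Module.End.one_apply, sub_add_cancel]
      rw [h7, map_add, hAe, he, zero_add]
    have hξe : ξ ((φ e₀)⁻¹ • e₀) ≠ 0 := by
      rw [map_smul, smul_eq_mul]
      exact mul_ne_zero hc0 h3
    have hAe0 : (g - 1) ((φ e₀)⁻¹ • e₀) ≠ 0 := by
      rw [map_smul]
      exact smul_ne_zero hc0 h4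
    have h5' : Module.finrank K (LinearMap.range (g - 1)) = 2 →
        (φ e₀)⁻¹ • e₀ ∉ LinearMap.range (g - 1) := by
      intro hr hmem
      apply h5 hr
      have := (LinearMap.range (g - 1)).smul_mem (φ e₀) hmem
      rwa [smul_smul, mul_inv_cancel₀ h2, one_smul] at this
    have h6' : LinearMap.ker (g - 1) = ⊥ → Module.finrank K V = 3 → ∀ w : V, φ w = 0 →
        g ((φ e₀)⁻¹ • e₀) ≠ (g - 1) w := by
      intro hk h3' w hw heq
      apply h6 hk h3' (φ e₀ • w) (by rw [map_smul, hw, smul_zero])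
      rw [map_smul, ← heq, map_smul, smul_smul, mul_inv_cancel₀ h2, one_smul]
    generalize (φ e₀)⁻¹ • e₀ = e at he hAe hge hξe hAe0 h5' h6'
    have hφ0 : φ ≠ 0 := by
      intro h
      rw [h] at he
      simp at he
    have hW : Module.finrank K (LinearMap.ker φ) = n := by
      have := Module.Dual.finrank_ker_add_one_of_ne_zero hφ0
      omega
    have hrank := hRank K V hn3 g hg.2.2 e φ he hge hφ4 h5' h6'
    have hdet : LinearMap.det (child g e φ hge) = 1 := by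
      rw [hDet K V g e φ he hge]
      exact hg.1
    have hchild : InG (child g e φ hge) := by
      refine ⟨hdet, ?_, hrank⟩
      rintro ⟨c, hc⟩
      by_cases hc1 : c = 1
      · rw [hc1, one_smul] at hc
        rw [hc, sub_self, LinearMap.range_zero, finrank_bot] at hrank
        omega
      · exact hNsc K V hn3 g e φ he hge hAe0 hφ5 hdet c hc1 hc
    have hS := ih (LinearMap.ker φ) hW (child g e φ hge) hchild
    have hf₁mem : g e - e ∈ LinearMap.ker φ := by
      rw [LinearMap.mem_ker, map_sub, hge, he, sub_self]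
    have hf₁ : (⟨g e - e, hf₁mem⟩ : LinearMap.ker φ) ≠ 0 := by
      intro h
      apply hAe0
      have := congrArg Subtype.val h
      rw [LinearMap.sub_apply, Module.End.one_apply]
      exact this
    have hξ₁ : ((φ ∘ₗ g) ∘ₗ (LinearMap.ker φ).subtype : Module.Dual K (LinearMap.ker φ)) ≠ 0 := by
      intro h
      apply hφ3 0
      rw [zero_smul]
      apply LinearMap.ext
      intro v
      have hp : φ (g ((proj e φ he v : LinearMap.ker φ) : V)) = 0 :=
        LinearMap.congr_fun h (proj e φ he v)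
      rw [g_proj, map_sub, map_smul, hge, smul_eq_mul, mul_one] at hp
      rw [LinearMap.comp_apply, LinearMap.sub_apply, Module.End.one_apply, map_sub, hp]
      rfl
    obtain ⟨B₁, C₁, hpair, hfB, w, hw1, hw2⟩ := hS ⟨g e - e, hf₁mem⟩ _ hf₁ hξ₁
    obtain ⟨B, C, hBC, hrange, hCe⟩ := hExt K V g e φ he hge B₁ C₁ hpair (by
      intro x hx
      have : x = ⟨g e - e, hf₁mem⟩ := Subtype.ext hx
      rw [this]
      exact hfB) ⟨w, hw1, hw2⟩
    refine ⟨B, C, hBC, ?_, e, hCe, hξe⟩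
    rw [hrange, LinearMap.mem_ker]
    exact hφ1

/-- the frozen statement from all pieces -/
theorem assembly
    (hCov : Cov4Stmt.{u, u}) (hPCore : PCorePiece.{u, u}) (hCU : CUStmt.{u, u})
    (hPhiA : PhiAPiece.{u, u}) (hPhiB : PhiBPiece.{u, u})
    (hC13 : CaseI3Stmt.{u, u}) (hC23 : CaseII3Stmt.{u, u}) (hECore : ECorePiece.{u, u})
    (hEA : EAPiece.{u, u}) (hEB : EBPiece.{u, u})
    (hRank : RankStmt.{u, u}) (hNsc : NonScalarStmt.{u, u}) (hDet : DetChildStmt.{u, u})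
    (hLift : LiftStmt.{u, u}) (hExtB : ExtBStmt.{u, u}) (hFixX : FixXStmt.{u, u})
    (hUni : UniPiece.{u, u})
    (hD2V : D2VPiece.{u, u}) (hD2Nil : D2NilStmt.{u, u}) (hDim2 : Dim2Piece.{u, u})
    (hChain : ChainStmt.{u, u}) (hConj : ConjPiece.{u}) (hFin : FinStmt.{u})
    {K : Type u} [Field K] (hK : 4 ≤ Cardinal.mk K) (n : ℕ) (hn : 3 ≤ n) (J g : GL (Fin n) K)
    (hJ : ∀ i j : Fin n, (J : Matrix (Fin n) (Fin n) K) i j =
      if i = j then 1 else if j.val = i.val + 1 then 1 else 0)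
    (hg : ¬ ∃ c : K, (g : Matrix (Fin n) (Fin n) K) = c • (1 : Matrix (Fin n) (Fin n) K))
    (hdet : (g : Matrix (Fin n) (Fin n) K).det = 1) :
    ∃ x y : GL (Fin n) K, g = (x * J * x⁻¹) * (y * J * y⁻¹) := by
  have hPC : PCoreStmt.{u, u} := hPCore hCov
  have hPhi : PhiStmt.{u, u} := phi_of (hPhiA hPC hCU) (hPhiB hPC hCU)
  have hEC : ECoreStmt.{u, u} := hECore hCov
  have hE : EStmt.{u, u} := e_of (hEA hEC hC13) (hEB hEC hC23)
  have hExt : ExtStmt.{u, u} := ext_of hLift hExtB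
  have hFix : FixStmt.{u, u} := fix_of hLift hFixX
  have hD2 : Dim2Stmt.{u, u} := hDim2 (hD2V hCov) hD2Nil
  have hS : SConcl.{u, u} := sInd hD2 hExt hDet hPhi hE hRank hNsc
  exact hFin hS (hUni hFix hDet) (hConj hChain) hK n hn J g hJ hg hdet

end Cfsg.Agent.Lib.Helper53.RUAsm
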