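import Cfsg.Agent.Lib.Helper53.RUStmt

/-!
# S2522 pieces EB, EA : a good vector `e`
-/

set_option autoImplicit false

namespace Cfsg.Agent.Lib.Helper53.RUEB

open Cfsg.Agent.Lib.Helper53.RUStmt

universe u v

theorem finrank_L {K : Type u} [Field K] {V : Type v} [AddCommGroup V] [Module K V]
    [Module.Finite K V] (ψ : Module.Dual K V) :
    Module.finrank K V ≤ Module.finrank K (LinearMap.ker ψ) + 1 := by
  have h1 := LinearMap.finrank_range_add_finrank_ker ψ
  have h2 : Module.finrank K (LinearMap.range ψ) ≤ 1 := by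
    calc Module.finrank K (LinearMap.range ψ) ≤ Module.finrank K K := Submodule.finrank_le _
      _ = 1 := Module.finrank_self K
  omega

theorem main : EBPiece.{u, v} := by
  intro hEC hC23 K _ V _ _ _ hK hn g hg hker f ξ φ hξ hφ
  obtain ⟨hdet, hns, hrk⟩ := hg
  have hfL := finrank_L (φ ∘ₗ (g - 1))
  have hL : ∃ x : V, φ ((g - 1) x) = 0 ∧ x ∉ (⊥ : Submodule K V) := by
    have h3 : LinearMap.ker (φ ∘ₗ (g - 1)) ≠ ⊥ := by
      intro h0
      rw [h0, finrank_bot] at hfL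
      omega
    obtain ⟨x, hx, hx0⟩ := Submodule.exists_mem_ne_zero_of_ne_bot h3
    exact ⟨x, LinearMap.mem_ker.mp hx, fun h => hx0 ((Submodule.mem_bot K).mp h)⟩
  obtain ⟨U₁, hU₁w, hU₁⟩ : ∃ U₁ : Submodule K V, (∃ x : V, φ ((g - 1) x) = 0 ∧ x ∉ U₁) ∧
      (Module.finrank K V = 3 → ∀ e : V, e ∉ U₁ → ∀ w : V, φ w = 0 → g e ≠ (g - 1) w) := by
    by_cases h3 : Module.finrank K V = 3
    · refine ⟨Submodule.comap g (Submodule.map (g - 1) (LinearMap.ker φ)), ?_, ?_⟩
      · obtain ⟨x, hx1, hx2⟩ := hC23 K V h3 g hdet hker φ hφ.2.2.1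
        refine ⟨x, hx1, ?_⟩
        rw [Submodule.mem_comap, Submodule.mem_map]
        rintro ⟨w, hw, hwx⟩
        exact hx2 w (LinearMap.mem_ker.mp hw) hwx.symm
      · intro _ e he w hw heq
        apply he
        rw [Submodule.mem_comap, Submodule.mem_map]
        exact ⟨w, LinearMap.mem_ker.mpr hw, heq.symm⟩
    · exact ⟨⊥, hL, fun h => absurd h h3⟩
  obtain ⟨e, he1, he2, he3, he4, he5⟩ := hEC K V hK g f ξ φ hξ hφ U₁ ⊥ hU₁w hL
  have he0 : e ≠ 0 := fun h => he5 ((Submodule.mem_bot K).mpr h)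
  refine ⟨e, he1, he2, he3, ?_, ?_, ?_⟩
  · intro h0
    have h4 : e ∈ LinearMap.ker (g - 1) := LinearMap.mem_ker.mpr h0
    rw [hker] at h4
    exact he0 ((Submodule.mem_bot K).mp h4)
  · intro hr2
    have h1 := LinearMap.finrank_range_add_finrank_ker (g - 1)
    rw [hker, finrank_bot] at h1
    omega
  · intro _ h3 w hw
    exact hU₁ h3 e he4 w hw

theorem mainA : EAPiece.{u, v} := by
  intro hEC hC13 K _ V _ _ _ hK hn g hg hker f ξ φ hξ hφ
  obtain ⟨hdet, hns, hrk⟩ := hg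
  have hfL := finrank_L (φ ∘ₗ (g - 1))
  have hrn := LinearMap.finrank_range_add_finrank_ker (g - 1)
  have hw1 : ∃ x : V, φ ((g - 1) x) = 0 ∧ x ∉ LinearMap.ker (g - 1) := by
    by_contra hcon
    push Not at hcon
    have hle : LinearMap.ker (φ ∘ₗ (g - 1)) ≤ LinearMap.ker (g - 1) :=
      fun x hx => hcon x (LinearMap.mem_ker.mp hx)
    have := Submodule.finrank_mono hle
    omega
  obtain ⟨U₂, hU₂w, hU₂⟩ : ∃ U₂ : Submodule K V, (∃ x : V, φ ((g - 1) x) = 0 ∧ x ∉ U₂) ∧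
      (Module.finrank K (LinearMap.range (g - 1)) = 2 → ∀ e : V, e ∉ U₂ →
        e ∉ LinearMap.range (g - 1)) := by
    by_cases hr2 : Module.finrank K (LinearMap.range (g - 1)) = 2
    · refine ⟨LinearMap.range (g - 1), ?_, fun _ e he => he⟩
      by_cases h3 : Module.finrank K V = 3
      · exact hC13 K V h3 g hdet hr2 φ (hφ.2.2.2.1 hker)
      · by_contra hcon
        push Not at hcon
        have hle : LinearMap.ker (φ ∘ₗ (g - 1)) ≤ LinearMap.range (g - 1) :=
          fun x hx => hcon x (LinearMap.mem_ker.mp hx)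
        have := Submodule.finrank_mono hle
        omega
    · exact ⟨LinearMap.ker (g - 1), hw1, fun h => absurd h hr2⟩
  obtain ⟨e, he1, he2, he3, he4, he5⟩ := hEC K V hK g f ξ φ hξ hφ _ U₂ hw1 hU₂w
  refine ⟨e, he1, he2, he3, ?_, ?_, ?_⟩
  · intro h0
    exact he4 (LinearMap.mem_ker.mpr h0)
  · intro hr2
    exact hU₂ hr2 e he5
  · intro hk
    exact absurd hk hker

end Cfsg.Agent.Lib.Helper53.RUEB
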