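import Cfsg.Agent.Lib.Helper53.RUStmt

/-!
# S2522 piece FIN : translation to matrices
-/

set_option autoImplicit false

namespace Cfsg.Agent.Lib.Helper53.RUFIN

open Cfsg.Agent.Lib.Helper53.RUStmt

universe u

theorem main : FinStmt.{u} := by
  intro hS hU hC K _ hK n hn J g hJ hg hdet
  have hfr : Module.finrank K (Fin n → K) = n := Module.finrank_fin_fun K
  have hdet' : LinearMap.det (Matrix.toLin' (g : Matrix (Fin n) (Fin n) K)) = 1 := by
    rw [LinearMap.det_toLin']
    exact hdet
  have hns : ¬ ∃ c : K, Matrix.toLin' (g : Matrix (Fin n) (Fin n) K) =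
      c • (1 : Module.End K (Fin n → K)) := by
    rintro ⟨c, hc⟩
    apply hg
    refine ⟨c, ?_⟩
    have := congrArg LinearMap.toMatrix' hc
    rw [LinearMap.toMatrix'_toLin'] at this
    rw [this, map_smul, LinearMap.toMatrix'_one]
  have hpair : ∃ B C : Module.End K (Fin n → K),
      RUPair (Matrix.toLin' (g : Matrix (Fin n) (Fin n) K)) B C := by
    by_cases hr : 2 ≤ Module.finrank K
        (LinearMap.range (Matrix.toLin' (g : Matrix (Fin n) (Fin n) K) - 1))
    · have hIn : InG (Matrix.toLin' (g : Matrix (Fin n) (Fin n) K)) := ⟨hdet', hns, hr⟩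
      have hSP := hS K hK n (by omega) (Fin n → K) hfr _ hIn
      have i0 : Fin n := ⟨0, by omega⟩
      obtain ⟨B, C, hBC, -, -⟩ := hSP (Pi.single i0 1) (LinearMap.proj i0) (by
          intro h
          have := congrFun h i0
          simp at this) (by
          intro h
          have := LinearMap.congr_fun h (Pi.single i0 1)
          simp at this)
      exact ⟨B, C, hBC⟩
    · have h3 : (3 : Cardinal) ≤ Cardinal.mk K := le_trans (by norm_num) hK
      exact hU K (Fin n → K) h3 (by omega) _ hdet' (by omega)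
  obtain ⟨B, C, hB, hC', hprod⟩ := hpair
  obtain ⟨x, hx⟩ := hC K n J hJ B hB
  obtain ⟨y, hy⟩ := hC K n J hJ C hC'
  refine ⟨x, y, ?_⟩
  apply Units.ext
  have h1 : (g : Matrix (Fin n) (Fin n) K) =
      LinearMap.toMatrix' (Matrix.toLin' (g : Matrix (Fin n) (Fin n) K)) := by
    rw [LinearMap.toMatrix'_toLin']
  rw [h1, hprod, LinearMap.toMatrix'_mul, hx, hy]
  simp only [Units.val_mul]

end Cfsg.Agent.Lib.Helper53.RUFIN
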