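import Cfsg.Agent.Lib.Helper53.RUStmt

/-!
# S2522 piece PHIA : a good functional when `g` has a fixed vector
-/

set_option autoImplicit false

namespace Cfsg.Agent.Lib.Helper53.RUPHIA

open Cfsg.Agent.Lib.Helper53.RUStmt

universe u v

theorem mem_eig {K : Type u} [Field K] {V : Type v} [AddCommGroup V] [Module K V]
    (g : Module.End K V) (c : K) (x : V) :
    x ∈ LinearMap.ker (g - c • (1 : Module.End K V)) ↔ g x = c • x := by
  rw [LinearMap.mem_ker, LinearMap.sub_apply, LinearMap.smul_apply, Module.End.one_apply,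
    sub_eq_zero]

theorem main : PhiAPiece.{u, v} := by
  intro hPC hCU K _ V _ _ _ hK hn g hg hker f ξ hf hξ
  obtain ⟨hdet, hns, hrk⟩ := hg
  -- the second subspace
  obtain ⟨U₂, hU₂, hU₂c⟩ : ∃ U₂ : Submodule K V, U₂ ≠ ⊥ ∧
      ∀ c : K, c ≠ 1 → c ^ (Module.finrank K V - 1) = 1 → Module.finrank K V ≤
            Module.finrank K (LinearMap.ker (g - c • (1 : Module.End K V))) + 2 →
        U₂ = LinearMap.ker (g - c • (1 : Module.End K V)) := by
    by_cases hb : ∃ c : K, c ≠ 1 ∧ c ^ (Module.finrank K V - 1) = 1 ∧ Module.finrank K V ≤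
            Module.finrank K (LinearMap.ker (g - c • (1 : Module.End K V))) + 2
    · obtain ⟨c, hc1, hc2, hc3⟩ := hb
      refine ⟨LinearMap.ker (g - c • (1 : Module.End K V)), ?_, ?_⟩
      · intro h0
        rw [h0, finrank_bot] at hc3
        omega
      · intro c' hc'1 hc'2 hc'3
        by_cases hcc : c = c'
        · rw [hcc]
        · exact absurd (hCU K V hn g c c' hc1 hc'1 hcc hc2 hc'2 hc3 hc'3).1 hker
    · refine ⟨LinearMap.ker (g - 1), hker, ?_⟩
      intro c hc1 hc2 hc3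
      exact absurd ⟨c, hc1, hc2, hc3⟩ hb
  obtain ⟨φ, hφ1, hφ2, ⟨x₁, hx₁, hφx₁⟩, ⟨x₂, hx₂, hφx₂⟩⟩ :=
    hPC K V hK g f ξ hf hrk _ _ hker hU₂
  have hAx₁ : (g - 1) x₁ = 0 := LinearMap.mem_ker.mp hx₁
  refine ⟨φ, hφ1, hφ2, ?_, ?_, ?_⟩
  · intro t ht
    have h1 := LinearMap.congr_fun ht x₁
    rw [LinearMap.comp_apply, hAx₁, map_zero, LinearMap.smul_apply, smul_eq_mul] at h1
    have ht0 : t = 0 := by
      rcases mul_eq_zero.mp h1.symm with h | h
      · exact h
      · exact absurd h hφx₁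
    apply hφ2 0
    rw [ht, ht0, zero_smul, zero_smul]
  · intro _
    exact ⟨x₁, hAx₁, hφx₁⟩
  · intro c hc1 hcn hcdim
    have := hU₂c c hc1 hcn hcdim
    rw [this] at hx₂
    exact ⟨x₂, (mem_eig g c x₂).mp hx₂, hφx₂⟩

end Cfsg.Agent.Lib.Helper53.RUPHIA
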