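import Cfsg.Agent.Lib.Helper53.RUStmt

/-!
# S2522 piece PHIB : a good functional when `g` has no fixed vector
-/

set_option autoImplicit false

namespace Cfsg.Agent.Lib.Helper53.RUPHIB

open Cfsg.Agent.Lib.Helper53.RUStmt

universe u v

theorem mem_eig {K : Type u} [Field K] {V : Type v} [AddCommGroup V] [Module K V]
    (g : Module.End K V) (c : K) (x : V) :
    x ∈ LinearMap.ker (g - c • (1 : Module.End K V)) ↔ g x = c • x := by
  rw [LinearMap.mem_ker, LinearMap.sub_apply, LinearMap.smul_apply, Module.End.one_apply,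
    sub_eq_zero]

theorem main : PhiBPiece.{u, v} := by
  intro hPC hCU K _ V _ _ _ hK hn g hg hker f ξ hf hξ
  obtain ⟨hdet, hns, hrk⟩ := hg
  by_cases hex : ∃ c₁ : K, LinearMap.ker (g - c₁ • (1 : Module.End K V)) ≠ ⊥
  · obtain ⟨c₁, hc₁, hc₁bad⟩ : ∃ c₁ : K, LinearMap.ker (g - c₁ • (1 : Module.End K V)) ≠ ⊥ ∧
        ((∃ c : K, c ≠ 1 ∧ c ^ (Module.finrank K V - 1) = 1 ∧ Module.finrank K V ≤
            Module.finrank K (LinearMap.ker (g - c • (1 : Module.End K V))) + 2) →
          (c₁ ≠ 1 ∧ c₁ ^ (Module.finrank K V - 1) = 1 ∧ Module.finrank K V ≤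
            Module.finrank K (LinearMap.ker (g - c₁ • (1 : Module.End K V))) + 2)) := by
      by_cases hb : ∃ c : K, c ≠ 1 ∧ c ^ (Module.finrank K V - 1) = 1 ∧ Module.finrank K V ≤
            Module.finrank K (LinearMap.ker (g - c • (1 : Module.End K V))) + 2
      · obtain ⟨c, hc⟩ := hb
        refine ⟨c, ?_, fun _ => hc⟩
        intro h0
        have h3 := hc.2.2
        rw [h0, finrank_bot] at h3
        omega
      · obtain ⟨c₁, hc₁⟩ := hex
        exact ⟨c₁, hc₁, fun h => absurd h hb⟩
    have hU₂ : LinearMap.range (g - c₁ • (1 : Module.End K V)) ≠ ⊥ := by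
      intro h0
      apply hns
      refine ⟨c₁, ?_⟩
      have := LinearMap.range_eq_bot.mp h0
      exact sub_eq_zero.mp this
    obtain ⟨φ, hφ1, hφ2, ⟨x₁, hx₁, hφx₁⟩, ⟨x₂, hx₂, hφx₂⟩⟩ :=
      hPC K V hK g f ξ hf hrk _ _ hc₁ hU₂
    have hgx₁ : g x₁ = c₁ • x₁ := (mem_eig g c₁ x₁).mp hx₁
    refine ⟨φ, hφ1, hφ2, ?_, ?_, ?_⟩
    · intro t ht
      have h1 := LinearMap.congr_fun ht x₁
      rw [LinearMap.comp_apply, LinearMap.sub_apply, Module.End.one_apply, hgx₁, map_sub,
        map_smul, LinearMap.smul_apply, smul_eq_mul, smul_eq_mul] at h1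
      have hc : c₁ - 1 = t := by
        apply mul_right_cancel₀ hφx₁
        linear_combination h1
      obtain ⟨y, hy⟩ := hx₂
      apply hφx₂
      rw [← hy, LinearMap.sub_apply, LinearMap.smul_apply, Module.End.one_apply, map_sub,
        map_smul, smul_eq_mul]
      have h2 := LinearMap.congr_fun ht y
      rw [LinearMap.comp_apply, LinearMap.sub_apply, Module.End.one_apply, map_sub,
        LinearMap.smul_apply, smul_eq_mul] at h2
      rw [← hc] at h2
      linear_combination h2
    · intro hk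
      exact absurd hker hk
    · intro c hc1 hcn hcdim
      by_cases hcc : c = c₁
      · refine ⟨x₁, ?_, hφx₁⟩
        rw [hcc]
        exact hgx₁
      · obtain ⟨h1, h2, h3⟩ := hc₁bad ⟨c, hc1, hcn, hcdim⟩
        obtain ⟨_, hle⟩ := hCU K V hn g c c₁ hc1 h1 hcc hcn h2 hcdim h3
        exact ⟨x₂, (mem_eig g c x₂).mp (hle hx₂), hφx₂⟩
  · push Not at hex
    have htop : (⊤ : Submodule K V) ≠ ⊥ := by
      intro h
      have h3 : Module.finrank K (⊤ : Submodule K V) = Module.finrank K V := finrank_top K V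
      rw [h, finrank_bot] at h3
      omega
    obtain ⟨φ, hφ1, hφ2, -, -⟩ := hPC K V hK g f ξ hf hrk ⊤ ⊤ htop htop
    refine ⟨φ, hφ1, hφ2, ?_, ?_, ?_⟩
    · intro t ht
      have hinj : Function.Injective (g - (1 + t) • (1 : Module.End K V)) :=
        LinearMap.ker_eq_bot.mp (hex (1 + t))
      have hsurj : Function.Surjective (g - (1 + t) • (1 : Module.End K V)) :=
        LinearMap.injective_iff_surjective.mp hinj
      obtain ⟨y, hy⟩ := hsurj f
      apply hφ1
      rw [← hy, LinearMap.sub_apply, LinearMap.smul_apply, Module.End.one_apply, map_sub,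
        map_smul, smul_eq_mul]
      have h2 := LinearMap.congr_fun ht y
      rw [LinearMap.comp_apply, LinearMap.sub_apply, Module.End.one_apply, map_sub,
        LinearMap.smul_apply, smul_eq_mul] at h2
      linear_combination h2
    · intro hk
      exact absurd hker hk
    · intro c hc1 hcn hcdim
      rw [hex c, finrank_bot] at hcdim
      omega

end Cfsg.Agent.Lib.Helper53.RUPHIB
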