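import Cfsg.Agent.Lib.Helper53.RUStmt

/-!
# S2522 piece UNI : elements with `rank (g - 1) ≤ 1` and determinant 1
-/

set_option autoImplicit false

namespace Cfsg.Agent.Lib.Helper53.RUUNI

open Cfsg.Agent.Lib.Helper53.RUStmt

universe u v

theorem aux (hFix : FixStmt.{u, v}) (hDet : DetChildStmt.{u, v}) (K : Type u) [Field K]
    (hK : 3 ≤ Cardinal.mk K) :
    ∀ (n : ℕ) (V : Type v) [AddCommGroup V] [Module K V] [Module.Finite K V],
      Module.finrank K V = n + 1 → ∀ g : Module.End K V, LinearMap.det g = 1 →
      Module.finrank K (LinearMap.range (g - 1)) ≤ 1 → ∃ B C : Module.End K V, RUPair g B C := by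
  intro n
  induction n with
  | zero =>
    intro V _ _ _ hV g hdet hrk
    have hg1 : g = 1 := by
      obtain ⟨v, hv0, hv⟩ := finrank_eq_one_iff'.mp hV
      obtain ⟨c, hc⟩ := hv (g v)
      have hgc : g = c • (1 : Module.End K V) := by
        apply LinearMap.ext
        intro w
        obtain ⟨d, hd⟩ := hv w
        rw [← hd, map_smul, ← hc, LinearMap.smul_apply, Module.End.one_apply, smul_comm]
      have h2 : LinearMap.det g = c := by
        rw [hgc, LinearMap.det_smul, hV, pow_one, map_one, mul_one]
      rw [hgc, ← h2, hdet, one_smul]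
    have hru : RegUnip (1 : Module.End K V) := by
      refine ⟨?_, ?_⟩
      · rw [sub_self]
        exact IsNilpotent.zero
      · rw [sub_self, LinearMap.range_zero, finrank_bot, hV]
    exact ⟨1, 1, hru, hru, by rw [hg1, mul_one]⟩
  | succ n ih =>
    intro V _ _ _ hV g hdet hrk
    have h1 := LinearMap.finrank_range_add_finrank_ker (g - 1)
    have hker : LinearMap.ker (g - 1) ≠ ⊥ := by
      intro h0
      rw [h0, finrank_bot] at h1
      omega
    obtain ⟨e, he, he0⟩ := Submodule.exists_mem_ne_zero_of_ne_bot hker
    have hfix : g e = e := by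
      have := LinearMap.mem_ker.mp he
      rwa [LinearMap.sub_apply, Module.End.one_apply, sub_eq_zero] at this
    obtain ⟨φ, hφ⟩ : ∃ φ : Module.Dual K V, φ e = 1 := by
      have : ¬ ∀ f : Module.Dual K V, f e = 0 := fun h =>
        he0 ((Module.forall_dual_apply_eq_zero_iff K e).mp h)
      push Not at this
      obtain ⟨f, hf⟩ := this
      exact ⟨(f e)⁻¹ • f, by rw [LinearMap.smul_apply, smul_eq_mul, inv_mul_cancel₀ hf]⟩
    have hge : φ (g e) = 1 := by
      rw [hfix]
      exact hφ
    have hφ0 : φ ≠ 0 := by
      intro h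
      rw [h] at hφ
      simp at hφ
    have hW : Module.finrank K (LinearMap.ker φ) = n + 1 := by
      have := Module.Dual.finrank_ker_add_one_of_ne_zero hφ0
      omega
    have hdet' : LinearMap.det (child g e φ hge) = 1 := by
      rw [hDet K V g e φ hφ hge]
      exact hdet
    have hrk' : Module.finrank K (LinearMap.range (child g e φ hge - 1)) ≤ 1 := by
      have hcomp : child g e φ hge - 1 =
          (proj e φ hφ) ∘ₗ ((g - 1) ∘ₗ (LinearMap.ker φ).subtype) := by
        apply LinearMap.ext
        intro w
        apply Subtype.ext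
        have hw : φ (w : V) = 0 := LinearMap.mem_ker.mp w.2
        rw [LinearMap.sub_apply, Module.End.one_apply, Submodule.coe_sub, child_apply,
          LinearMap.comp_apply, proj_apply, LinearMap.comp_apply, Submodule.subtype_apply,
          LinearMap.sub_apply, Module.End.one_apply, map_sub, hw, sub_zero, hfix]
        abel
      rw [hcomp, LinearMap.range_comp]
      calc Module.finrank K (Submodule.map (proj e φ hφ)
              (LinearMap.range ((g - 1) ∘ₗ (LinearMap.ker φ).subtype)))
          ≤ Module.finrank K (LinearMap.range ((g - 1) ∘ₗ (LinearMap.ker φ).subtype)) :=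
            Submodule.finrank_map_le _ _
        _ ≤ Module.finrank K (LinearMap.range (g - 1)) :=
            Submodule.finrank_mono (LinearMap.range_comp_le_range _ _)
        _ ≤ 1 := hrk
    obtain ⟨B₁, C₁, hpair⟩ := ih (LinearMap.ker φ) hW (child g e φ hge) hdet' hrk'
    exact hFix K V hK g e φ hφ hfix hge B₁ C₁ hpair

theorem main : UniPiece.{u, v} := by
  intro hFix hDet K _ V _ _ _ hK hn g hdet hrk
  obtain ⟨n, hn'⟩ : ∃ n, Module.finrank K V = n + 1 := ⟨Module.finrank K V - 1, by omega⟩
  exact aux hFix hDet K hK n V hn' g hdet hrk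

end Cfsg.Agent.Lib.Helper53.RUUNI
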