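import Mathlib

set_option autoImplicit false

namespace Cfsg.Agent.Lib.Helper53.SL25

set_option maxRecDepth 100000 in
theorem zmod5_search : ∀ p q r s : ZMod 5, p * s - q * r = 1 →
    (p * p + q * r) * p + (p * q + q * s) * r = 1 →
    (p * p + q * r) * q + (p * q + q * s) * s = 0 →
    (r * p + s * r) * p + (r * q + s * s) * r = 0 →
    (r * p + s * r) * q + (r * q + s * s) * s = 1 →
    ¬ (p = 1 ∧ q = 0 ∧ r = 0 ∧ s = 1) →
    ∃ α β γ : ZMod 5, α * α + β * γ = -1 ∧ α * (p - s) + β * r + γ * q = 0 := by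
  decide +kernel


open Matrix in
/-- elements of `SL₂(𝔽₅)` needed for the analysis of an element of order 3 -/
theorem exists_elements {K : Type*} [Field K] [Fintype K] (hK : Fintype.card K = 5)
    (x : Matrix.SpecialLinearGroup (Fin 2) K) (hx : orderOf x = 3) :
    ∃ z u y : Matrix.SpecialLinearGroup (Fin 2) K, z * z = 1 ∧ z ≠ 1 ∧ z * u = u * z ∧
      u ^ 5 = 1 ∧ u ≠ 1 ∧ y * y = z ∧ x * y * x = y := by
  have h5 : (5 : K) = 0 := by
    have := Nat.cast_card_eq_zero K
    rw [hK] at this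
    exact_mod_cast this
  have h2 : (2 : K) ≠ 0 := by
    intro h
    have h1 : (1 : K) = 5 - 2 * 2 := by norm_num
    rw [h5, h] at h1
    simp at h1
  -- the entries of x
  obtain ⟨X, hX⟩ : ∃ X : Matrix (Fin 2) (Fin 2) K, X = (x : Matrix (Fin 2) (Fin 2) K) := ⟨_, rfl⟩
  have hdet : X 0 0 * X 1 1 - X 0 1 * X 1 0 = 1 := by
    rw [← Matrix.det_fin_two, hX]; exact x.2
  have hx3 : x ^ 3 = 1 := by rw [← hx, pow_orderOf_eq_one]
  have hX3 : X * X * X = 1 := by
    have := congrArg (fun g : Matrix.SpecialLinearGroup (Fin 2) K =>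
      (g : Matrix (Fin 2) (Fin 2) K)) hx3
    simp only [Matrix.SpecialLinearGroup.coe_pow, Matrix.SpecialLinearGroup.coe_one] at this
    rw [hX, ← this, pow_succ, pow_succ, pow_one]
  have hX1 : X ≠ 1 := by
    intro h
    have h1 : x = 1 := by
      apply Subtype.ext
      rw [← hX, h]; rfl
    rw [h1, orderOf_one] at hx
    omega
  have h00 : (X 0 0 * X 0 0 + X 0 1 * X 1 0) * X 0 0 + (X 0 0 * X 0 1 + X 0 1 * X 1 1) * X 1 0
      = 1 := by
    have := congrFun (congrFun hX3 0) 0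
    simp only [Matrix.mul_apply, Fin.sum_univ_two, Matrix.one_apply_eq] at this
    linear_combination this
  have h01 : (X 0 0 * X 0 0 + X 0 1 * X 1 0) * X 0 1 + (X 0 0 * X 0 1 + X 0 1 * X 1 1) * X 1 1
      = 0 := by
    have := congrFun (congrFun hX3 0) 1
    simp only [Matrix.mul_apply, Fin.sum_univ_two] at this
    rw [Matrix.one_apply_ne (by decide)] at this
    linear_combination this
  have h10 : (X 1 0 * X 0 0 + X 1 1 * X 1 0) * X 0 0 + (X 1 0 * X 0 1 + X 1 1 * X 1 1) * X 1 0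
      = 0 := by
    have := congrFun (congrFun hX3 1) 0
    simp only [Matrix.mul_apply, Fin.sum_univ_two] at this
    rw [Matrix.one_apply_ne (by decide)] at this
    linear_combination this
  have h11 : (X 1 0 * X 0 0 + X 1 1 * X 1 0) * X 0 1 + (X 1 0 * X 0 1 + X 1 1 * X 1 1) * X 1 1
      = 1 := by
    have := congrFun (congrFun hX3 1) 1
    simp only [Matrix.mul_apply, Fin.sum_univ_two, Matrix.one_apply_eq] at this
    linear_combination this
  -- transfer to ZMod 5
  obtain ⟨e⟩ : Nonempty (ZMod 5 ≃+* K) := ⟨ZMod.ringEquivOfPrime K (by norm_num) hK⟩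
  have hne : ¬ (e.symm (X 0 0) = 1 ∧ e.symm (X 0 1) = 0 ∧ e.symm (X 1 0) = 0 ∧
      e.symm (X 1 1) = 1) := by
    rintro ⟨a1, a2, a3, a4⟩
    apply hX1
    have b1 : X 0 0 = 1 := by simpa using congrArg e a1
    have b2 : X 0 1 = 0 := by simpa using congrArg e a2
    have b3 : X 1 0 = 0 := by simpa using congrArg e a3
    have b4 : X 1 1 = 1 := by simpa using congrArg e a4
    ext i j
    fin_cases i <;> fin_cases j <;> simp [b1, b2, b3, b4]
  obtain ⟨α', β', γ', hq1, hq2⟩ := zmod5_search (e.symm (X 0 0)) (e.symm (X 0 1))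
    (e.symm (X 1 0)) (e.symm (X 1 1))
    (by simpa using congrArg e.symm hdet) (by simpa using congrArg e.symm h00)
    (by simpa using congrArg e.symm h01) (by simpa using congrArg e.symm h10)
    (by simpa using congrArg e.symm h11) hne
  obtain ⟨α, hα⟩ : ∃ α : K, α = e α' := ⟨_, rfl⟩
  obtain ⟨β, hβ⟩ : ∃ β : K, β = e β' := ⟨_, rfl⟩
  obtain ⟨γ, hγ⟩ : ∃ γ : K, γ = e γ' := ⟨_, rfl⟩
  have hQ : α * α + β * γ = -1 := by
    have := congrArg e hq1
    simp only [map_add, map_mul, map_neg, map_one] at this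
    rw [hα, hβ, hγ]; exact this
  have hτ : α * (X 0 0 - X 1 1) + β * X 1 0 + γ * X 0 1 = 0 := by
    have := congrArg e hq2
    simp only [map_add, map_mul, map_sub, map_zero, RingEquiv.apply_symm_apply] at this
    rw [hα, hβ, hγ]; exact this
  obtain ⟨z, hz⟩ : ∃ z : Matrix.SpecialLinearGroup (Fin 2) K,
      (z : Matrix (Fin 2) (Fin 2) K) = -1 := ⟨⟨-1, by simp [Matrix.det_neg]⟩, rfl⟩
  obtain ⟨u, hu⟩ : ∃ u : Matrix.SpecialLinearGroup (Fin 2) K,
      (u : Matrix (Fin 2) (Fin 2) K) = !![1, 1; 0, 1] :=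
    ⟨⟨!![1, 1; 0, 1], by simp [Matrix.det_fin_two_of]⟩, rfl⟩
  obtain ⟨y, hy⟩ : ∃ y : Matrix.SpecialLinearGroup (Fin 2) K,
      (y : Matrix (Fin 2) (Fin 2) K) = !![α, β; γ, -α] :=
    ⟨⟨!![α, β; γ, -α], by rw [Matrix.det_fin_two_of]; linear_combination (-1 : K) * hQ⟩, rfl⟩
  refine ⟨z, u, y, ?_, ?_, ?_, ?_, ?_, ?_, ?_⟩
  · apply Subtype.ext
    rw [Matrix.SpecialLinearGroup.coe_mul, hz, Matrix.SpecialLinearGroup.coe_one]
    simp
  · intro h
    have h1 := congrArg (fun g : Matrix.SpecialLinearGroup (Fin 2) K =>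
      (g : Matrix (Fin 2) (Fin 2) K) 0 0) h
    simp only [hz, Matrix.SpecialLinearGroup.coe_one] at h1
    simp at h1
    apply h2
    linear_combination (-1 : K) * h1
  · apply Subtype.ext
    rw [Matrix.SpecialLinearGroup.coe_mul, Matrix.SpecialLinearGroup.coe_mul, hz]
    simp
  · apply Subtype.ext
    rw [Matrix.SpecialLinearGroup.coe_pow, Matrix.SpecialLinearGroup.coe_one, hu]
    rw [pow_succ, pow_succ, pow_succ, pow_succ, pow_one]
    simp only [Matrix.mul_fin_two, Matrix.one_fin_two]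
    norm_num
    rw [h5]
  · intro h
    have h1 := congrArg (fun g : Matrix.SpecialLinearGroup (Fin 2) K =>
      (g : Matrix (Fin 2) (Fin 2) K) 0 1) h
    simp only [hu, Matrix.SpecialLinearGroup.coe_one] at h1
    simp at h1
  · apply Subtype.ext
    rw [Matrix.SpecialLinearGroup.coe_mul, hy, hz]
    rw [Matrix.mul_fin_two]
    ext i j
    fin_cases i <;> fin_cases j <;> simp
    · linear_combination hQ
    · ring
    · ring
    · linear_combination hQ
  · apply Subtype.ext
    rw [Matrix.SpecialLinearGroup.coe_mul, Matrix.SpecialLinearGroup.coe_mul, hy, ← hX]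
    ext i j
    fin_cases i <;> fin_cases j <;> simp [Matrix.mul_apply, Fin.sum_univ_two]
    · linear_combination (X 0 0) * hτ + α * hdet
    · linear_combination (X 0 1) * hτ + β * hdet
    · linear_combination (X 1 0) * hτ + γ * hdet
    · linear_combination (X 1 1) * hτ + (-α) * hdet

end Cfsg.Agent.Lib.Helper53.SL25
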