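import Mathlib
import Cfsg.Agent.Lib.Helper5.SLGen

set_option autoImplicit false

/-!
# Explicit matrices in `SL₃(F)` and a generation criterion

`mem_top_of_lower`: a subgroup of `SL₃(F)` containing the regular unipotent `uu = 1 + E₁₂ + E₂₃`
and the full root groups `x31`, `x21` is everything.

`rule1`, `rule2`: commutator rules linking the sets `{t | x31 t ∈ H}` and `{t | yy t ∈ H}` for a
subgroup `H` containing `uu`.
-/

namespace Cfsg.Agent.Lib.Helper53.SL3Gen

open Matrix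

variable {F : Type*} [Field F]

/-- build an element of `SL₃` from an explicit matrix -/
def ofM (M : Matrix (Fin 3) (Fin 3) F) (h : M.det = 1) : Matrix.SpecialLinearGroup (Fin 3) F := ⟨M, h⟩

theorem ofM_coe (M : Matrix (Fin 3) (Fin 3) F) (h : M.det = 1) :
    ((ofM M h : Matrix.SpecialLinearGroup (Fin 3) F) : Matrix (Fin 3) (Fin 3) F) = M := rfl

def uu : Matrix.SpecialLinearGroup (Fin 3) F := ofM !![1,1,0;0,1,1;0,0,1] (by simp [det_fin_three])
def ui : Matrix.SpecialLinearGroup (Fin 3) F := ofM !![1,-1,1;0,1,-1;0,0,1] (by simp [det_fin_three])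
def x12 (t : F) : Matrix.SpecialLinearGroup (Fin 3) F :=
  ofM !![1,t,0;0,1,0;0,0,1] (by simp [det_fin_three])
def x13 (t : F) : Matrix.SpecialLinearGroup (Fin 3) F :=
  ofM !![1,0,t;0,1,0;0,0,1] (by simp [det_fin_three])
def x23 (t : F) : Matrix.SpecialLinearGroup (Fin 3) F :=
  ofM !![1,0,0;0,1,t;0,0,1] (by simp [det_fin_three])
def x21 (t : F) : Matrix.SpecialLinearGroup (Fin 3) F :=
  ofM !![1,0,0;t,1,0;0,0,1] (by simp [det_fin_three])
def x31 (t : F) : Matrix.SpecialLinearGroup (Fin 3) F :=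
  ofM !![1,0,0;0,1,0;t,0,1] (by simp [det_fin_three])
def x32 (t : F) : Matrix.SpecialLinearGroup (Fin 3) F :=
  ofM !![1,0,0;0,1,0;0,t,1] (by simp [det_fin_three])
def yy (t : F) : Matrix.SpecialLinearGroup (Fin 3) F :=
  ofM !![1,0,0;t,1,0;t,0,1] (by simp [det_fin_three])

theorem uu_coe : ((uu : Matrix.SpecialLinearGroup (Fin 3) F) : Matrix (Fin 3) (Fin 3) F) =
    !![1,1,0;0,1,1;0,0,1] := rfl
theorem ui_coe : ((ui : Matrix.SpecialLinearGroup (Fin 3) F) : Matrix (Fin 3) (Fin 3) F) =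
    !![1,-1,1;0,1,-1;0,0,1] := rfl
theorem x12_coe (t : F) : ((x12 t : Matrix.SpecialLinearGroup (Fin 3) F) : Matrix (Fin 3) (Fin 3) F) =
    !![1,t,0;0,1,0;0,0,1] := rfl
theorem x13_coe (t : F) : ((x13 t : Matrix.SpecialLinearGroup (Fin 3) F) : Matrix (Fin 3) (Fin 3) F) =
    !![1,0,t;0,1,0;0,0,1] := rfl
theorem x23_coe (t : F) : ((x23 t : Matrix.SpecialLinearGroup (Fin 3) F) : Matrix (Fin 3) (Fin 3) F) =
    !![1,0,0;0,1,t;0,0,1] := rfl
theorem x21_coe (t : F) : ((x21 t : Matrix.SpecialLinearGroup (Fin 3) F) : Matrix (Fin 3) (Fin 3) F) =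
    !![1,0,0;t,1,0;0,0,1] := rfl
theorem x31_coe (t : F) : ((x31 t : Matrix.SpecialLinearGroup (Fin 3) F) : Matrix (Fin 3) (Fin 3) F) =
    !![1,0,0;0,1,0;t,0,1] := rfl
theorem x32_coe (t : F) : ((x32 t : Matrix.SpecialLinearGroup (Fin 3) F) : Matrix (Fin 3) (Fin 3) F) =
    !![1,0,0;0,1,0;0,t,1] := rfl
theorem yy_coe (t : F) : ((yy t : Matrix.SpecialLinearGroup (Fin 3) F) : Matrix (Fin 3) (Fin 3) F) =
    !![1,0,0;t,1,0;t,0,1] := rfl

theorem uu_mul_ui : (uu : Matrix.SpecialLinearGroup (Fin 3) F) * ui = 1 := by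
  apply Subtype.ext
  simp only [Matrix.SpecialLinearGroup.coe_mul, Matrix.SpecialLinearGroup.coe_one, uu_coe, ui_coe]
  ext i j; fin_cases i <;> fin_cases j <;> simp [Matrix.mul_apply, Fin.sum_univ_three]

theorem ui_eq : (ui : Matrix.SpecialLinearGroup (Fin 3) F) = uu⁻¹ :=
  (inv_eq_of_mul_eq_one_right uu_mul_ui).symm

theorem x31_add (s t : F) : x31 s * x31 t = x31 (s + t) := by
  apply Subtype.ext
  simp only [Matrix.SpecialLinearGroup.coe_mul, x31_coe]
  ext i j; fin_cases i <;> fin_cases j <;> simp [Matrix.mul_apply, Fin.sum_univ_three] <;> ring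

theorem x31_zero : x31 (0 : F) = 1 := by
  apply Subtype.ext
  simp only [Matrix.SpecialLinearGroup.coe_one, x31_coe]
  ext i j; fin_cases i <;> fin_cases j <;> simp

theorem yy_add (s t : F) : yy s * yy t = yy (s + t) := by
  apply Subtype.ext
  simp only [Matrix.SpecialLinearGroup.coe_mul, yy_coe]
  ext i j; fin_cases i <;> fin_cases j <;> simp [Matrix.mul_apply, Fin.sum_univ_three] <;> ring

theorem yy_zero : yy (0 : F) = 1 := by
  apply Subtype.ext
  simp only [Matrix.SpecialLinearGroup.coe_one, yy_coe]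
  ext i j; fin_cases i <;> fin_cases j <;> simp

theorem x31_inv (t : F) : (x31 t)⁻¹ = x31 (-t) := by
  apply inv_eq_of_mul_eq_one_right
  rw [x31_add, add_neg_cancel, x31_zero]

theorem yy_inv (t : F) : (yy t)⁻¹ = yy (-t) := by
  apply inv_eq_of_mul_eq_one_right
  rw [yy_add, add_neg_cancel, yy_zero]

theorem x21_eq (t : F) : x21 t = yy t * x31 (-t) := by
  apply Subtype.ext
  simp only [Matrix.SpecialLinearGroup.coe_mul, x21_coe, yy_coe, x31_coe]
  ext i j; fin_cases i <;> fin_cases j <;> simp [Matrix.mul_apply, Fin.sum_univ_three]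

/-- the conjugate of `x31 t` by `uu` -/
def c31 (t : F) : Matrix.SpecialLinearGroup (Fin 3) F := uu * x31 t * uu⁻¹

theorem c31_coe (t : F) : ((c31 t : Matrix.SpecialLinearGroup (Fin 3) F) : Matrix (Fin 3) (Fin 3) F) =
    !![1,0,0;t,1-t,t;t,-t,1+t] := by
  rw [c31, ← ui_eq]
  simp only [Matrix.SpecialLinearGroup.coe_mul, uu_coe, ui_coe, x31_coe]
  ext i j; fin_cases i <;> fin_cases j <;> simp [Matrix.mul_apply, Fin.sum_univ_three] <;> ring

/-- the conjugate of `yy t` by `uu` -/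
def cy (t : F) : Matrix.SpecialLinearGroup (Fin 3) F := uu * yy t * uu⁻¹

theorem cy_coe (t : F) : ((cy t : Matrix.SpecialLinearGroup (Fin 3) F) : Matrix (Fin 3) (Fin 3) F) =
    !![1+t,-t,t;2*t,1-2*t,2*t;t,-t,1+t] := by
  rw [cy, ← ui_eq]
  simp only [Matrix.SpecialLinearGroup.coe_mul, uu_coe, ui_coe, yy_coe]
  ext i j; fin_cases i <;> fin_cases j <;> simp [Matrix.mul_apply, Fin.sum_univ_three] <;> ring

theorem rule1_id (s t : F) : x31 s * c31 t * x31 (-s) * c31 (-t) = yy (-(t * s)) := by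
  apply Subtype.ext
  simp only [Matrix.SpecialLinearGroup.coe_mul, x31_coe, c31_coe, yy_coe]
  ext i j; fin_cases i <;> fin_cases j <;> simp [Matrix.mul_apply, Fin.sum_univ_three] <;> ring

theorem rule2_id (m n : F) : cy m * yy n * cy (-m) * yy (-n) = c31 (-(m * n)) := by
  apply Subtype.ext
  simp only [Matrix.SpecialLinearGroup.coe_mul, cy_coe, c31_coe, yy_coe]
  ext i j; fin_cases i <;> fin_cases j <;> simp [Matrix.mul_apply, Fin.sum_univ_three] <;> ring

section rules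

variable (H : Subgroup (Matrix.SpecialLinearGroup (Fin 3) F))

theorem x31_add_mem {s t : F} (hs : x31 s ∈ H) (ht : x31 t ∈ H) : x31 (s + t) ∈ H := by
  rw [← x31_add]; exact H.mul_mem hs ht

theorem x31_neg_mem {t : F} (ht : x31 t ∈ H) : x31 (-t) ∈ H := by
  rw [← x31_inv]; exact H.inv_mem ht

theorem yy_add_mem {s t : F} (hs : yy s ∈ H) (ht : yy t ∈ H) : yy (s + t) ∈ H := by
  rw [← yy_add]; exact H.mul_mem hs ht

theorem yy_neg_mem {t : F} (ht : yy t ∈ H) : yy (-t) ∈ H := by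
  rw [← yy_inv]; exact H.inv_mem ht

theorem c31_mem (hu : uu ∈ H) {t : F} (ht : x31 t ∈ H) : c31 t ∈ H :=
  H.mul_mem (H.mul_mem hu ht) (H.inv_mem hu)

theorem cy_mem (hu : uu ∈ H) {t : F} (ht : yy t ∈ H) : cy t ∈ H :=
  H.mul_mem (H.mul_mem hu ht) (H.inv_mem hu)

/-- rule 1: `A' · A' ⊆ A''` -/
theorem rule1 (hu : uu ∈ H) {s t : F} (hs : x31 s ∈ H) (ht : x31 t ∈ H) : yy (s * t) ∈ H := by
  have h := rule1_id s t
  have h1 : yy (-(t * s)) ∈ H := by
    rw [← h]
    exact H.mul_mem (H.mul_mem (H.mul_mem hs (c31_mem H hu ht)) (x31_neg_mem H hs))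
      (c31_mem H hu (x31_neg_mem H ht))
  have h2 := yy_neg_mem H h1
  rwa [neg_neg, mul_comm] at h2

/-- rule 2: `A'' · A'' ⊆ A'` -/
theorem rule2 (hu : uu ∈ H) {m n : F} (hm : yy m ∈ H) (hn : yy n ∈ H) : x31 (m * n) ∈ H := by
  have h := rule2_id m n
  have h1 : c31 (-(m * n)) ∈ H := by
    rw [← h]
    exact H.mul_mem (H.mul_mem (H.mul_mem (cy_mem H hu hm) hn) (cy_mem H hu (yy_neg_mem H hm)))
      (yy_neg_mem H hn)
  have h2 : x31 (-(m * n)) = uu⁻¹ * c31 (-(m * n)) * uu := by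
    rw [c31]; group
  have h3 : x31 (-(m * n)) ∈ H := by
    rw [h2]; exact H.mul_mem (H.mul_mem (H.inv_mem hu) h1) hu
  have h4 := x31_neg_mem H h3
  rwa [neg_neg] at h4

end rules

/-! ### the generation criterion -/

theorem z1_id (t : F) : x32 t * x31 t = uu⁻¹ * yy t * uu := by
  rw [← ui_eq]
  apply Subtype.ext
  simp only [Matrix.SpecialLinearGroup.coe_mul, x32_coe, x31_coe, uu_coe, ui_coe, yy_coe]
  ext i j; fin_cases i <;> fin_cases j <;> simp [Matrix.mul_apply, Fin.sum_univ_three] <;> ring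

theorem z2_id (t : F) : x23 t = x32 (-1) * (yy (-t) * c31 t) * x32 1 := by
  apply Subtype.ext
  simp only [Matrix.SpecialLinearGroup.coe_mul, x32_coe, x23_coe, c31_coe, yy_coe]
  ext i j; fin_cases i <;> fin_cases j <;> simp [Matrix.mul_apply, Fin.sum_univ_three] <;> ring

theorem z3_id (s : F) : x12 s * (uu * x23 (-1)) = x32 s * (uu * x23 (-1)) * x32 (-s) := by
  apply Subtype.ext
  simp only [Matrix.SpecialLinearGroup.coe_mul, x32_coe, x23_coe, x12_coe, uu_coe]
  ext i j; fin_cases i <;> fin_cases j <;> simp [Matrix.mul_apply, Fin.sum_univ_three] <;> ring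

theorem z4_id (t : F) : x13 t * (x23 1 * x12 t) = x12 t * x23 1 := by
  apply Subtype.ext
  simp only [Matrix.SpecialLinearGroup.coe_mul, x13_coe, x23_coe, x12_coe]
  ext i j; fin_cases i <;> fin_cases j <;> simp [Matrix.mul_apply, Fin.sum_univ_three]

theorem tv01 (c : F) : Matrix.SpecialLinearGroup.transvection (show (0 : Fin 3) ≠ 1 by decide) c
    = x12 c := by
  apply Subtype.ext
  rw [Matrix.SpecialLinearGroup.transvection_coe, x12_coe]
  ext i j; fin_cases i <;> fin_cases j <;> simp [Matrix.single_apply]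

theorem tv02 (c : F) : Matrix.SpecialLinearGroup.transvection (show (0 : Fin 3) ≠ 2 by decide) c
    = x13 c := by
  apply Subtype.ext
  rw [Matrix.SpecialLinearGroup.transvection_coe, x13_coe]
  ext i j; fin_cases i <;> fin_cases j <;> simp [Matrix.single_apply]

theorem tv12 (c : F) : Matrix.SpecialLinearGroup.transvection (show (1 : Fin 3) ≠ 2 by decide) c
    = x23 c := by
  apply Subtype.ext
  rw [Matrix.SpecialLinearGroup.transvection_coe, x23_coe]
  ext i j; fin_cases i <;> fin_cases j <;> simp [Matrix.single_apply]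

theorem tv10 (c : F) : Matrix.SpecialLinearGroup.transvection (show (1 : Fin 3) ≠ 0 by decide) c
    = x21 c := by
  apply Subtype.ext
  rw [Matrix.SpecialLinearGroup.transvection_coe, x21_coe]
  ext i j; fin_cases i <;> fin_cases j <;> simp [Matrix.single_apply]

theorem tv20 (c : F) : Matrix.SpecialLinearGroup.transvection (show (2 : Fin 3) ≠ 0 by decide) c
    = x31 c := by
  apply Subtype.ext
  rw [Matrix.SpecialLinearGroup.transvection_coe, x31_coe]
  ext i j; fin_cases i <;> fin_cases j <;> simp [Matrix.single_apply]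

theorem tv21 (c : F) : Matrix.SpecialLinearGroup.transvection (show (2 : Fin 3) ≠ 1 by decide) c
    = x32 c := by
  apply Subtype.ext
  rw [Matrix.SpecialLinearGroup.transvection_coe, x32_coe]
  ext i j; fin_cases i <;> fin_cases j <;> simp [Matrix.single_apply]

/-- A subgroup of `SL₃(F)` containing the regular unipotent `uu` and the root groups `x31`, `x21`
is the whole group. -/
theorem eq_top_of_lower (H : Subgroup (Matrix.SpecialLinearGroup (Fin 3) F)) (hu : uu ∈ H)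
    (h31 : ∀ t : F, x31 t ∈ H) (hy : ∀ t : F, yy t ∈ H) : H = ⊤ := by
  have h21 : ∀ t : F, x21 t ∈ H := fun t => by
    rw [x21_eq]; exact H.mul_mem (hy t) (h31 _)
  have h32 : ∀ t : F, x32 t ∈ H := fun t => by
    have h := z1_id t
    have h1 : x32 t = uu⁻¹ * yy t * uu * (x31 t)⁻¹ := eq_mul_inv_of_mul_eq h
    rw [h1]
    exact H.mul_mem (H.mul_mem (H.mul_mem (H.inv_mem hu) (hy t)) hu) (H.inv_mem (h31 t))
  have h23 : ∀ t : F, x23 t ∈ H := fun t => by
    rw [z2_id]
    exact H.mul_mem (H.mul_mem (h32 _) (H.mul_mem (hy _) (c31_mem H hu (h31 t)))) (h32 _)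
  have h12 : ∀ t : F, x12 t ∈ H := fun t => by
    have h := z3_id t
    have h1 : x12 t = x32 t * (uu * x23 (-1)) * x32 (-t) * (uu * x23 (-1))⁻¹ :=
      eq_mul_inv_of_mul_eq h
    rw [h1]
    have he : (uu : Matrix.SpecialLinearGroup (Fin 3) F) * x23 (-1) ∈ H := H.mul_mem hu (h23 _)
    exact H.mul_mem (H.mul_mem (H.mul_mem (h32 _) he) (h32 _)) (H.inv_mem he)
  have h13 : ∀ t : F, x13 t ∈ H := fun t => by
    have h := z4_id t
    have h1 : x13 t = x12 t * x23 1 * (x23 1 * x12 t)⁻¹ := eq_mul_inv_of_mul_eq h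
    rw [h1]
    exact H.mul_mem (H.mul_mem (h12 _) (h23 _)) (H.inv_mem (H.mul_mem (h23 _) (h12 _)))
  rw [eq_top_iff]
  intro A _
  refine Cfsg.Agent.Lib.Helper5.SLGen.transvection_induction (fun A => A ∈ H) ?_ ?_ A
  · intro i j hij c
    fin_cases i <;> fin_cases j
    · exact absurd rfl hij
    · exact (tv01 c) ▸ h12 c
    · exact (tv02 c) ▸ h13 c
    · exact (tv10 c) ▸ h21 c
    · exact absurd rfl hij
    · exact (tv12 c) ▸ h23 c
    · exact (tv20 c) ▸ h31 c
    · exact (tv21 c) ▸ h32 c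
    · exact absurd rfl hij
  · intro A B hA hB
    exact H.mul_mem hA hB

/-! ### regular unipotency of `uu` -/

theorem uu_nil : IsNilpotent (((uu : Matrix.SpecialLinearGroup (Fin 3) F) :
    Matrix (Fin 3) (Fin 3) F) - 1) := by
  refine ⟨3, ?_⟩
  rw [uu_coe]
  ext i j; fin_cases i <;> fin_cases j <;>
    simp [pow_succ, Matrix.mul_apply, Fin.sum_univ_three]

theorem uu_sq_ne : (((uu : Matrix.SpecialLinearGroup (Fin 3) F) :
    Matrix (Fin 3) (Fin 3) F) - 1) ^ (3 - 1) ≠ 0 := by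
  intro h
  have h1 := congrFun (congrFun h 0) 2
  rw [uu_coe] at h1
  simp [pow_succ, Matrix.mul_apply, Fin.sum_univ_three] at h1

/-! ### finite field facts -/

theorem inv_mem_subring [Finite F] (S : Subring F) {x : F} (hx : x ∈ S) : x⁻¹ ∈ S := by
  by_cases h0 : x = 0
  · rw [h0, _root_.inv_zero]; exact S.zero_mem
  · have := Fintype.ofFinite F
    have h1 : x ^ (Fintype.card F - 1) = 1 := FiniteField.pow_card_sub_one_eq_one x h0
    have hc : 1 < Fintype.card F := Fintype.one_lt_card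
    have h2 : x ^ (Fintype.card F - 2) * x = 1 := by
      rw [← pow_succ]
      have e : Fintype.card F - 2 + 1 = Fintype.card F - 1 := by omega
      rw [e]; exact h1
    have h3 : x⁻¹ = x ^ (Fintype.card F - 2) := (eq_inv_of_mul_eq_one_left h2).symm
    rw [h3]; exact S.pow_mem hx _

theorem exists_gen [Fintype F] : ∃ θ : F, θ ≠ 0 ∧ ∀ S : Subring F, θ ∈ S → S = ⊤ := by
  obtain ⟨g, hg⟩ := IsCyclic.exists_generator (α := Fˣ)
  refine ⟨(g : F), g.ne_zero, fun S hS => ?_⟩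
  rw [eq_top_iff]
  intro x _
  by_cases hx : x = 0
  · rw [hx]; exact S.zero_mem
  · have h1 : Units.mk0 x hx ∈ Subgroup.zpowers g := hg _
    rw [← mem_powers_iff_mem_zpowers] at h1
    obtain ⟨n, hn⟩ := h1
    have h2 : x = (g : F) ^ n := by
      have h3 := congrArg (fun u : Fˣ => (u : F)) hn
      simpa using h3.symm
    rw [h2]; exact S.pow_mem hS n

/-! ### The family for odd characteristic -/

def gg (ξ : F) : Matrix.SpecialLinearGroup (Fin 3) F :=
  ofM !![-1,-1,0;2,1,0;-2-ξ,-2,1] (by simp [det_fin_three]; ring)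
def gi (ξ : F) : Matrix.SpecialLinearGroup (Fin 3) F :=
  ofM !![1,1,0;-2,-1,0;ξ-2,ξ,1] (by simp [det_fin_three]; ring)
def mm (ξ : F) : Matrix.SpecialLinearGroup (Fin 3) F :=
  ofM !![-1,0,0;2+ξ,1,0;8,2-ξ,-1] (by simp [det_fin_three])

theorem gg_coe (ξ : F) : ((gg ξ : Matrix.SpecialLinearGroup (Fin 3) F) : Matrix (Fin 3) (Fin 3) F) =
    !![-1,-1,0;2,1,0;-2-ξ,-2,1] := rfl
theorem gi_coe (ξ : F) : ((gi ξ : Matrix.SpecialLinearGroup (Fin 3) F) : Matrix (Fin 3) (Fin 3) F) =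
    !![1,1,0;-2,-1,0;ξ-2,ξ,1] := rfl
theorem mm_coe (ξ : F) : ((mm ξ : Matrix.SpecialLinearGroup (Fin 3) F) : Matrix (Fin 3) (Fin 3) F) =
    !![-1,0,0;2+ξ,1,0;8,2-ξ,-1] := rfl

theorem gg_mul_gi (ξ : F) : gg ξ * gi ξ = 1 := by
  apply Subtype.ext
  simp only [Matrix.SpecialLinearGroup.coe_mul, Matrix.SpecialLinearGroup.coe_one, gg_coe, gi_coe]
  ext i j; fin_cases i <;> fin_cases j <;> simp [Matrix.mul_apply, Fin.sum_univ_three] <;> ring

theorem gi_eq (ξ : F) : gi ξ = (gg ξ)⁻¹ := (inv_eq_of_mul_eq_one_right (gg_mul_gi ξ)).symm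

theorem uv_eq (ξ : F) : uu * (gg ξ * uu * (gg ξ)⁻¹) = mm ξ := by
  rw [← gi_eq]
  apply Subtype.ext
  simp only [Matrix.SpecialLinearGroup.coe_mul, gg_coe, gi_coe, uu_coe, mm_coe]
  ext i j; fin_cases i <;> fin_cases j <;> simp [Matrix.mul_apply, Fin.sum_univ_three] <;> ring

theorem mm_sq (ξ : F) : mm ξ * mm ξ = x31 (-(ξ ^ 2 + 12)) := by
  apply Subtype.ext
  simp only [Matrix.SpecialLinearGroup.coe_mul, mm_coe, x31_coe]
  ext i j; fin_cases i <;> fin_cases j <;> simp [Matrix.mul_apply, Fin.sum_univ_three] <;> ring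

theorem rule3_id (ξ t : F) : yy t * mm ξ * yy t = x31 (ξ * t) * mm ξ := by
  apply Subtype.ext
  simp only [Matrix.SpecialLinearGroup.coe_mul, mm_coe, x31_coe, yy_coe]
  ext i j; fin_cases i <;> fin_cases j <;> simp [Matrix.mul_apply, Fin.sum_univ_three] <;> ring

/-! ### The family for characteristic two -/

def g2 (θ : F) : Matrix.SpecialLinearGroup (Fin 3) F :=
  ofM !![0,0,1;0,-1,-θ;1,0,0] (by simp [det_fin_three])
def g2i (θ : F) : Matrix.SpecialLinearGroup (Fin 3) F :=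
  ofM !![0,0,1;-θ,-1,0;1,0,0] (by simp [det_fin_three])
def v2 (θ : F) : Matrix.SpecialLinearGroup (Fin 3) F :=
  ofM !![1,0,0;-1,1,0;-θ,-1,1] (by simp [det_fin_three])
def pp : Matrix.SpecialLinearGroup (Fin 3) F :=
  ofM !![0,0,1;0,-1,0;1,0,0] (by simp [det_fin_three])

theorem g2_coe (θ : F) : ((g2 θ : Matrix.SpecialLinearGroup (Fin 3) F) : Matrix (Fin 3) (Fin 3) F) =
    !![0,0,1;0,-1,-θ;1,0,0] := rfl
theorem g2i_coe (θ : F) : ((g2i θ : Matrix.SpecialLinearGroup (Fin 3) F) :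
    Matrix (Fin 3) (Fin 3) F) = !![0,0,1;-θ,-1,0;1,0,0] := rfl
theorem v2_coe (θ : F) : ((v2 θ : Matrix.SpecialLinearGroup (Fin 3) F) : Matrix (Fin 3) (Fin 3) F) =
    !![1,0,0;-1,1,0;-θ,-1,1] := rfl
theorem pp_coe : ((pp : Matrix.SpecialLinearGroup (Fin 3) F) : Matrix (Fin 3) (Fin 3) F) =
    !![0,0,1;0,-1,0;1,0,0] := rfl

theorem g2_mul_g2i (θ : F) : g2 θ * g2i θ = 1 := by
  apply Subtype.ext
  simp only [Matrix.SpecialLinearGroup.coe_mul, Matrix.SpecialLinearGroup.coe_one, g2_coe, g2i_coe]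
  ext i j; fin_cases i <;> fin_cases j <;> simp [Matrix.mul_apply, Fin.sum_univ_three]

theorem g2i_eq (θ : F) : g2i θ = (g2 θ)⁻¹ := (inv_eq_of_mul_eq_one_right (g2_mul_g2i θ)).symm

theorem v2_eq (θ : F) : g2 θ * uu * (g2 θ)⁻¹ = v2 θ := by
  rw [← g2i_eq]
  apply Subtype.ext
  simp only [Matrix.SpecialLinearGroup.coe_mul, g2_coe, g2i_coe, uu_coe, v2_coe]
  ext i j; fin_cases i <;> fin_cases j <;> simp [Matrix.mul_apply, Fin.sum_univ_three] <;> ring

theorem uu_sq (h2 : (2 : F) = 0) : (uu : Matrix.SpecialLinearGroup (Fin 3) F) * uu = x13 1 := by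
  apply Subtype.ext
  simp only [Matrix.SpecialLinearGroup.coe_mul, uu_coe, x13_coe]
  ext i j; fin_cases i <;> fin_cases j <;> simp [Matrix.mul_apply, Fin.sum_univ_three] <;>
    linear_combination h2

theorem v2_sq (h2 : (2 : F) = 0) (θ : F) : v2 θ * v2 θ = x31 1 := by
  apply Subtype.ext
  simp only [Matrix.SpecialLinearGroup.coe_mul, v2_coe, x31_coe]
  ext i j; fin_cases i <;> fin_cases j <;> simp [Matrix.mul_apply, Fin.sum_univ_three] <;>
    first | linear_combination (-1 : F) * h2 | linear_combination (-θ) * h2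

theorem pp_eq (h2 : (2 : F) = 0) :
    (x13 1 : Matrix.SpecialLinearGroup (Fin 3) F) * x31 1 * x13 1 = pp := by
  apply Subtype.ext
  simp only [Matrix.SpecialLinearGroup.coe_mul, pp_coe, x31_coe, x13_coe]
  ext i j; fin_cases i <;> fin_cases j <;> simp [Matrix.mul_apply, Fin.sum_univ_three] <;>
    first | linear_combination h2 | linear_combination (-1 : F) * h2

theorem pp_sq : (pp : Matrix.SpecialLinearGroup (Fin 3) F) * pp = 1 := by
  apply Subtype.ext
  simp only [Matrix.SpecialLinearGroup.coe_mul, Matrix.SpecialLinearGroup.coe_one, pp_coe]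
  ext i j; fin_cases i <;> fin_cases j <;> simp [Matrix.mul_apply, Fin.sum_univ_three]

theorem c4_id (θ : F) :
    pp * (v2 θ * x21 1) * pp = x13 (-θ) * (uu * (pp * x21 1 * pp)) := by
  apply Subtype.ext
  simp only [Matrix.SpecialLinearGroup.coe_mul, pp_coe, v2_coe, x21_coe, x13_coe, uu_coe]
  ext i j; fin_cases i <;> fin_cases j <;> simp [Matrix.mul_apply, Fin.sum_univ_three] <;> ring

theorem c5_id (t : F) : pp * x13 t * pp = x31 t := by
  apply Subtype.ext
  simp only [Matrix.SpecialLinearGroup.coe_mul, pp_coe, x31_coe, x13_coe]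
  ext i j; fin_cases i <;> fin_cases j <;> simp [Matrix.mul_apply, Fin.sum_univ_three]

/-! ### main theorems -/

theorem odd_main [Fintype F] (h2 : (2 : F) ≠ 0) (ξ : F) (hξ : ξ ≠ 0) (ht0 : ξ ^ 2 + 12 ≠ 0)
    (hgen : ∀ S : Subring F, ξ ∈ S → S = ⊤) :
    Subgroup.closure ({uu, gg ξ * uu * (gg ξ)⁻¹} : Set (Matrix.SpecialLinearGroup (Fin 3) F))
      = ⊤ := by
  set H := Subgroup.closure
    ({uu, gg ξ * uu * (gg ξ)⁻¹} : Set (Matrix.SpecialLinearGroup (Fin 3) F)) with hH
  have hu : uu ∈ H := Subgroup.subset_closure (by simp)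
  have hv : gg ξ * uu * (gg ξ)⁻¹ ∈ H := Subgroup.subset_closure (by simp)
  have hm : mm ξ ∈ H := by rw [← uv_eq]; exact H.mul_mem hu hv
  have ht : x31 (-(ξ ^ 2 + 12)) ∈ H := by rw [← mm_sq]; exact H.mul_mem hm hm
  have r3 : ∀ t, yy t ∈ H → x31 (ξ * t) ∈ H := by
    intro t hy
    have h := rule3_id ξ t
    have h1 : x31 (ξ * t) = yy t * mm ξ * yy t * (mm ξ)⁻¹ := eq_mul_inv_of_mul_eq h.symm
    rw [h1]; exact H.mul_mem (H.mul_mem (H.mul_mem hy hm) hy) (H.inv_mem hm)
  have Bmul : ∀ a b, x31 (ξ⁻¹ * a) ∈ H → x31 (ξ⁻¹ * b) ∈ H → x31 (ξ⁻¹ * (a * b)) ∈ H := by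
    intro a b ha hb
    have h1 := r3 _ (rule1 H hu ha hb)
    have e : ξ * (ξ⁻¹ * a * (ξ⁻¹ * b)) = ξ⁻¹ * (a * b) := by field_simp
    rwa [e] at h1
  have Bpow : ∀ a, x31 (ξ⁻¹ * a) ∈ H → ∀ n : ℕ, x31 (ξ⁻¹ * a ^ (n + 1)) ∈ H := by
    intro a ha n
    induction n with
    | zero => simpa using ha
    | succ n ih => rw [pow_succ]; exact Bmul _ _ ih ha
  have hb0 : x31 (ξ⁻¹ * (ξ * (-(ξ ^ 2 + 12)))) ∈ H := by
    have e : ξ⁻¹ * (ξ * (-(ξ ^ 2 + 12))) = -(ξ ^ 2 + 12) := by field_simp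
    rw [e]; exact ht
  have Bone : x31 (ξ⁻¹ * 1) ∈ H := by
    have hne : ξ * (-(ξ ^ 2 + 12)) ≠ 0 := mul_ne_zero hξ (neg_ne_zero.mpr ht0)
    have hcard : 1 < Fintype.card F := Fintype.one_lt_card
    have h1 := FiniteField.pow_card_sub_one_eq_one _ hne
    have h2' := Bpow _ hb0 (Fintype.card F - 2)
    have e2 : Fintype.card F - 2 + 1 = Fintype.card F - 1 := by omega
    rwa [e2, h1] at h2'
  let S : Subring F :=
    { carrier := {b | x31 (ξ⁻¹ * b) ∈ H}
      zero_mem' := by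
        show x31 (ξ⁻¹ * 0) ∈ H
        rw [mul_zero, x31_zero]; exact H.one_mem
      add_mem' := by
        intro a b ha hb
        show x31 (ξ⁻¹ * (a + b)) ∈ H
        rw [mul_add]; exact x31_add_mem H ha hb
      neg_mem' := by
        intro a ha
        show x31 (ξ⁻¹ * (-a)) ∈ H
        rw [mul_neg]; exact x31_neg_mem H ha
      mul_mem' := by
        intro a b ha hb
        exact Bmul a b ha hb
      one_mem' := Bone }
  have hSmem : ∀ b, b ∈ S ↔ x31 (ξ⁻¹ * b) ∈ H := fun b => Iff.rfl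
  have hS1 : ξ⁻¹ ^ 3 ∈ S := by
    rw [hSmem]
    have h1 : x31 ξ⁻¹ ∈ H := by simpa using Bone
    have h2' := rule1 H hu h1 h1
    have h3 := rule2 H hu h2' h2'
    have e : ξ⁻¹ * ξ⁻¹ ^ 3 = ξ⁻¹ * ξ⁻¹ * (ξ⁻¹ * ξ⁻¹) := by ring
    rw [e]; exact h3
  have hS2 : ξ ^ 3 ∈ S := by
    have h := inv_mem_subring S hS1
    rwa [inv_pow, inv_inv] at h
  have hS3 : ξ * (-(ξ ^ 2 + 12)) ∈ S := (hSmem _).mpr hb0
  have hS4 : 12 * ξ ∈ S := by
    have e : 12 * ξ = -(ξ * (-(ξ ^ 2 + 12))) - ξ ^ 3 := by ring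
    rw [e]; exact S.sub_mem (S.neg_mem hS3) hS2
  have hS5 : ξ ∈ S := by
    by_cases h3 : (3 : F) = 0
    · obtain ⟨p, hp⟩ := CharP.exists F
      haveI := hp
      have hpp : p.Prime := (CharP.char_is_prime_or_zero F p).resolve_right (by
        intro h0
        subst h0
        haveI : CharZero F := CharP.charP_to_charZero F
        exact absurd h3 (by norm_num))
      have hdvd : p ∣ 3 := by
        have h3' : ((3 : ℕ) : F) = 0 := by exact_mod_cast h3
        exact (CharP.cast_eq_zero_iff F p 3).mp h3'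
      have hp3 : p = 3 := by
        rcases (Nat.dvd_prime Nat.prime_three).mp hdvd with h | h
        · exact absurd h hpp.ne_one
        · exact h
      subst hp3
      obtain ⟨n, -, hn⟩ := FiniteField.card F 3
      have hpow : ξ ^ Fintype.card F = ξ := FiniteField.pow_card ξ
      have hn1 : (n : ℕ) = (n : ℕ) - 1 + 1 := by have := n.pos; omega
      rw [hn, hn1, pow_succ, mul_comm, pow_mul] at hpow
      rw [← hpow]; exact S.pow_mem hS2 _
    · have h12 : (12 : F) ≠ 0 := by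
        have e : (12 : F) = 2 * 2 * 3 := by norm_num
        rw [e]; exact mul_ne_zero (mul_ne_zero h2 h2) h3
      have h12S : (12 : F) ∈ S := by
        have h : ((12 : ℕ) : F) ∈ S := natCast_mem S 12
        simpa using h
      have h := S.mul_mem (inv_mem_subring S h12S) hS4
      rwa [← mul_assoc, inv_mul_cancel₀ h12, one_mul] at h
  have hStop : S = ⊤ := hgen S hS5
  have h31 : ∀ t : F, x31 t ∈ H := by
    intro t
    have h : ξ * t ∈ S := by rw [hStop]; trivial
    rw [hSmem, inv_mul_cancel_left₀ hξ] at h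
    exact h
  have hy : ∀ t : F, yy t ∈ H := by
    intro t
    have h := rule1 H hu (h31 1) (h31 t)
    rwa [one_mul] at h
  exact eq_top_of_lower H hu h31 hy

theorem even_main [Fintype F] (h2 : (2 : F) = 0) (θ : F)
    (hgen : ∀ S : Subring F, θ ∈ S → S = ⊤) :
    Subgroup.closure ({uu, g2 θ * uu * (g2 θ)⁻¹} : Set (Matrix.SpecialLinearGroup (Fin 3) F))
      = ⊤ := by
  set H := Subgroup.closure
    ({uu, g2 θ * uu * (g2 θ)⁻¹} : Set (Matrix.SpecialLinearGroup (Fin 3) F)) with hH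
  have hu : uu ∈ H := Subgroup.subset_closure (by simp)
  have hv : v2 θ ∈ H := by
    rw [← v2_eq]; exact Subgroup.subset_closure (by simp)
  have h13 : x13 1 ∈ H := by rw [← uu_sq h2]; exact H.mul_mem hu hu
  have h31one : x31 1 ∈ H := by rw [← v2_sq h2 θ]; exact H.mul_mem hv hv
  have hp : pp ∈ H := by rw [← pp_eq h2]; exact H.mul_mem (H.mul_mem h13 h31one) h13
  have hyof : ∀ a : F, x31 a ∈ H → yy a ∈ H := by
    intro a ha
    have h := rule1 H hu h31one ha
    rwa [one_mul] at h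
  let S : Subring F :=
    { carrier := {b | x31 b ∈ H}
      zero_mem' := by
        show x31 0 ∈ H
        rw [x31_zero]; exact H.one_mem
      add_mem' := by
        intro a b ha hb
        exact x31_add_mem H ha hb
      neg_mem' := by
        intro a ha
        exact x31_neg_mem H ha
      mul_mem' := by
        intro a b ha hb
        exact rule2 H hu (hyof a ha) (hyof b hb)
      one_mem' := h31one }
  have hSmem : ∀ b, b ∈ S ↔ x31 b ∈ H := fun b => Iff.rfl
  have h21 : x21 1 ∈ H := by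
    rw [x21_eq]; exact H.mul_mem (hyof 1 h31one) (x31_neg_mem H h31one)
  have hx13 : x13 (-θ) ∈ H := by
    have h := c4_id θ
    have h1 : x13 (-θ) = pp * (v2 θ * x21 1) * pp * (uu * (pp * x21 1 * pp))⁻¹ :=
      eq_mul_inv_of_mul_eq h.symm
    rw [h1]
    exact H.mul_mem (H.mul_mem (H.mul_mem hp (H.mul_mem hv h21)) hp)
      (H.inv_mem (H.mul_mem hu (H.mul_mem (H.mul_mem hp h21) hp)))
  have hθ : θ ∈ S := by
    have h : -θ ∈ S := by
      rw [hSmem, ← c5_id]; exact H.mul_mem (H.mul_mem hp hx13) hp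
    simpa using S.neg_mem h
  have hStop : S = ⊤ := hgen S hθ
  have h31 : ∀ t : F, x31 t ∈ H := by
    intro t
    have h : t ∈ S := by rw [hStop]; trivial
    exact (hSmem t).mp h
  exact eq_top_of_lower H hu h31 (fun t => hyof t (h31 t))

/-- `SL₃(F)` over a finite field is generated by two conjugate regular unipotent elements. -/
theorem main [Fintype F] :
    ∃ u g : Matrix.SpecialLinearGroup (Fin 3) F,
      IsNilpotent ((u : Matrix (Fin 3) (Fin 3) F) - 1) ∧
      ((u : Matrix (Fin 3) (Fin 3) F) - 1) ^ (3 - 1) ≠ 0 ∧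
      Subgroup.closure ({u, g * u * g⁻¹} : Set (Matrix.SpecialLinearGroup (Fin 3) F)) = ⊤ := by
  obtain ⟨θ, hθ0, hθ⟩ := exists_gen (F := F)
  by_cases h2 : (2 : F) = 0
  · exact ⟨uu, g2 θ, uu_nil, uu_sq_ne, even_main h2 θ hθ⟩
  · obtain ⟨ξ, hξ, ht0, hgen⟩ :
        ∃ ξ : F, ξ ≠ 0 ∧ ξ ^ 2 + 12 ≠ 0 ∧ ∀ S : Subring F, ξ ∈ S → S = ⊤ := by
      by_cases h3 : (3 : F) = 0
      · refine ⟨θ, hθ0, ?_, hθ⟩
        have e : (12 : F) = 0 := by
          have e' : (12 : F) = 4 * 3 := by norm_num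
          rw [e', h3, mul_zero]
        rw [e, add_zero]; exact pow_ne_zero 2 hθ0
      · by_contra hcon
        push Not at hcon
        have gen : ∀ j : ℕ, ∀ S : Subring F, θ + (j : F) ∈ S → S = ⊤ := by
          intro j S hS
          apply hθ
          have h := S.sub_mem hS (natCast_mem S j)
          simpa using h
        have bad : ∀ j : ℕ, (θ + (j : F)) * ((θ + (j : F)) ^ 2 + 12) = 0 := by
          intro j
          by_contra hne
          obtain ⟨S, hS, hne'⟩ := hcon _ (left_ne_zero_of_mul hne) (right_ne_zero_of_mul hne)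
          exact hne' (gen j S hS)
        have b0 := bad 0
        have b1 := bad 1
        have b2 := bad 2
        have b3 := bad 3
        push_cast at b0 b1 b2 b3
        have h6 : (6 : F) = 0 := by linear_combination b3 - 3 * b2 + 3 * b1 - b0
        have e6 : (6 : F) = 2 * 3 := by norm_num
        rw [e6] at h6
        exact (mul_ne_zero h2 h3) h6
    exact ⟨uu, gg ξ, uu_nil, uu_sq_ne, odd_main h2 ξ hξ ht0 hgen⟩

end Cfsg.Agent.Lib.Helper53.SL3Gen
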