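import Mathlib
import Cfsg.Agent.Lib.Helper5.SLGen

set_option autoImplicit false

/-!
# Generation of `SL_n(F)` by a root element and a companion-type unipotent

* `tv_comm`: `T_{ij}(ab) = ⁅T_{ik}(a), T_{kj}(b)⁆`.
* `eq_top_of_tv`: a subgroup containing all `T_{ij}(1)` and one `T_{i₀j₀}(θ)`, with `θ` a ring
  generator of `F`, is everything (at least three indices).
* `all_tv_one`: a subgroup of `SL_{m+3}(F)` containing `T_{last,0}(1)` and an element whose matrix
  is "shift + last column of integers" contains all `T_{ij}(1)`.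
-/

namespace Cfsg.Agent.Lib.Helper53.SLnGen

open Matrix
open scoped commutatorElement

section general

variable {F : Type*} [Field F] {ι : Type*} [DecidableEq ι] [Fintype ι]

/-- commutator formula for elementary transvections -/
theorem tv_comm {i j k : ι} (hij : i ≠ j) (hik : i ≠ k) (hkj : k ≠ j) (a b : F) :
    (Matrix.SpecialLinearGroup.transvection hij (a * b) : Matrix.SpecialLinearGroup ι F) =
      ⁅Matrix.SpecialLinearGroup.transvection hik a,
        Matrix.SpecialLinearGroup.transvection hkj b⁆ := by
  rw [commutatorElement_def, Matrix.SpecialLinearGroup.transvection_inv,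
    Matrix.SpecialLinearGroup.transvection_inv]
  apply Subtype.ext
  show (1 : Matrix ι ι F) + single i j (a * b) = (1 + single i k a) * (1 + single k j b) *
    (1 + single i k (-a)) * (1 + single k j (-b))
  simp only [mul_add, add_mul, Matrix.mul_one, Matrix.one_mul, single_mul_single_same,
      single_mul_single_of_ne _ _ _ _ hij, single_mul_single_of_ne _ _ _ _ hij.symm,
      single_mul_single_of_ne _ _ _ _ hik, single_mul_single_of_ne _ _ _ _ hik.symm,
      single_mul_single_of_ne _ _ _ _ hkj, single_mul_single_of_ne _ _ _ _ hkj.symm,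
      Matrix.zero_mul, Matrix.mul_zero, add_zero, zero_add]
  simp only [mul_neg, neg_mul, neg_neg, ← single_neg]
  abel

variable (H : Subgroup (Matrix.SpecialLinearGroup ι F))

theorem tv_comm_mem {i j k : ι} (hij : i ≠ j) (hik : i ≠ k) (hkj : k ≠ j) {a b : F}
    (ha : Matrix.SpecialLinearGroup.transvection hik a ∈ H)
    (hb : Matrix.SpecialLinearGroup.transvection hkj b ∈ H) :
    Matrix.SpecialLinearGroup.transvection hij (a * b) ∈ H := by
  rw [tv_comm hij hik hkj, commutatorElement_def]
  exact H.mul_mem (H.mul_mem (H.mul_mem ha hb) (H.inv_mem ha)) (H.inv_mem hb)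

theorem tv_zero_mem {i j : ι} (hij : i ≠ j) :
    Matrix.SpecialLinearGroup.transvection hij (0 : F) ∈ H := by
  rw [Matrix.SpecialLinearGroup.transvection_coeff_zero]; exact H.one_mem

theorem tv_add_mem {i j : ι} (hij : i ≠ j) {a b : F}
    (ha : Matrix.SpecialLinearGroup.transvection hij a ∈ H)
    (hb : Matrix.SpecialLinearGroup.transvection hij b ∈ H) :
    Matrix.SpecialLinearGroup.transvection hij (a + b) ∈ H := by
  rw [Matrix.SpecialLinearGroup.transvection_add]; exact H.mul_mem ha hb

theorem tv_neg_mem {i j : ι} (hij : i ≠ j) {a : F}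
    (ha : Matrix.SpecialLinearGroup.transvection hij a ∈ H) :
    Matrix.SpecialLinearGroup.transvection hij (-a) ∈ H := by
  rw [← Matrix.SpecialLinearGroup.transvection_inv]; exact H.inv_mem ha

theorem tv_int_mem {i j : ι} (hij : i ≠ j)
    (h1 : Matrix.SpecialLinearGroup.transvection hij (1 : F) ∈ H) (z : ℤ) :
    Matrix.SpecialLinearGroup.transvection hij (z : F) ∈ H := by
  induction z using Int.induction_on with
  | zero => simpa using tv_zero_mem H hij
  | succ n ih =>
    have h := tv_add_mem H hij ih h1
    simpa using h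
  | pred n ih =>
    have h := tv_add_mem H hij ih (tv_neg_mem H hij h1)
    have e : ((-(n : ℤ) - 1 : ℤ) : F) = ((-(n : ℤ) : ℤ) : F) + -1 := by push_cast; ring
    rw [e]; exact h

theorem exists_third (h3 : 3 ≤ Fintype.card ι) (a b : ι) : ∃ z : ι, z ≠ a ∧ z ≠ b := by
  by_contra hcon
  push Not at hcon
  have hsub : (Finset.univ : Finset ι) ⊆ {a, b} := by
    intro z _
    by_cases hz : z = a
    · simp [hz]
    · simp [hcon z hz]
  have hcard := Finset.card_le_card hsub
  have h2 : ({a, b} : Finset ι).card ≤ 2 := Finset.card_le_two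
  rw [Finset.card_univ] at hcard
  omega

/-- A subgroup containing all `T_{ij}(1)` and one `T_{i₀j₀}(θ)` for a ring generator `θ` of `F`
is the whole group. -/
theorem eq_top_of_tv (h3 : 3 ≤ Fintype.card ι)
    (hone : ∀ (i j : ι) (hij : i ≠ j), Matrix.SpecialLinearGroup.transvection hij (1 : F) ∈ H)
    {i₀ j₀ : ι} (h₀ : i₀ ≠ j₀) (θ : F)
    (hθ : Matrix.SpecialLinearGroup.transvection h₀ θ ∈ H)
    (hgen : ∀ S : Subring F, θ ∈ S → S = ⊤) : H = ⊤ := by
  obtain ⟨k, hki, hkj⟩ := exists_third h3 i₀ j₀
  let S : Subring F :=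
    { carrier := {t | Matrix.SpecialLinearGroup.transvection h₀ t ∈ H}
      zero_mem' := tv_zero_mem H h₀
      add_mem' := fun ha hb => tv_add_mem H h₀ ha hb
      neg_mem' := fun ha => tv_neg_mem H h₀ ha
      one_mem' := hone i₀ j₀ h₀
      mul_mem' := by
        intro s t hs ht
        have h1 : Matrix.SpecialLinearGroup.transvection (Ne.symm hki) (s * 1) ∈ H :=
          tv_comm_mem H (Ne.symm hki) h₀ (Ne.symm hkj) hs (hone _ _ _)
        have h2 : Matrix.SpecialLinearGroup.transvection hkj (1 * t) ∈ H :=
          tv_comm_mem H hkj hki h₀ (hone _ _ _) ht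
        rw [mul_one] at h1
        rw [one_mul] at h2
        exact tv_comm_mem H h₀ (Ne.symm hki) hkj h1 h2 }
  have hS : S = ⊤ := hgen S hθ
  have full0 : ∀ t : F, Matrix.SpecialLinearGroup.transvection h₀ t ∈ H := by
    intro t
    have h : t ∈ S := by rw [hS]; trivial
    exact h
  -- rows from `i₀`
  have full1 : ∀ (x : ι) (hx : i₀ ≠ x) (t : F),
      Matrix.SpecialLinearGroup.transvection hx t ∈ H := by
    intro x hx t
    by_cases hxj : x = j₀
    · subst hxj; exact full0 t
    · have h := tv_comm_mem H hx h₀ (Ne.symm hxj) (full0 t) (hone _ _ _)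
      rwa [mul_one] at h
  have full2 : ∀ (y x : ι) (hyx : y ≠ x), x ≠ i₀ → ∀ t : F,
      Matrix.SpecialLinearGroup.transvection hyx t ∈ H := by
    intro y x hyx hx t
    by_cases hy : y = i₀
    · subst hy; exact full1 x hyx t
    · have h := tv_comm_mem H hyx hy (Ne.symm hx) (hone _ _ _) (full1 x (Ne.symm hx) t)
      rwa [one_mul] at h
  have full3 : ∀ (y x : ι) (hyx : y ≠ x) (t : F),
      Matrix.SpecialLinearGroup.transvection hyx t ∈ H := by
    intro y x hyx t
    by_cases hx : x = i₀
    · subst hx
      obtain ⟨z, hzy, hzx⟩ := exists_third h3 y x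
      have h := tv_comm_mem H hyx (Ne.symm hzy) hzx (full2 y z (Ne.symm hzy) hzx t) (hone _ _ _)
      rwa [mul_one] at h
    · exact full2 y x hyx hx t
  rw [eq_top_iff]
  intro A _
  have : Nontrivial ι := Fintype.one_lt_card_iff_nontrivial.mp (by omega)
  exact Cfsg.Agent.Lib.Helper5.SLGen.transvection_induction (fun A => A ∈ H)
    (fun i j hij c => full3 i j hij c) (fun A B hA hB => H.mul_mem hA hB) A

end general

section companion

variable {F : Type*} [Field F]

theorem single_mul_entry {n : Type*} [Fintype n] [DecidableEq n] (x y : n) (t : F)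
    (C : Matrix n n F) (i j : n) :
    (single x y t * C) i j = if i = x then t * C y j else 0 := by
  by_cases h : i = x
  · subst h; simp
  · simp [h]

theorem mul_single_entry {n : Type*} [Fintype n] [DecidableEq n] (x y : n) (t : F)
    (C : Matrix n n F) (i j : n) :
    (C * single x y t) i j = if j = y then C i x * t else 0 := by
  by_cases h : j = y
  · subst h; simp
  · simp [h]

/-- commutator identity used in the descent -/
theorem comm_id {ι : Type*} [DecidableEq ι] [Fintype ι] {a b l : ι} (hab : a ≠ b) (hal : a ≠ l)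
    (hbl : b ≠ l) (s : F) :
    (Matrix.SpecialLinearGroup.transvection hab (1 : F) *
        Matrix.SpecialLinearGroup.transvection hal s) *
      Matrix.SpecialLinearGroup.transvection hbl 1 =
    Matrix.SpecialLinearGroup.transvection hal 1 * Matrix.SpecialLinearGroup.transvection hbl 1 *
      (Matrix.SpecialLinearGroup.transvection hab 1 *
        Matrix.SpecialLinearGroup.transvection hal s) := by
  apply Subtype.ext
  show ((1 : Matrix ι ι F) + single a b 1) * (1 + single a l s) * (1 + single b l 1) =
    (1 + single a l 1) * (1 + single b l 1) * ((1 + single a b 1) * (1 + single a l s))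
  simp only [mul_add, add_mul, Matrix.mul_one, Matrix.one_mul, single_mul_single_same,
      single_mul_single_of_ne _ _ _ _ hab, single_mul_single_of_ne _ _ _ _ hab.symm,
      single_mul_single_of_ne _ _ _ _ hal, single_mul_single_of_ne _ _ _ _ hal.symm,
      single_mul_single_of_ne _ _ _ _ hbl, single_mul_single_of_ne _ _ _ _ hbl.symm,
      Matrix.zero_mul, Matrix.mul_zero, add_zero, zero_add, mul_one]
  abel

variable {m : ℕ}

/-- "shift plus a last column of integers" -/
def IsComp (C : Matrix (Fin (m + 3)) (Fin (m + 3)) F) (γ : Fin (m + 3) → ℤ) : Prop :=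
  ∀ i j, C i j = (if i.val = j.val + 1 then 1 else 0) +
    (if j = Fin.last (m + 2) then (γ i : F) else 0)

theorem IsComp.col {C : Matrix (Fin (m + 3)) (Fin (m + 3)) F} {γ : Fin (m + 3) → ℤ}
    (hC : IsComp C γ) (a b : Fin (m + 3)) (hab : b.val = a.val + 1) (i : Fin (m + 3)) :
    C i a = if i = b then 1 else 0 := by
  rw [hC i a]
  have h1 : a ≠ Fin.last (m + 2) := by
    intro h
    have := congrArg Fin.val h
    simp at this
    have := b.isLt
    omega
  have h2 : (i.val = a.val + 1) ↔ i = b := by
    rw [Fin.ext_iff, hab]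
  simp [h1, h2]

theorem IsComp.row {C : Matrix (Fin (m + 3)) (Fin (m + 3)) F} {γ : Fin (m + 3) → ℤ}
    (hC : IsComp C γ) (b b' : Fin (m + 3)) (hbb' : b'.val = b.val + 1) (j : Fin (m + 3)) :
    C b' j = (if j = b then 1 else 0) + (if j = Fin.last (m + 2) then (γ b' : F) else 0) := by
  rw [hC b' j]
  have h2 : (b'.val = j.val + 1) ↔ j = b := by
    rw [Fin.ext_iff, hbb']; omega
  simp [h2]

theorem IsComp.row_zero {C : Matrix (Fin (m + 3)) (Fin (m + 3)) F} {γ : Fin (m + 3) → ℤ}
    (hC : IsComp C γ) (j : Fin (m + 3)) :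
    C 0 j = if j = Fin.last (m + 2) then (γ 0 : F) else 0 := by
  rw [hC 0 j]
  simp

theorem last_ne_zero' : Fin.last (m + 2) ≠ (0 : Fin (m + 3)) := by
  intro h
  have := congrArg Fin.val h
  simp at this

/-- (E1) -/
theorem comp_E1 (c : Matrix.SpecialLinearGroup (Fin (m + 3)) F) {γ : Fin (m + 3) → ℤ}
    (hC : IsComp (c : Matrix (Fin (m + 3)) (Fin (m + 3)) F) γ)
    (p : Fin (m + 3)) (hp : p.val = m + 1) (hpl : p ≠ Fin.last (m + 2)) (t : F) :
    Matrix.SpecialLinearGroup.transvection (last_ne_zero' (m := m)) t * c =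
      c * Matrix.SpecialLinearGroup.transvection hpl ((γ 0 : F) * t) := by
  apply Subtype.ext
  simp only [Matrix.SpecialLinearGroup.coe_mul, Matrix.SpecialLinearGroup.transvection_coe]
  rw [add_mul, mul_add, Matrix.one_mul, Matrix.mul_one]
  congr 1
  ext i j
  rw [single_mul_entry, mul_single_entry, hC.row_zero,
    hC.col p (Fin.last (m + 2)) (by simp [hp])]
  by_cases hi : i = Fin.last (m + 2) <;> by_cases hj : j = Fin.last (m + 2) <;> simp [hi, hj]
  ring

/-- (E2) -/
theorem comp_E2 (c : Matrix.SpecialLinearGroup (Fin (m + 3)) F) {γ : Fin (m + 3) → ℤ}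
    (hC : IsComp (c : Matrix (Fin (m + 3)) (Fin (m + 3)) F) γ)
    (a b b' : Fin (m + 3)) (hab : b.val = a.val + 1) (hbb' : b'.val = b.val + 1)
    (hab' : a ≠ b) (hbb'' : b ≠ b') (hal : a ≠ Fin.last (m + 2)) (t : F) :
    Matrix.SpecialLinearGroup.transvection hbb'' t * c =
      c * (Matrix.SpecialLinearGroup.transvection hab' t *
        Matrix.SpecialLinearGroup.transvection hal ((γ b' : F) * t)) := by
  apply Subtype.ext
  simp only [Matrix.SpecialLinearGroup.coe_mul, Matrix.SpecialLinearGroup.transvection_coe]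
  have e : ((1 : Matrix (Fin (m + 3)) (Fin (m + 3)) F) + single a b t) *
      (1 + single a (Fin.last (m + 2)) ((γ b' : F) * t)) =
      1 + (single a b t + single a (Fin.last (m + 2)) ((γ b' : F) * t)) := by
    simp only [add_mul, mul_add, Matrix.one_mul, Matrix.mul_one,
      single_mul_single_of_ne _ _ _ _ (Ne.symm hab'), add_zero]
    abel
  rw [e, add_mul, mul_add, Matrix.one_mul, Matrix.mul_one, mul_add]
  congr 1
  ext i j
  rw [Matrix.add_apply, single_mul_entry, mul_single_entry, mul_single_entry,
    hC.row b b' hbb', hC.col a b hab]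
  have hbl : b ≠ Fin.last (m + 2) := by
    intro h
    have := congrArg Fin.val h
    simp at this
    have := b'.isLt
    omega
  by_cases hi : i = b <;> by_cases hj : j = b <;> by_cases hjl : j = Fin.last (m + 2) <;>
    simp [hi, hj, hjl, hbl, Ne.symm hbl] <;> ring

/-- **Lemma L.** A subgroup of `SL_{m+3}(F)` containing `T_{last,0}(1)` and an element with
companion-type matrix contains all `T_{ij}(1)`. -/
theorem all_tv_one (H : Subgroup (Matrix.SpecialLinearGroup (Fin (m + 3)) F))
    (c : Matrix.SpecialLinearGroup (Fin (m + 3)) F) (hcH : c ∈ H) (γ : Fin (m + 3) → ℤ)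
    (hγ0 : γ 0 = 1 ∨ γ 0 = -1)
    (hC : IsComp (c : Matrix (Fin (m + 3)) (Fin (m + 3)) F) γ)
    (h1 : Matrix.SpecialLinearGroup.transvection (last_ne_zero' (m := m)) (1 : F) ∈ H) :
    ∀ (i j : Fin (m + 3)) (hij : i ≠ j),
      Matrix.SpecialLinearGroup.transvection hij (1 : F) ∈ H := by
  have hγsq : (γ 0 : F) * (γ 0 : F) = 1 := by
    rcases hγ0 with h | h <;> rw [h] <;> simp
  -- the descent
  have hQ : ∀ e : ℕ, ∀ (i j : Fin (m + 3)) (hlt : i < j), m + 1 - e ≤ i.val →
      Matrix.SpecialLinearGroup.transvection (ne_of_lt hlt) (1 : F) ∈ H := by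
    intro e
    induction e with
    | zero =>
      intro i j hlt hi
      have hj := j.isLt
      have hlt' : i.val < j.val := hlt
      have hi' : i.val = m + 1 := by omega
      have hj' : j = Fin.last (m + 2) := Fin.ext (by simp; omega)
      subst hj'
      have h := comp_E1 c hC i hi' (ne_of_lt hlt) ((γ 0 : F))
      rw [hγsq] at h
      have h2 : Matrix.SpecialLinearGroup.transvection (ne_of_lt hlt) (1 : F) =
          c⁻¹ * (Matrix.SpecialLinearGroup.transvection (last_ne_zero' (m := m)) (γ 0 : F) * c) :=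
        eq_inv_mul_of_mul_eq h.symm
      rw [h2]
      exact H.mul_mem (H.inv_mem hcH) (H.mul_mem (tv_int_mem H _ h1 (γ 0)) hcH)
    | succ e ih =>
      intro i j hlt hi
      by_cases hd : m + 1 - e ≤ i.val
      · exact ih i j hlt hd
      · -- `i.val = d - 1` with `d = m + 1 - e ≥ 1`
        have hlt' : i.val < j.val := hlt
        have hj := j.isLt
        have hdi : i.val + 1 = m + 1 - e := by omega
        obtain ⟨b, hb⟩ : ∃ b : Fin (m + 3), b.val = i.val + 1 := ⟨⟨i.val + 1, by omega⟩, rfl⟩
        obtain ⟨b', hb'⟩ : ∃ b' : Fin (m + 3), b'.val = b.val + 1 :=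
          ⟨⟨b.val + 1, by omega⟩, rfl⟩
        have hib : i < b := by rw [Fin.lt_def]; omega
        have hbb' : b < b' := by rw [Fin.lt_def]; omega
        have hil : i < Fin.last (m + 2) := by rw [Fin.lt_def]; simp; omega
        have hbl : b < Fin.last (m + 2) := by rw [Fin.lt_def]; simp; omega
        have hTbb' := ih b b' hbb' (by omega)
        have hTbl := ih b (Fin.last (m + 2)) hbl (by omega)
        have hE := comp_E2 c hC i b b' hb hb' (ne_of_lt hib) (ne_of_lt hbb') (ne_of_lt hil) (1 : F)
        have hg : Matrix.SpecialLinearGroup.transvection (ne_of_lt hib) (1 : F) *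
            Matrix.SpecialLinearGroup.transvection (ne_of_lt hil) ((γ b' : F) * 1) ∈ H := by
          have h2 := eq_inv_mul_of_mul_eq hE.symm
          rw [h2]
          exact H.mul_mem (H.inv_mem hcH) (H.mul_mem hTbb' hcH)
        have hTil : Matrix.SpecialLinearGroup.transvection (ne_of_lt hil) (1 : F) ∈ H := by
          have hc := comm_id (ne_of_lt hib) (ne_of_lt hil) (ne_of_lt hbl) ((γ b' : F) * 1)
          have h2 := eq_mul_inv_of_mul_eq hc.symm
          have h3 := eq_mul_inv_of_mul_eq h2
          rw [h3]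
          exact H.mul_mem (H.mul_mem (H.mul_mem hg hTbl) (H.inv_mem hg)) (H.inv_mem hTbl)
        have hTils : Matrix.SpecialLinearGroup.transvection (ne_of_lt hil) ((γ b' : F) * 1) ∈ H := by
          rw [mul_one]; exact tv_int_mem H _ hTil (γ b')
        have hTib : Matrix.SpecialLinearGroup.transvection (ne_of_lt hib) (1 : F) ∈ H := by
          have h2 : Matrix.SpecialLinearGroup.transvection (ne_of_lt hib) (1 : F) =
              (Matrix.SpecialLinearGroup.transvection (ne_of_lt hib) (1 : F) *
                Matrix.SpecialLinearGroup.transvection (ne_of_lt hil) ((γ b' : F) * 1)) *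
              (Matrix.SpecialLinearGroup.transvection (ne_of_lt hil) ((γ b' : F) * 1))⁻¹ := by
            group
          rw [h2]
          exact H.mul_mem hg (H.inv_mem hTils)
        by_cases hjb : j = b
        · subst hjb; exact hTib
        · have hbj : b < j := by
            rw [Fin.lt_def]
            have : j.val ≠ b.val := fun h => hjb (Fin.ext h)
            omega
          have hTbj := ih b j hbj (by omega)
          have h := tv_comm_mem H (ne_of_lt hlt) (ne_of_lt hib) (ne_of_lt hbj) hTib hTbj
          rwa [mul_one] at h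
  have hup : ∀ (i j : Fin (m + 3)) (hlt : i < j),
      Matrix.SpecialLinearGroup.transvection (ne_of_lt hlt) (1 : F) ∈ H :=
    fun i j hlt => hQ (m + 1) i j hlt (by omega)
  have hlow : ∀ (j : Fin (m + 3)) (hj : Fin.last (m + 2) ≠ j),
      Matrix.SpecialLinearGroup.transvection hj (1 : F) ∈ H := by
    intro j hj
    by_cases hj0 : j = 0
    · subst hj0; exact h1
    · have h0j : (0 : Fin (m + 3)) < j := Fin.pos_of_ne_zero hj0
      have h := tv_comm_mem H hj (last_ne_zero' (m := m)) (ne_of_lt h0j) h1 (hup 0 j h0j)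
      rwa [mul_one] at h
  intro i j hij
  rcases lt_or_gt_of_ne hij with hlt | hgt
  · exact hup i j hlt
  · by_cases hil : i = Fin.last (m + 2)
    · subst hil; exact hlow j hij
    · have hil' : i < Fin.last (m + 2) := lt_of_le_of_ne (Fin.le_last i) hil
      have hjl : Fin.last (m + 2) ≠ j := by
        intro h
        rw [← h] at hgt
        exact absurd hgt (not_lt.mpr (Fin.le_last i))
      have h := tv_comm_mem H hij (ne_of_lt hil') hjl (hup i _ hil') (hlow j hjl)
      rwa [mul_one] at h

end companion

end Cfsg.Agent.Lib.Helper53.SLnGen
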