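import Mathlib
import Cfsg.Agent.Lib.Helper53.SLnGen
import Cfsg.Agent.Lib.Helper53.SL3Gen

set_option autoImplicit false

/-!
# Three conjugate regular unipotent elements generating `SL_n(F)`, `n ≥ 3`

`main`: for a finite field `F` there are `u g h : SL_{m+3}(F)` with `u` regular unipotent and
`⟨u, g u g⁻¹, h u h⁻¹⟩ = SL_{m+3}(F)`.

Construction: `u₀ = 1 + Sh` (`Sh` the lower shift), `u = T_{l,0}(θ) u₀`, second conjugate
`T_{l,0}(1) u`, third conjugate the companion matrix of `(X - 1)^n`.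
-/

namespace Cfsg.Agent.Lib.Helper53.SLnReg

open Matrix
open Cfsg.Agent.Lib.Helper53.SLnGen

variable {F : Type*} [Field F] {m : ℕ}

/-- the lower shift matrix -/
def Sh : Matrix (Fin (m + 3)) (Fin (m + 3)) F :=
  Matrix.of fun a b => if a.val = b.val + 1 then 1 else 0

theorem Sh_apply (a b : Fin (m + 3)) :
    (Sh : Matrix (Fin (m + 3)) (Fin (m + 3)) F) a b = if a.val = b.val + 1 then 1 else 0 := rfl

theorem mul_Sh (M : Matrix (Fin (m + 3)) (Fin (m + 3)) F) (a b : Fin (m + 3)) :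
    (M * (Sh : Matrix (Fin (m + 3)) (Fin (m + 3)) F)) a b =
      if h : b.val + 1 < m + 3 then M a ⟨b.val + 1, h⟩ else 0 := by
  rw [Matrix.mul_apply]
  split_ifs with h
  · rw [Finset.sum_eq_single (⟨b.val + 1, h⟩ : Fin (m + 3))]
    · simp [Sh_apply]
    · intro j _ hj
      have hj' : j.val ≠ b.val + 1 := fun h' => hj (Fin.ext h')
      simp [Sh_apply, hj']
    · intro h'; exact absurd (Finset.mem_univ _) h'
  · apply Finset.sum_eq_zero
    intro j _
    have hj' : j.val ≠ b.val + 1 := by have := j.isLt; omega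
    simp [Sh_apply, hj']

theorem Sh_mul (M : Matrix (Fin (m + 3)) (Fin (m + 3)) F) (a b : Fin (m + 3)) :
    ((Sh : Matrix (Fin (m + 3)) (Fin (m + 3)) F) * M) a b =
      if h : 0 < a.val then M ⟨a.val - 1, by have := a.isLt; omega⟩ b else 0 := by
  rw [Matrix.mul_apply]
  split_ifs with h
  · rw [Finset.sum_eq_single (⟨a.val - 1, by have := a.isLt; omega⟩ : Fin (m + 3))]
    · have e : a.val = a.val - 1 + 1 := by omega
      simp [Sh_apply, ← e]
    · intro j _ hj
      have hj' : a.val ≠ j.val + 1 := by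
        intro h'
        apply hj
        apply Fin.ext
        simp only
        omega
      simp [Sh_apply, hj']
    · intro h'; exact absurd (Finset.mem_univ _) h'
  · apply Finset.sum_eq_zero
    intro j _
    have hj' : a.val ≠ j.val + 1 := by omega
    simp [Sh_apply, hj']

theorem Sh_pow_apply (k : ℕ) (a b : Fin (m + 3)) :
    ((Sh : Matrix (Fin (m + 3)) (Fin (m + 3)) F) ^ k) a b =
      if a.val = b.val + k then 1 else 0 := by
  induction k generalizing a b with
  | zero =>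
    rw [pow_zero, Matrix.one_apply]
    simp [Fin.ext_iff]
  | succ k ih =>
    rw [pow_succ, mul_Sh]
    by_cases h : b.val + 1 < m + 3
    · rw [dif_pos h, ih]
      have e : (a.val = b.val + 1 + k) ↔ (a.val = b.val + (k + 1)) := by omega
      simp only [e]
    · rw [dif_neg h, if_neg (by have := a.isLt; omega)]

/-! ### `u₀ = 1 + Sh` as a product of elementary transvections -/

theorem exists_u0 : ∃ g : Matrix.SpecialLinearGroup (Fin (m + 3)) F,
    (g : Matrix (Fin (m + 3)) (Fin (m + 3)) F) = 1 + Sh ∧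
    ∀ H : Subgroup (Matrix.SpecialLinearGroup (Fin (m + 3)) F),
      (∀ (i j : Fin (m + 3)) (hij : i ≠ j),
        Matrix.SpecialLinearGroup.transvection hij (1 : F) ∈ H) → g ∈ H := by
  have key : ∀ k : ℕ, k ≤ m + 2 → ∃ g : Matrix.SpecialLinearGroup (Fin (m + 3)) F,
      (∀ a b : Fin (m + 3), (g : Matrix (Fin (m + 3)) (Fin (m + 3)) F) a b =
        (if a = b then 1 else 0) + (if a.val = b.val + 1 ∧ b.val < k then 1 else 0)) ∧
      ∀ H : Subgroup (Matrix.SpecialLinearGroup (Fin (m + 3)) F),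
        (∀ (i j : Fin (m + 3)) (hij : i ≠ j),
          Matrix.SpecialLinearGroup.transvection hij (1 : F) ∈ H) → g ∈ H := by
    intro k
    induction k with
    | zero =>
      intro _
      refine ⟨1, ?_, fun H _ => H.one_mem⟩
      intro a b
      simp [Matrix.one_apply]
    | succ k ih =>
      intro hk
      obtain ⟨g, hg, hgH⟩ := ih (by omega)
      have hne : (⟨k + 1, by omega⟩ : Fin (m + 3)) ≠ ⟨k, by omega⟩ := by
        intro h
        have := congrArg Fin.val h
        simp at this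
      refine ⟨g * Matrix.SpecialLinearGroup.transvection hne 1, ?_,
        fun H hH => H.mul_mem (hgH H hH) (hH _ _ _)⟩
      intro a b
      rw [Matrix.SpecialLinearGroup.coe_mul, Matrix.SpecialLinearGroup.transvection_coe, mul_add,
        Matrix.mul_one, Matrix.add_apply, mul_single_entry, hg, hg]
      have ha := a.isLt
      have hb := b.isLt
      simp only [Fin.ext_iff, Fin.val_mk]
      split_ifs <;> first | (exfalso; omega) | simp
  obtain ⟨g, hg, hgH⟩ := key (m + 2) le_rfl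
  refine ⟨g, ?_, hgH⟩
  ext a b
  rw [hg, Matrix.add_apply, Matrix.one_apply, Sh_apply]
  have e : (a.val = b.val + 1 ∧ b.val < m + 2) ↔ (a.val = b.val + 1) := by
    have := a.isLt; omega
  simp only [e]

/-! ### the index `p = last - 1` and the identities `K1`, commutation -/

/-- the index `m + 1` -/
def pI : Fin (m + 3) := ⟨m + 1, by omega⟩

theorem pI_ne_zero : (pI : Fin (m + 3)) ≠ 0 := by
  intro h
  have := congrArg Fin.val h
  simp [pI] at this

theorem pI_ne_last : (pI : Fin (m + 3)) ≠ Fin.last (m + 2) := by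
  intro h
  have := congrArg Fin.val h
  simp [pI] at this

theorem one_add_Sh_apply (a b : Fin (m + 3)) :
    ((1 : Matrix (Fin (m + 3)) (Fin (m + 3)) F) + (Sh : Matrix (Fin (m + 3)) (Fin (m + 3)) F)) a b =
      (if a = b then 1 else 0) + (if a.val = b.val + 1 then 1 else 0) := by
  rw [Matrix.add_apply, Matrix.one_apply, Sh_apply]

theorem K1 (g : Matrix.SpecialLinearGroup (Fin (m + 3)) F)
    (hg : (g : Matrix (Fin (m + 3)) (Fin (m + 3)) F) = 1 + Sh) (s : F) :
    g * Matrix.SpecialLinearGroup.transvection (pI_ne_zero (m := m)) s =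
      Matrix.SpecialLinearGroup.transvection (pI_ne_zero (m := m)) s *
        Matrix.SpecialLinearGroup.transvection (last_ne_zero' (m := m)) s * g := by
  apply Subtype.ext
  simp only [Matrix.SpecialLinearGroup.coe_mul, Matrix.SpecialLinearGroup.transvection_coe]
  have e : ((1 : Matrix (Fin (m + 3)) (Fin (m + 3)) F) + single (pI : Fin (m + 3)) (0 : Fin (m + 3)) s) *
      (1 + single (Fin.last (m + 2)) (0 : Fin (m + 3)) s) =
      1 + (single (pI : Fin (m + 3)) (0 : Fin (m + 3)) s +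
        single (Fin.last (m + 2)) (0 : Fin (m + 3)) s) := by
    simp only [add_mul, mul_add, Matrix.one_mul, Matrix.mul_one,
      single_mul_single_of_ne _ _ _ _ (Ne.symm (last_ne_zero' (m := m))), add_zero]
    abel
  rw [e, mul_add, Matrix.mul_one, add_mul, Matrix.one_mul, add_mul]
  congr 1
  ext i j
  rw [Matrix.add_apply, mul_single_entry, single_mul_entry, single_mul_entry, hg,
    one_add_Sh_apply, one_add_Sh_apply]
  have h0 : ∀ j : Fin (m + 3), ((0 : Fin (m + 3)).val = j.val + 1) ↔ False := by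
    intro j; simp
  have hl : (i.val = (pI : Fin (m + 3)).val + 1) ↔ i = Fin.last (m + 2) := by
    rw [Fin.ext_iff]; simp [pI]
  simp only [h0, hl, if_false, add_zero]
  by_cases hj : j = 0
  · subst hj
    by_cases hi : i = pI
    · simp [hi, pI_ne_last]
    · by_cases hi' : i = Fin.last (m + 2)
      · simp [hi', Ne.symm (pI_ne_last (m := m))]
      · simp [hi, hi']
  · have hj' : ¬ (0 : Fin (m + 3)) = j := fun h => hj h.symm
    simp [hj, hj']

theorem comm_pl (s t : F) :
    Matrix.SpecialLinearGroup.transvection (pI_ne_zero (m := m)) s *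
        Matrix.SpecialLinearGroup.transvection (last_ne_zero' (m := m)) t =
      Matrix.SpecialLinearGroup.transvection (last_ne_zero' (m := m)) t *
        Matrix.SpecialLinearGroup.transvection (pI_ne_zero (m := m)) s := by
  apply Subtype.ext
  simp only [Matrix.SpecialLinearGroup.coe_mul, Matrix.SpecialLinearGroup.transvection_coe]
  simp only [add_mul, mul_add, Matrix.one_mul, Matrix.mul_one,
    single_mul_single_of_ne _ _ _ _ (Ne.symm (last_ne_zero' (m := m))),
    single_mul_single_of_ne _ _ _ _ (Ne.symm (pI_ne_zero (m := m))), add_zero]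
  abel

/-! ### regular unipotency -/

theorem Sh_mul_single (θ : F) :
    (Sh : Matrix (Fin (m + 3)) (Fin (m + 3)) F) *
      single (Fin.last (m + 2)) (0 : Fin (m + 3)) θ = 0 := by
  ext i j
  rw [mul_single_entry, Sh_apply]
  have h : ¬ (i.val = (Fin.last (m + 2)).val + 1) := by
    have := i.isLt; simp; omega
  rw [if_neg h]
  simp

theorem single_mul_Sh (θ : F) :
    single (Fin.last (m + 2)) (0 : Fin (m + 3)) θ *
      (Sh : Matrix (Fin (m + 3)) (Fin (m + 3)) F) = 0 := by
  ext i j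
  rw [single_mul_entry, Sh_apply]
  simp

theorem nil_pow (θ : F) (k : ℕ) :
    ((Sh : Matrix (Fin (m + 3)) (Fin (m + 3)) F) +
      single (Fin.last (m + 2)) (0 : Fin (m + 3)) θ) ^ (k + 2) =
      (Sh : Matrix (Fin (m + 3)) (Fin (m + 3)) F) ^ (k + 2) := by
  induction k with
  | zero =>
    rw [pow_two, pow_two, add_mul, mul_add, mul_add, Sh_mul_single, single_mul_Sh,
      single_mul_single_of_ne _ _ _ _ (Ne.symm (last_ne_zero' (m := m)))]
    simp
  | succ k ih =>
    rw [pow_succ, ih, mul_add, pow_succ (Sh) (k + 2), pow_succ (Sh) (k + 1), Matrix.mul_assoc,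
      Matrix.mul_assoc, Sh_mul_single]
    simp

/-! ### the companion matrix of `(X - 1)^n` and the unitriangular conjugator -/

/-- coefficients of `(X - 1)^k` -/
def beta : ℕ → ℕ → ℤ
  | 0, 0 => 1
  | 0, (_ + 1) => 0
  | (k + 1), 0 => - beta k 0
  | (k + 1), (i + 1) => beta k i - beta k (i + 1)

theorem beta_zero_of_lt : ∀ k i : ℕ, k < i → beta k i = 0
  | 0, 0, h => absurd h (lt_irrefl 0)
  | 0, (_ + 1), _ => rfl
  | (k + 1), 0, h => absurd h (Nat.not_lt_zero _)
  | (k + 1), (i + 1), h => by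
    rw [beta, beta_zero_of_lt k i (by omega), beta_zero_of_lt k (i + 1) (by omega)]
    simp

theorem beta_self : ∀ k : ℕ, beta k k = 1
  | 0 => rfl
  | (k + 1) => by
    rw [beta, beta_self k, beta_zero_of_lt k (k + 1) (by omega)]
    simp

theorem beta_zero_right : ∀ k : ℕ, beta k 0 = 1 ∨ beta k 0 = -1
  | 0 => Or.inl rfl
  | (k + 1) => by
    rw [beta]
    rcases beta_zero_right k with h | h <;> rw [h] <;> simp

/-- the upper unitriangular conjugator -/
def Hm : Matrix (Fin (m + 3)) (Fin (m + 3)) F :=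
  Matrix.of fun i k => ((beta k.val i.val : ℤ) : F)

theorem Hm_apply (i k : Fin (m + 3)) :
    (Hm : Matrix (Fin (m + 3)) (Fin (m + 3)) F) i k = ((beta k.val i.val : ℤ) : F) := rfl

theorem Hm_det : (Hm : Matrix (Fin (m + 3)) (Fin (m + 3)) F).det = 1 := by
  rw [Matrix.det_of_upperTriangular]
  · apply Finset.prod_eq_one
    intro i _
    rw [Hm_apply, beta_self]
    simp
  · intro i j hij
    have hij' : j.val < i.val := hij
    rw [Hm_apply, beta_zero_of_lt _ _ hij']
    simp

/-- the conjugator as an element of `SL` -/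
def hS : Matrix.SpecialLinearGroup (Fin (m + 3)) F := ⟨Hm, Hm_det⟩

/-- last column of the companion matrix -/
def gam (m : ℕ) (i : Fin (m + 3)) : ℤ := - beta (m + 3) i.val

/-- the companion matrix of `(X - 1)^(m+3)` -/
def Cm : Matrix (Fin (m + 3)) (Fin (m + 3)) F :=
  Matrix.of fun i j => (if i.val = j.val + 1 then 1 else 0) +
    (if j = Fin.last (m + 2) then ((gam m i : ℤ) : F) else 0)

theorem Cm_apply (i j : Fin (m + 3)) :
    (Cm : Matrix (Fin (m + 3)) (Fin (m + 3)) F) i j = (if i.val = j.val + 1 then 1 else 0) +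
      (if j = Fin.last (m + 2) then ((gam m i : ℤ) : F) else 0) := rfl

/-- the last-column part -/
def Lc : Matrix (Fin (m + 3)) (Fin (m + 3)) F :=
  Matrix.of fun i j => if j = Fin.last (m + 2) then ((gam m i : ℤ) : F) else 0

theorem Cm_eq : (Cm : Matrix (Fin (m + 3)) (Fin (m + 3)) F) = Sh + Lc := by
  ext i j
  rfl

theorem Lc_mul (M : Matrix (Fin (m + 3)) (Fin (m + 3)) F) (a b : Fin (m + 3)) :
    ((Lc : Matrix (Fin (m + 3)) (Fin (m + 3)) F) * M) a b =
      ((gam m a : ℤ) : F) * M (Fin.last (m + 2)) b := by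
  rw [Matrix.mul_apply, Finset.sum_eq_single (Fin.last (m + 2))]
  · simp [Lc]
  · intro j _ hj
    simp [Lc, hj]
  · intro h; exact absurd (Finset.mem_univ _) h

/-- the key identity `Hm (1 + Sh) = Cm Hm` -/
theorem Hm_conj : (Hm : Matrix (Fin (m + 3)) (Fin (m + 3)) F) * (1 + Sh) = Cm * Hm := by
  rw [mul_add, Matrix.mul_one, Cm_eq, add_mul]
  ext a b
  rw [Matrix.add_apply, Matrix.add_apply, mul_Sh, Sh_mul, Lc_mul]
  simp only [Hm_apply, gam]
  obtain ⟨a, ha⟩ := a
  obtain ⟨b, hb⟩ := b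
  simp only [Fin.val_last]
  by_cases hb' : b + 1 < m + 3
  · rw [dif_pos hb']
    have hz : beta b (m + 2) = 0 := beta_zero_of_lt _ _ (by omega)
    rw [hz]
    cases a with
    | zero =>
      rw [dif_neg (by simp)]
      simp only [beta]
      push_cast
      ring
    | succ a =>
      rw [dif_pos (by simp)]
      simp only [beta, Nat.add_sub_cancel]
      push_cast
      ring
  · rw [dif_neg hb']
    have hbe : b = m + 2 := by omega
    subst hbe
    rw [beta_self]
    cases a with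
    | zero =>
      rw [dif_neg (by simp)]
      simp only [beta]
      push_cast
      ring
    | succ a =>
      rw [dif_pos (by simp)]
      simp only [beta, Nat.add_sub_cancel]
      push_cast
      ring

theorem Cm_isComp : IsComp (Cm : Matrix (Fin (m + 3)) (Fin (m + 3)) F) (gam m) :=
  fun i j => Cm_apply i j

theorem gam_zero : gam m 0 = 1 ∨ gam m 0 = -1 := by
  unfold gam
  rcases beta_zero_right (m + 3) with h | h
  · right; simp [h]
  · left; simp [h]

/-- the conjugate of `u₀` by `hS` has matrix `Cm` -/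
theorem conj_coe (g : Matrix.SpecialLinearGroup (Fin (m + 3)) F)
    (hg : (g : Matrix (Fin (m + 3)) (Fin (m + 3)) F) = 1 + Sh) :
    ((hS * g * hS⁻¹ : Matrix.SpecialLinearGroup (Fin (m + 3)) F) :
      Matrix (Fin (m + 3)) (Fin (m + 3)) F) = Cm := by
  have h1 : ((hS * g * hS⁻¹ * hS : Matrix.SpecialLinearGroup (Fin (m + 3)) F) :
      Matrix (Fin (m + 3)) (Fin (m + 3)) F) = Cm * Hm := by
    have e : (hS * g * hS⁻¹ * hS : Matrix.SpecialLinearGroup (Fin (m + 3)) F) = hS * g := by group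
    rw [e, Matrix.SpecialLinearGroup.coe_mul, hg]
    exact Hm_conj
  have h2 : (hS * g * hS⁻¹ : Matrix.SpecialLinearGroup (Fin (m + 3)) F) =
      (hS * g * hS⁻¹ * hS) * hS⁻¹ := by group
  rw [h2, Matrix.SpecialLinearGroup.coe_mul, h1, Matrix.mul_assoc]
  have h3 : (Hm : Matrix (Fin (m + 3)) (Fin (m + 3)) F) *
      ((hS⁻¹ : Matrix.SpecialLinearGroup (Fin (m + 3)) F) :
        Matrix (Fin (m + 3)) (Fin (m + 3)) F) = 1 := by
    have e : ((hS * hS⁻¹ : Matrix.SpecialLinearGroup (Fin (m + 3)) F) :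
        Matrix (Fin (m + 3)) (Fin (m + 3)) F) = 1 := by
      rw [mul_inv_cancel]; rfl
    rw [Matrix.SpecialLinearGroup.coe_mul] at e
    exact e
  rw [h3, Matrix.mul_one]

/-! ### assembly -/

/-- `T_{p,0}(s)` -/
def Tp (m : ℕ) (s : F) : Matrix.SpecialLinearGroup (Fin (m + 3)) F :=
  Matrix.SpecialLinearGroup.transvection (pI_ne_zero (m := m)) s

/-- `T_{l,0}(s)` -/
def Tl (m : ℕ) (s : F) : Matrix.SpecialLinearGroup (Fin (m + 3)) F :=
  Matrix.SpecialLinearGroup.transvection (last_ne_zero' (m := m)) s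

theorem K1' (g : Matrix.SpecialLinearGroup (Fin (m + 3)) F)
    (hg : (g : Matrix (Fin (m + 3)) (Fin (m + 3)) F) = 1 + Sh) (s : F) :
    g * Tp m s = Tp m s * Tl m s * g := K1 g hg s

theorem comm_pl' (s t : F) : Tp m s * Tl m t = Tl m t * Tp m s := comm_pl s t

theorem Tl_add (s t : F) : Tl m (s + t) = Tl m s * Tl m t :=
  Matrix.SpecialLinearGroup.transvection_add _ s t

theorem u_coe (g : Matrix.SpecialLinearGroup (Fin (m + 3)) F)
    (hg : (g : Matrix (Fin (m + 3)) (Fin (m + 3)) F) = 1 + Sh) (θ : F) :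
    ((Tl m θ * g : Matrix.SpecialLinearGroup (Fin (m + 3)) F) :
      Matrix (Fin (m + 3)) (Fin (m + 3)) F) - 1 =
      Sh + single (Fin.last (m + 2)) (0 : Fin (m + 3)) θ := by
  rw [Matrix.SpecialLinearGroup.coe_mul, hg]
  show ((1 : Matrix (Fin (m + 3)) (Fin (m + 3)) F) +
    single (Fin.last (m + 2)) (0 : Fin (m + 3)) θ) * (1 + Sh) - 1 = _
  rw [add_mul, Matrix.one_mul, mul_add, Matrix.mul_one, single_mul_Sh]
  abel

theorem u_nil (g : Matrix.SpecialLinearGroup (Fin (m + 3)) F)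
    (hg : (g : Matrix (Fin (m + 3)) (Fin (m + 3)) F) = 1 + Sh) (θ : F) :
    IsNilpotent (((Tl m θ * g : Matrix.SpecialLinearGroup (Fin (m + 3)) F) :
      Matrix (Fin (m + 3)) (Fin (m + 3)) F) - 1) := by
  refine ⟨m + 1 + 2, ?_⟩
  rw [u_coe g hg, nil_pow]
  ext a b
  rw [Sh_pow_apply]
  have := a.isLt
  rw [if_neg (by omega)]
  rfl

theorem u_pow_ne (g : Matrix.SpecialLinearGroup (Fin (m + 3)) F)
    (hg : (g : Matrix (Fin (m + 3)) (Fin (m + 3)) F) = 1 + Sh) (θ : F) :
    (((Tl m θ * g : Matrix.SpecialLinearGroup (Fin (m + 3)) F) :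
      Matrix (Fin (m + 3)) (Fin (m + 3)) F) - 1) ^ (m + 3 - 1) ≠ 0 := by
  rw [u_coe g hg]
  show (_ : Matrix (Fin (m + 3)) (Fin (m + 3)) F) ^ (m + 2) ≠ 0
  rw [nil_pow]
  intro h
  have h1 := congrFun (congrFun h (Fin.last (m + 2))) (0 : Fin (m + 3))
  rw [Sh_pow_apply] at h1
  simp at h1

/-- `SL_{m+3}(F)` over a finite field is generated by three conjugate regular unipotents. -/
theorem main [Fintype F] : ∃ u g h : Matrix.SpecialLinearGroup (Fin (m + 3)) F,
    (IsNilpotent ((u : Matrix (Fin (m + 3)) (Fin (m + 3)) F) - 1) ∧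
      ((u : Matrix (Fin (m + 3)) (Fin (m + 3)) F) - 1) ^ (m + 3 - 1) ≠ 0) ∧
    Subgroup.closure ({u, g * u * g⁻¹, h * u * h⁻¹} :
      Set (Matrix.SpecialLinearGroup (Fin (m + 3)) F)) = ⊤ := by
  obtain ⟨θ, -, hθ⟩ := Cfsg.Agent.Lib.Helper53.SL3Gen.exists_gen (F := F)
  obtain ⟨g0, hg0, hg0H⟩ := exists_u0 (F := F) (m := m)
  refine ⟨Tl m θ * g0, Tp m (-1), hS * Tp m θ, ⟨u_nil g0 hg0 θ, u_pow_ne g0 hg0 θ⟩, ?_⟩
  set H := Subgroup.closure ({Tl m θ * g0, Tp m (-1) * (Tl m θ * g0) * (Tp m (-1))⁻¹,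
    hS * Tp m θ * (Tl m θ * g0) * (hS * Tp m θ)⁻¹} :
      Set (Matrix.SpecialLinearGroup (Fin (m + 3)) F)) with hH
  have hu : Tl m θ * g0 ∈ H := Subgroup.subset_closure (by simp)
  have hb : Tp m (-1) * (Tl m θ * g0) * (Tp m (-1))⁻¹ ∈ H := Subgroup.subset_closure (by simp)
  have hc : hS * Tp m θ * (Tl m θ * g0) * (hS * Tp m θ)⁻¹ ∈ H :=
    Subgroup.subset_closure (by simp)
  have e1 : Tp m (-1) * (Tl m θ * g0) * (Tp m (-1))⁻¹ = Tl m 1 * (Tl m θ * g0) := by
    rw [mul_inv_eq_iff_eq_mul]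
    symm
    calc Tl m 1 * (Tl m θ * g0) * Tp m (-1)
        = Tl m 1 * Tl m θ * (g0 * Tp m (-1)) := by group
      _ = Tl m 1 * Tl m θ * (Tp m (-1) * Tl m (-1) * g0) := by rw [K1' g0 hg0 (-1)]
      _ = Tl m (1 + θ) * Tp m (-1) * Tl m (-1) * g0 := by rw [Tl_add]; group
      _ = Tp m (-1) * Tl m (1 + θ) * Tl m (-1) * g0 := by rw [comm_pl' (-1) (1 + θ)]
      _ = Tp m (-1) * (Tl m (1 + θ) * Tl m (-1)) * g0 := by group
      _ = Tp m (-1) * Tl m (1 + θ + -1) * g0 := by rw [← Tl_add]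
      _ = Tp m (-1) * (Tl m θ * g0) := by
          rw [show (1 : F) + θ + -1 = θ by ring]; group
  have h1 : Tl m (1 : F) ∈ H := by
    have e : Tl m (1 : F) = (Tp m (-1) * (Tl m θ * g0) * (Tp m (-1))⁻¹) * (Tl m θ * g0)⁻¹ := by
      rw [e1]; group
    rw [e]; exact H.mul_mem hb (H.inv_mem hu)
  have e3 : hS * Tp m θ * (Tl m θ * g0) * (hS * Tp m θ)⁻¹ = hS * g0 * hS⁻¹ := by
    have e : Tp m θ * (Tl m θ * g0) = g0 * Tp m θ := by
      rw [K1' g0 hg0 θ, mul_assoc]
    calc hS * Tp m θ * (Tl m θ * g0) * (hS * Tp m θ)⁻¹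
        = hS * (Tp m θ * (Tl m θ * g0)) * (Tp m θ)⁻¹ * hS⁻¹ := by group
      _ = hS * (g0 * Tp m θ) * (Tp m θ)⁻¹ * hS⁻¹ := by rw [e]
      _ = hS * g0 * hS⁻¹ := by group
  have hcH : hS * g0 * hS⁻¹ ∈ H := e3 ▸ hc
  have hone := all_tv_one H (hS * g0 * hS⁻¹) hcH (gam m) gam_zero
    (by rw [conj_coe g0 hg0]; exact Cm_isComp) h1
  have hg0mem : g0 ∈ H := hg0H H hone
  have hθH : Tl m θ ∈ H := by
    have e : Tl m θ = (Tl m θ * g0) * g0⁻¹ := by group
    rw [e]; exact H.mul_mem hu (H.inv_mem hg0mem)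
  exact eq_top_of_tv H (by simp) hone (last_ne_zero' (m := m)) θ hθH hθ

end Cfsg.Agent.Lib.Helper53.SLnReg
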