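import Mathlib
import Cfsg.Agent.Lib.Helper53.SLnGen
import Cfsg.Agent.Lib.Helper53.SLnReg

set_option autoImplicit false
set_option linter.unusedSimpArgs false
set_option linter.unusedVariables false

namespace Cfsg.Agent.Lib.Helper53.SLnChain

open Matrix
open Cfsg.Agent.Lib.Helper53.SLnGen
open Cfsg.Agent.Lib.Helper53.SLnReg

section generic

variable {F : Type*} [Field F] {ι : Type*} [DecidableEq ι] [Fintype ι]

/-- matrix units as opaque atoms -/
theorem exists_E (ι : Type*) [DecidableEq ι] [Fintype ι] (F : Type*) [Field F] :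
    ∃ E : ι → ι → Matrix ι ι F,
      (∀ i j (c : F), single i j c = c • E i j) ∧ (∀ i j k, E i j * E j k = E i k) ∧
      (∀ i j k l, j ≠ k → E i j * E k l = 0) := by
  refine ⟨fun i j => single i j 1, ?_, ?_, ?_⟩
  · intro i j c
    rw [smul_single, smul_eq_mul, mul_one]
  · intro i j k
    rw [single_mul_single_same, mul_one]
  · intro i j k l h
    exact single_mul_single_of_ne _ _ _ _ h _

/-- `[T_{a,l}(x), r₀] = T_{a,z}(-x)` -/
theorem gen3 {a q l z : ι} (hal : a ≠ l) (haz : a ≠ z) (hql : q ≠ l) (hlz : l ≠ z)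
    (haq : a ≠ q) (hqz : q ≠ z) (x g : F) :
    (Matrix.SpecialLinearGroup.transvection hal x : Matrix.SpecialLinearGroup ι F) *
        (Matrix.SpecialLinearGroup.transvection hql g *
          Matrix.SpecialLinearGroup.transvection hlz (-1)) =
      Matrix.SpecialLinearGroup.transvection haz (-x) *
        (Matrix.SpecialLinearGroup.transvection hql g *
          Matrix.SpecialLinearGroup.transvection hlz (-1)) *
        Matrix.SpecialLinearGroup.transvection hal x := by
  obtain ⟨E, hE, hEE, hE0⟩ := exists_E ι F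
  apply Subtype.ext
  simp only [Matrix.SpecialLinearGroup.coe_mul, Matrix.SpecialLinearGroup.transvection_coe]
  show ((1 : Matrix ι ι F) + single a l x) * ((1 + single q l g) * (1 + single l z (-1))) =
    (1 + single a z (-x)) * ((1 + single q l g) * (1 + single l z (-1))) * (1 + single a l x)
  simp only [hE, mul_add, add_mul, mul_one, one_mul, smul_mul_assoc, mul_smul_comm, smul_smul,
    hEE, hE0 _ _ _ _ hal, hE0 _ _ _ _ hal.symm, hE0 _ _ _ _ haz, hE0 _ _ _ _ haz.symm,
    hE0 _ _ _ _ hql, hE0 _ _ _ _ hql.symm, hE0 _ _ _ _ hlz, hE0 _ _ _ _ hlz.symm,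
    hE0 _ _ _ _ haq, hE0 _ _ _ _ haq.symm, hE0 _ _ _ _ hqz, hE0 _ _ _ _ hqz.symm,
    smul_zero, add_zero, zero_add]
  module

/-- first commutator `K = [R₁, R₀]` -/
theorem gen1 {i1 i2 i3 i4 : ι} (h12 : i1 ≠ i2) (h13 : i1 ≠ i3) (h14 : i1 ≠ i4) (h23 : i2 ≠ i3)
    (h24 : i2 ≠ i4) (h34 : i3 ≠ i4) (g N : F) (hg : g = 1 ∨ g = -1) :
    (Matrix.SpecialLinearGroup.transvection h13 (1 : F) *
        Matrix.SpecialLinearGroup.transvection h24 g *
        Matrix.SpecialLinearGroup.transvection h14 (1 - g * N) :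
          Matrix.SpecialLinearGroup ι F) *
      (Matrix.SpecialLinearGroup.transvection h23 g *
        Matrix.SpecialLinearGroup.transvection h34 (-1)) *
      (Matrix.SpecialLinearGroup.transvection h12 g *
        Matrix.SpecialLinearGroup.transvection h13 (g * N) *
        Matrix.SpecialLinearGroup.transvection h23 (-g)) =
      (Matrix.SpecialLinearGroup.transvection h12 g *
        Matrix.SpecialLinearGroup.transvection h13 (g * N) *
        Matrix.SpecialLinearGroup.transvection h23 (-g)) *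
      (Matrix.SpecialLinearGroup.transvection h23 g *
        Matrix.SpecialLinearGroup.transvection h34 (-1)) := by
  obtain ⟨E, hE, hEE, hE0⟩ := exists_E ι F
  apply Subtype.ext
  simp only [Matrix.SpecialLinearGroup.coe_mul, Matrix.SpecialLinearGroup.transvection_coe]
  show ((1 : Matrix ι ι F) + single i1 i3 1) * (1 + single i2 i4 g) *
      (1 + single i1 i4 (1 - g * N)) * ((1 + single i2 i3 g) * (1 + single i3 i4 (-1))) *
      ((1 + single i1 i2 g) * (1 + single i1 i3 (g * N)) * (1 + single i2 i3 (-g))) =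
    ((1 + single i1 i2 g) * (1 + single i1 i3 (g * N)) * (1 + single i2 i3 (-g))) *
      ((1 + single i2 i3 g) * (1 + single i3 i4 (-1)))
  simp only [hE, mul_add, add_mul, mul_one, one_mul, smul_mul_assoc, mul_smul_comm, smul_smul,
    hEE, hE0 _ _ _ _ h12, hE0 _ _ _ _ h12.symm, hE0 _ _ _ _ h13, hE0 _ _ _ _ h13.symm,
    hE0 _ _ _ _ h14, hE0 _ _ _ _ h14.symm, hE0 _ _ _ _ h23, hE0 _ _ _ _ h23.symm,
    hE0 _ _ _ _ h24, hE0 _ _ _ _ h24.symm, hE0 _ _ _ _ h34, hE0 _ _ _ _ h34.symm,
    smul_zero, add_zero, zero_add]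
  rcases hg with rfl | rfl <;> module

/-- second commutator `[K, R₀] = T_{14}(-1)` -/
theorem gen2 {i1 i2 i3 i4 : ι} (h13 : i1 ≠ i3) (h14 : i1 ≠ i4) (h23 : i2 ≠ i3)
    (h24 : i2 ≠ i4) (h34 : i3 ≠ i4) (h12 : i1 ≠ i2) (g κ : F) :
    (Matrix.SpecialLinearGroup.transvection h14 (-1 : F) : Matrix.SpecialLinearGroup ι F) *
      (Matrix.SpecialLinearGroup.transvection h23 g *
        Matrix.SpecialLinearGroup.transvection h34 (-1)) *
      (Matrix.SpecialLinearGroup.transvection h13 (1 : F) *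
        Matrix.SpecialLinearGroup.transvection h24 g *
        Matrix.SpecialLinearGroup.transvection h14 κ) =
      (Matrix.SpecialLinearGroup.transvection h13 (1 : F) *
        Matrix.SpecialLinearGroup.transvection h24 g *
        Matrix.SpecialLinearGroup.transvection h14 κ) *
      (Matrix.SpecialLinearGroup.transvection h23 g *
        Matrix.SpecialLinearGroup.transvection h34 (-1)) := by
  obtain ⟨E, hE, hEE, hE0⟩ := exists_E ι F
  apply Subtype.ext
  simp only [Matrix.SpecialLinearGroup.coe_mul, Matrix.SpecialLinearGroup.transvection_coe]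
  show ((1 : Matrix ι ι F) + single i1 i4 (-1)) * ((1 + single i2 i3 g) * (1 + single i3 i4 (-1))) *
      ((1 + single i1 i3 1) * (1 + single i2 i4 g) * (1 + single i1 i4 κ)) =
    ((1 + single i1 i3 1) * (1 + single i2 i4 g) * (1 + single i1 i4 κ)) *
      ((1 + single i2 i3 g) * (1 + single i3 i4 (-1)))
  simp only [hE, mul_add, add_mul, mul_one, one_mul, smul_mul_assoc, mul_smul_comm, smul_smul,
    hEE, hE0 _ _ _ _ h12, hE0 _ _ _ _ h12.symm, hE0 _ _ _ _ h13, hE0 _ _ _ _ h13.symm,
    hE0 _ _ _ _ h14, hE0 _ _ _ _ h14.symm, hE0 _ _ _ _ h23, hE0 _ _ _ _ h23.symm,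
    hE0 _ _ _ _ h24, hE0 _ _ _ _ h24.symm, hE0 _ _ _ _ h34, hE0 _ _ _ _ h34.symm,
    smul_zero, add_zero, zero_add]
  module

end generic

section companion

variable {F : Type*} [Field F] {m : ℕ}

/-- `T_{i,0}(t) c = c T_{a,l}(γ₀ t)` for `i = a + 1` -/
theorem comp_E1g (c : Matrix.SpecialLinearGroup (Fin (m + 3)) F) {γ : Fin (m + 3) → ℤ}
    (hC : IsComp (c : Matrix (Fin (m + 3)) (Fin (m + 3)) F) γ)
    (a i : Fin (m + 3)) (hai : i.val = a.val + 1) (hi0 : i ≠ 0) (hal : a ≠ Fin.last (m + 2))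
    (t : F) :
    Matrix.SpecialLinearGroup.transvection hi0 t * c =
      c * Matrix.SpecialLinearGroup.transvection hal ((γ 0 : F) * t) := by
  apply Subtype.ext
  simp only [Matrix.SpecialLinearGroup.coe_mul, Matrix.SpecialLinearGroup.transvection_coe]
  rw [add_mul, mul_add, Matrix.one_mul, Matrix.mul_one]
  congr 1
  ext x y
  rw [single_mul_entry, mul_single_entry, hC.row_zero, hC.col a i hai]
  by_cases hx : x = i <;> by_cases hy : y = Fin.last (m + 2) <;> simp [hx, hy]
  ring

variable (H : Subgroup (Matrix.SpecialLinearGroup (Fin (m + 3)) F))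

theorem tv_pm {i j : Fin (m + 3)} (hij : i ≠ j) {g : F} (hg : g = 1 ∨ g = -1)
    (h : Matrix.SpecialLinearGroup.transvection hij g ∈ H) :
    Matrix.SpecialLinearGroup.transvection hij (1 : F) ∈ H := by
  rcases hg with rfl | rfl
  · exact h
  · have := tv_neg_mem H hij h
    rwa [neg_neg] at this

theorem tv_pm' {i j : Fin (m + 3)} (hij : i ≠ j) {g : F} (hg : g = 1 ∨ g = -1)
    (h : Matrix.SpecialLinearGroup.transvection hij (1 : F) ∈ H) :
    Matrix.SpecialLinearGroup.transvection hij g ∈ H := by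
  rcases hg with rfl | rfl
  · exact h
  · exact tv_neg_mem H hij h

/-- the index `m` (`= l - 2`) -/
def qI : Fin (m + 3) := ⟨m, by omega⟩

/-- **The chain.** A subgroup of `SL_{m+3}(F)`, `m ≥ 1`, containing a companion-type element `c`
and `r₀ = T_{l-1,l}(γ₀) T_{l,0}(-1)` contains `T_{l,0}(1)`. -/
theorem chain (hm : 1 ≤ m) (c : Matrix.SpecialLinearGroup (Fin (m + 3)) F) (hcH : c ∈ H)
    (γ : Fin (m + 3) → ℤ) (hγ0 : γ 0 = 1 ∨ γ 0 = -1)
    (hC : IsComp (c : Matrix (Fin (m + 3)) (Fin (m + 3)) F) γ)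
    (hr : Matrix.SpecialLinearGroup.transvection (pI_ne_last (m := m)) ((γ 0 : ℤ) : F) *
      Matrix.SpecialLinearGroup.transvection (last_ne_zero' (m := m)) (-1 : F) ∈ H) :
    Matrix.SpecialLinearGroup.transvection (last_ne_zero' (m := m)) (1 : F) ∈ H := by
  have hg : ((γ 0 : ℤ) : F) = 1 ∨ ((γ 0 : ℤ) : F) = -1 := by
    rcases hγ0 with h | h <;> rw [h] <;> simp
  have hgg : ((γ 0 : ℤ) : F) * ((γ 0 : ℤ) : F) = 1 := by
    rcases hg with h | h <;> rw [h] <;> simp
  set g : F := ((γ 0 : ℤ) : F) with hgdef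
  set N : F := ((γ (Fin.last (m + 2)) : ℤ) : F) with hNdef
  -- the indices
  have hpq : (qI : Fin (m + 3)) ≠ pI := by
    intro h; have := congrArg Fin.val h; simp [qI, pI] at this
  have hpl : (qI : Fin (m + 3)) ≠ Fin.last (m + 2) := by
    intro h; have := congrArg Fin.val h; simp [qI] at this
  have hp0 : (qI : Fin (m + 3)) ≠ 0 := by
    intro h; have := congrArg Fin.val h; simp [qI] at this; omega
  have hql : (pI : Fin (m + 3)) ≠ Fin.last (m + 2) := pI_ne_last
  have hq0 : (pI : Fin (m + 3)) ≠ 0 := pI_ne_zero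
  have hl0 : Fin.last (m + 2) ≠ (0 : Fin (m + 3)) := last_ne_zero'
  have h0l : (0 : Fin (m + 3)) ≠ Fin.last (m + 2) := Ne.symm hl0
  -- step 1: `R₁ = c⁻¹ R₀ c`
  have hR1 : Matrix.SpecialLinearGroup.transvection hpq g *
      Matrix.SpecialLinearGroup.transvection hpl (g * N) *
      Matrix.SpecialLinearGroup.transvection hql (-g) ∈ H := by
    have e1 := comp_E1 c hC pI (by simp [pI]) hql (-1 : F)
    have e2 := comp_E2 c hC qI pI (Fin.last (m + 2)) (by simp [qI, pI]) (by simp [pI])
      hpq hql hpl g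
    have e3 : Matrix.SpecialLinearGroup.transvection hpq g *
        Matrix.SpecialLinearGroup.transvection hpl (g * N) *
        Matrix.SpecialLinearGroup.transvection hql (-g) =
        c⁻¹ * (Matrix.SpecialLinearGroup.transvection hql g *
          Matrix.SpecialLinearGroup.transvection hl0 (-1 : F)) * c := by
      rw [mul_assoc c⁻¹, mul_assoc (Matrix.SpecialLinearGroup.transvection hql g), e1,
        ← mul_assoc (Matrix.SpecialLinearGroup.transvection hql g), e2]
      rw [show (γ 0 : F) * (-1 : F) = -g by rw [hgdef]; ring,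
        show ((γ (Fin.last (m + 2)) : ℤ) : F) * g = g * N by rw [hNdef]; ring]
      group
    rw [e3]
    exact H.mul_mem (H.mul_mem (H.inv_mem hcH) hr) hcH
  -- step 2: `K = [R₁, R₀]`
  have hK : Matrix.SpecialLinearGroup.transvection hpl (1 : F) *
      Matrix.SpecialLinearGroup.transvection hq0 g *
      Matrix.SpecialLinearGroup.transvection hp0 (1 - g * N) ∈ H := by
    have e := gen1 hpq hpl hp0 hql hq0 hl0 g N hg
    have e' := eq_mul_inv_of_mul_eq (eq_mul_inv_of_mul_eq e)
    rw [e']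
    exact H.mul_mem (H.mul_mem (H.mul_mem hR1 hr) (H.inv_mem hR1)) (H.inv_mem hr)
  -- step 3: `τ = [K, R₀]`
  have hτ : Matrix.SpecialLinearGroup.transvection hp0 (1 : F) ∈ H := by
    have e := gen2 hpl hp0 hql hq0 hl0 hpq g (1 - g * N)
    have e' := eq_mul_inv_of_mul_eq (eq_mul_inv_of_mul_eq e)
    have h1 : Matrix.SpecialLinearGroup.transvection hp0 (-1 : F) ∈ H := by
      rw [e']
      exact H.mul_mem (H.mul_mem (H.mul_mem hK hr) (H.inv_mem hK)) (H.inv_mem hr)
    have := tv_neg_mem H hp0 h1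
    rwa [neg_neg] at this
  -- step 4: the descent
  have hdesc : ∀ k : ℕ, ∀ (i : Fin (m + 3)) (hi0 : i ≠ 0), i.val ≤ m → m - i.val ≤ k →
      Matrix.SpecialLinearGroup.transvection hi0 (1 : F) ∈ H := by
    intro k
    induction k with
    | zero =>
      intro i hi0 hi hk
      have hi' : i = qI := Fin.ext (by simp [qI]; omega)
      subst hi'
      exact hτ
    | succ k ih =>
      intro i hi0 hi hk
      by_cases hk' : m - i.val ≤ k
      · exact ih i hi0 hi hk'
      · have hipos : 0 < i.val := Nat.pos_of_ne_zero (fun h => hi0 (Fin.ext h))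
        obtain ⟨i', hi'⟩ : ∃ i' : Fin (m + 3), i'.val = i.val + 1 := ⟨⟨i.val + 1, by omega⟩, rfl⟩
        have hi'0 : i' ≠ 0 := by
          intro h; have := congrArg Fin.val h; simp [hi'] at this
        have hil : i ≠ Fin.last (m + 2) := by
          intro h; have := congrArg Fin.val h; simp at this; omega
        have hiq : i ≠ pI := by
          intro h; have := congrArg Fin.val h; simp [pI] at this; omega
        have h1 := ih i' hi'0 (by omega) (by omega)
        have e1 := comp_E1g c hC i i' hi' hi'0 hil (1 : F)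
        have h2 : Matrix.SpecialLinearGroup.transvection hil (g * 1) ∈ H := by
          have e := eq_inv_mul_of_mul_eq e1.symm
          rw [e]
          exact H.mul_mem (H.inv_mem hcH) (H.mul_mem h1 hcH)
        rw [mul_one] at h2
        have e3 := gen3 hil hi0 hql hl0 hiq hq0 g g
        have e3' := eq_mul_inv_of_mul_eq (eq_mul_inv_of_mul_eq e3.symm)
        have h3 : Matrix.SpecialLinearGroup.transvection hi0 (-g) ∈ H := by
          rw [e3']
          exact H.mul_mem (H.mul_mem (H.mul_mem h2 hr) (H.inv_mem h2)) (H.inv_mem hr)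
        have h4 := tv_neg_mem H hi0 h3
        rw [neg_neg] at h4
        exact tv_pm H hi0 hg h4
  -- step 5: `T_{0,l}(1)`
  obtain ⟨i1, hi1⟩ : ∃ i1 : Fin (m + 3), i1.val = (0 : Fin (m + 3)).val + 1 :=
    ⟨⟨1, by omega⟩, by simp⟩
  have hi10 : i1 ≠ 0 := by
    intro h; have := congrArg Fin.val h; simp [hi1] at this
  have hT10 := hdesc m i1 hi10 (by simp [hi1]; omega) (by omega)
  have hT0l : Matrix.SpecialLinearGroup.transvection h0l (1 : F) ∈ H := by
    have e1 := comp_E1g c hC 0 i1 hi1 hi10 h0l (1 : F)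
    have h2 : Matrix.SpecialLinearGroup.transvection h0l (g * 1) ∈ H := by
      have e := eq_inv_mul_of_mul_eq e1.symm
      rw [e]
      exact H.mul_mem (H.inv_mem hcH) (H.mul_mem hT10 hcH)
    rw [mul_one] at h2
    exact tv_pm H h0l hg h2
  -- step 6: `T_{p,l}(1)`
  have hTpl : Matrix.SpecialLinearGroup.transvection hpl (1 : F) ∈ H := by
    have := tv_comm_mem H hpl hp0 h0l hτ hT0l
    rwa [mul_one] at this
  -- step 7: `T_{q,0}(1)`
  have hTq0 : Matrix.SpecialLinearGroup.transvection hq0 (1 : F) ∈ H := by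
    have e1 := comp_E1g c hC qI pI (by simp [qI, pI]) hq0 hpl g
    rw [hgg] at e1
    have h2 : Matrix.SpecialLinearGroup.transvection hq0 g ∈ H := by
      have e := eq_mul_inv_of_mul_eq e1
      rw [e]
      exact H.mul_mem (H.mul_mem hcH hTpl) (H.inv_mem hcH)
    exact tv_pm H hq0 hg h2
  -- step 8: `T_{q,l}(1)`
  have hTql : Matrix.SpecialLinearGroup.transvection hql (1 : F) ∈ H := by
    have := tv_comm_mem H hql hq0 h0l hTq0 hT0l
    rwa [mul_one] at this
  -- step 9: `T_{l,0}(1)`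
  have e1 := comp_E1 c hC pI (by simp [pI]) hql g
  rw [hgg] at e1
  have h2 : Matrix.SpecialLinearGroup.transvection hl0 g ∈ H := by
    have e := eq_mul_inv_of_mul_eq e1
    rw [e]
    exact H.mul_mem (H.mul_mem hcH hTql) (H.inv_mem hcH)
  exact tv_pm H hl0 hg h2

/-- all `T_{ij}(1)` from `c` and `r₀` -/
theorem all_of_r0 (hm : 1 ≤ m) (c : Matrix.SpecialLinearGroup (Fin (m + 3)) F) (hcH : c ∈ H)
    (γ : Fin (m + 3) → ℤ) (hγ0 : γ 0 = 1 ∨ γ 0 = -1)
    (hC : IsComp (c : Matrix (Fin (m + 3)) (Fin (m + 3)) F) γ)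
    (hr : Matrix.SpecialLinearGroup.transvection (pI_ne_last (m := m)) ((γ 0 : ℤ) : F) *
      Matrix.SpecialLinearGroup.transvection (last_ne_zero' (m := m)) (-1 : F) ∈ H) :
    ∀ (i j : Fin (m + 3)) (hij : i ≠ j),
      Matrix.SpecialLinearGroup.transvection hij (1 : F) ∈ H :=
  all_tv_one H c hcH γ hγ0 hC (chain H hm c hcH γ hγ0 hC hr)

end companion

section regular

variable {F : Type*} [Field F] {n : Type*} [Fintype n] [DecidableEq n]

theorem coe_mul_inv' (y : Matrix.SpecialLinearGroup n F) :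
    (y : Matrix n n F) * ((y⁻¹ : Matrix.SpecialLinearGroup n F) : Matrix n n F) = 1 := by
  rw [← Matrix.SpecialLinearGroup.coe_mul, mul_inv_cancel]; rfl

theorem coe_inv_mul' (y : Matrix.SpecialLinearGroup n F) :
    ((y⁻¹ : Matrix.SpecialLinearGroup n F) : Matrix n n F) * (y : Matrix n n F) = 1 := by
  rw [← Matrix.SpecialLinearGroup.coe_mul, inv_mul_cancel]; rfl

theorem conj_sub_one_pow (x y : Matrix.SpecialLinearGroup n F) (j : ℕ) :
    (((y * x * y⁻¹ : Matrix.SpecialLinearGroup n F) : Matrix n n F) - 1) ^ j =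
      (y : Matrix n n F) * ((x : Matrix n n F) - 1) ^ j *
        ((y⁻¹ : Matrix.SpecialLinearGroup n F) : Matrix n n F) := by
  have base : ((y * x * y⁻¹ : Matrix.SpecialLinearGroup n F) : Matrix n n F) - 1 =
      (y : Matrix n n F) * ((x : Matrix n n F) - 1) *
        ((y⁻¹ : Matrix.SpecialLinearGroup n F) : Matrix n n F) := by
    rw [Matrix.SpecialLinearGroup.coe_mul, Matrix.SpecialLinearGroup.coe_mul, mul_sub, sub_mul,
      Matrix.mul_one, coe_mul_inv']
  induction j with
  | zero => rw [pow_zero, pow_zero, Matrix.mul_one, coe_mul_inv']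
  | succ j ih =>
    rw [pow_succ, ih, base, pow_succ]
    calc (y : Matrix n n F) * ((x : Matrix n n F) - 1) ^ j *
          ((y⁻¹ : Matrix.SpecialLinearGroup n F) : Matrix n n F) *
          ((y : Matrix n n F) * ((x : Matrix n n F) - 1) *
            ((y⁻¹ : Matrix.SpecialLinearGroup n F) : Matrix n n F))
        = (y : Matrix n n F) * ((x : Matrix n n F) - 1) ^ j *
          (((y⁻¹ : Matrix.SpecialLinearGroup n F) : Matrix n n F) * (y : Matrix n n F)) *
            ((x : Matrix n n F) - 1) *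
            ((y⁻¹ : Matrix.SpecialLinearGroup n F) : Matrix n n F) := by
          simp only [Matrix.mul_assoc]
      _ = _ := by rw [coe_inv_mul', Matrix.mul_one]; simp only [Matrix.mul_assoc]

/-- a conjugate of a regular unipotent element is regular unipotent -/
theorem reg_conj (x y : Matrix.SpecialLinearGroup n F) (k : ℕ)
    (h : IsNilpotent ((x : Matrix n n F) - 1) ∧ ((x : Matrix n n F) - 1) ^ k ≠ 0) :
    IsNilpotent (((y * x * y⁻¹ : Matrix.SpecialLinearGroup n F) : Matrix n n F) - 1) ∧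
      (((y * x * y⁻¹ : Matrix.SpecialLinearGroup n F) : Matrix n n F) - 1) ^ k ≠ 0 := by
  obtain ⟨⟨N, hN⟩, hk⟩ := h
  refine ⟨⟨N, ?_⟩, ?_⟩
  · rw [conj_sub_one_pow, hN, Matrix.mul_zero, Matrix.zero_mul]
  · intro h0
    rw [conj_sub_one_pow] at h0
    apply hk
    have : ((y⁻¹ : Matrix.SpecialLinearGroup n F) : Matrix n n F) *
        ((y : Matrix n n F) * ((x : Matrix n n F) - 1) ^ k *
          ((y⁻¹ : Matrix.SpecialLinearGroup n F) : Matrix n n F)) * (y : Matrix n n F) = 0 := by
      rw [h0, Matrix.mul_zero, Matrix.zero_mul]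
    rw [Matrix.mul_assoc, Matrix.mul_assoc, coe_inv_mul', Matrix.mul_one, ← Matrix.mul_assoc,
      coe_inv_mul', Matrix.one_mul] at this
    exact this

end regular

section prime

variable {F : Type*} [Field F] {m : ℕ}

/-- the companion matrix as a regular unipotent element of `SL` -/
theorem exists_comp : ∃ c : Matrix.SpecialLinearGroup (Fin (m + 3)) F,
    (c : Matrix (Fin (m + 3)) (Fin (m + 3)) F) = Cm ∧
    (IsNilpotent ((c : Matrix (Fin (m + 3)) (Fin (m + 3)) F) - 1) ∧
      ((c : Matrix (Fin (m + 3)) (Fin (m + 3)) F) - 1) ^ (m + 3 - 1) ≠ 0) := by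
  obtain ⟨g0, hg0, -⟩ := exists_u0 (F := F) (m := m)
  refine ⟨hS * g0 * hS⁻¹, conj_coe g0 hg0, reg_conj g0 hS (m + 3 - 1) ?_⟩
  have e : Tl m (0 : F) * g0 = g0 := by
    unfold Tl
    rw [Matrix.SpecialLinearGroup.transvection_coeff_zero, one_mul]
  have h1 := u_nil g0 hg0 (0 : F)
  have h2 := u_pow_ne g0 hg0 (0 : F)
  rw [e] at h1 h2
  exact ⟨h1, h2⟩

/-- in a field of prime order every subring is everything -/
theorem subring_eq_top_of_prime [Fintype F] (hp : (Fintype.card F).Prime) (S : Subring F) :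
    S = ⊤ := by
  have : Fact (Nat.card F).Prime := ⟨by rw [Nat.card_eq_fintype_card]; exact hp⟩
  have h1 : AddSubgroup.zmultiples (1 : F) = ⊤ := by
    rcases AddSubgroup.eq_bot_or_eq_top_of_prime_card (AddSubgroup.zmultiples (1 : F)) with h | h
    · exfalso
      have : (1 : F) ∈ AddSubgroup.zmultiples (1 : F) := AddSubgroup.mem_zmultiples 1
      rw [h, AddSubgroup.mem_bot] at this
      exact one_ne_zero this
    · exact h
  rw [eq_top_iff]
  intro x _
  have hx : x ∈ AddSubgroup.zmultiples (1 : F) := by rw [h1]; trivial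
  obtain ⟨k, hk⟩ := AddSubgroup.mem_zmultiples_iff.mp hx
  rw [← hk, zsmul_one]
  exact intCast_mem S k

/-- **Prime fields.** `SL_{m+3}(F)`, `m ≥ 1`, `|F|` prime, is generated by two conjugate regular
unipotent elements. -/
theorem prime_pair (hm : 1 ≤ m) [Fintype F] (hp : (Fintype.card F).Prime) :
    ∃ u g : Matrix.SpecialLinearGroup (Fin (m + 3)) F,
      (IsNilpotent ((u : Matrix (Fin (m + 3)) (Fin (m + 3)) F) - 1) ∧
        ((u : Matrix (Fin (m + 3)) (Fin (m + 3)) F) - 1) ^ (m + 3 - 1) ≠ 0) ∧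
      Subgroup.closure ({u, g * u * g⁻¹} :
        Set (Matrix.SpecialLinearGroup (Fin (m + 3)) F)) = ⊤ := by
  obtain ⟨c, hc, hreg⟩ := exists_comp (F := F) (m := m)
  refine ⟨c, Tl m 1, hreg, ?_⟩
  set H := Subgroup.closure ({c, Tl m 1 * c * (Tl m 1)⁻¹} :
    Set (Matrix.SpecialLinearGroup (Fin (m + 3)) F)) with hH
  have hcH : c ∈ H := Subgroup.subset_closure (by simp)
  have hvH : Tl m 1 * c * (Tl m 1)⁻¹ ∈ H := Subgroup.subset_closure (by simp)
  have hC : IsComp (c : Matrix (Fin (m + 3)) (Fin (m + 3)) F) (gam m) := by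
    rw [hc]; exact Cm_isComp
  have hr : Matrix.SpecialLinearGroup.transvection (pI_ne_last (m := m)) ((gam m 0 : ℤ) : F) *
      Matrix.SpecialLinearGroup.transvection (last_ne_zero' (m := m)) (-1 : F) ∈ H := by
    have e1 := comp_E1 c hC pI (by simp [pI]) pI_ne_last (1 : F)
    rw [mul_one] at e1
    have e : Matrix.SpecialLinearGroup.transvection (pI_ne_last (m := m)) ((gam m 0 : ℤ) : F) *
        Matrix.SpecialLinearGroup.transvection (last_ne_zero' (m := m)) (-1 : F) =
        c⁻¹ * (Tl m 1 * c * (Tl m 1)⁻¹) := by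
      unfold Tl
      rw [← Matrix.SpecialLinearGroup.transvection_inv, e1]
      group
    rw [e]
    exact H.mul_mem (H.inv_mem hcH) hvH
  have hone := all_of_r0 H hm c hcH (gam m) gam_zero hC hr
  exact eq_top_of_tv H (by simp) hone (last_ne_zero' (m := m)) 1 (hone _ _ _)
    (fun S _ => subring_eq_top_of_prime hp S)

end prime

end Cfsg.Agent.Lib.Helper53.SLnChain
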