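import Mathlib
import Cfsg.Agent.Lib.Helper53.SLnChain

set_option autoImplicit false
set_option linter.unusedSimpArgs false
set_option linter.unusedVariables false

namespace Cfsg.Agent.Lib.Helper53.SL4Pair

open Matrix
open Cfsg.Agent.Lib.Helper53.SLnGen
open Cfsg.Agent.Lib.Helper53.SLnReg
open Cfsg.Agent.Lib.Helper53.SLnChain

section finite

variable {F : Type*} [Field F]

/-- a generator of `Fˣ` for `|F| ≥ 4`: nonzero, square `≠ 1`, generates `F` as a ring -/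
theorem exists_gen4 [Fintype F] (h4 : 4 ≤ Fintype.card F) :
    ∃ δ : F, δ ≠ 0 ∧ δ ^ 2 ≠ 1 ∧ ∀ S : Subring F, δ ∈ S → S = ⊤ := by
  classical
  obtain ⟨g, hg⟩ := IsCyclic.exists_generator (α := Fˣ)
  refine ⟨(g : F), g.ne_zero, ?_, fun S hS => ?_⟩
  · intro h
    have h1 : g ^ 2 = 1 := by
      apply Units.ext
      push_cast
      exact h
    have h2 : orderOf g ∣ 2 := orderOf_dvd_of_pow_eq_one h1
    have h3 : orderOf g = Nat.card Fˣ := orderOf_eq_card_of_forall_mem_zpowers hg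
    rw [Nat.card_eq_fintype_card, Fintype.card_units] at h3
    have h5 := Nat.le_of_dvd (by norm_num) h2
    omega
  · rw [eq_top_iff]
    intro x _
    by_cases hx : x = 0
    · rw [hx]; exact S.zero_mem
    · have h1 : Units.mk0 x hx ∈ Subgroup.zpowers g := hg _
      rw [← mem_powers_iff_mem_zpowers] at h1
      obtain ⟨n, hn⟩ := h1
      have h2 : x = (g : F) ^ n := by
        have h3 := congrArg (fun u : Fˣ => (u : F)) hn
        simpa using h3.symm
      rw [h2]; exact S.pow_mem hS n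

/-- a matrix killed by `(X-1)(X-δ)(X-δ⁻¹)` satisfies `M^q = M` -/
theorem pow_card_of_min [Fintype F] {n : Type*} [Fintype n] [DecidableEq n] (M : Matrix n n F)
    (δ : F) (h1 : δ ≠ 1) (h2 : δ ≠ δ⁻¹) (h3 : δ⁻¹ ≠ 1)
    (hmin : (M - 1) * (M - algebraMap F (Matrix n n F) δ) *
      (M - algebraMap F (Matrix n n F) δ⁻¹) = 0) :
    M ^ Fintype.card F = M := by
  open Polynomial in
  have hd1 : (X - C (1 : F)) ∣ (X ^ Fintype.card F - X : F[X]) :=
    Polynomial.dvd_iff_isRoot.mpr (by simp [Polynomial.IsRoot.def])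
  open Polynomial in
  have hd2 : (X - C δ) ∣ (X ^ Fintype.card F - X : F[X]) :=
    Polynomial.dvd_iff_isRoot.mpr (by simp [Polynomial.IsRoot.def, FiniteField.pow_card])
  open Polynomial in
  have hd3 : (X - C δ⁻¹) ∣ (X ^ Fintype.card F - X : F[X]) :=
    Polynomial.dvd_iff_isRoot.mpr (by simp [Polynomial.IsRoot.def, FiniteField.pow_card])
  open Polynomial in
  have hc12 : IsCoprime (X - C (1 : F)) (X - C δ) :=
    Polynomial.isCoprime_X_sub_C_of_isUnit_sub (IsUnit.mk0 _ (sub_ne_zero.mpr (Ne.symm h1)))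
  open Polynomial in
  have hc13 : IsCoprime (X - C (1 : F)) (X - C δ⁻¹) :=
    Polynomial.isCoprime_X_sub_C_of_isUnit_sub (IsUnit.mk0 _ (sub_ne_zero.mpr (Ne.symm h3)))
  open Polynomial in
  have hc23 : IsCoprime (X - C δ) (X - C δ⁻¹) :=
    Polynomial.isCoprime_X_sub_C_of_isUnit_sub (IsUnit.mk0 _ (sub_ne_zero.mpr h2))
  have hdvd := IsCoprime.mul_dvd (IsCoprime.mul_left hc13 hc23) (IsCoprime.mul_dvd hc12 hd1 hd2) hd3
  obtain ⟨Q, hQ⟩ := hdvd
  have h := congrArg (Polynomial.aeval M) hQ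
  simp only [map_sub, map_mul, map_pow, Polynomial.aeval_X, Polynomial.aeval_C, map_one] at h
  rw [hmin, zero_mul] at h
  exact sub_eq_zero.mp h

theorem tv_pow {n : Type*} [Fintype n] [DecidableEq n] {i j : n} (hij : i ≠ j) (s : F) (k : ℕ) :
    (Matrix.SpecialLinearGroup.transvection hij s : Matrix.SpecialLinearGroup n F) ^ k =
      Matrix.SpecialLinearGroup.transvection hij ((k : F) * s) := by
  induction k with
  | zero => simp [Matrix.SpecialLinearGroup.transvection_coeff_zero]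
  | succ k ih =>
    rw [pow_succ, ih, ← Matrix.SpecialLinearGroup.transvection_add]
    congr 1
    push_cast
    ring

theorem tv_pow_card [Fintype F] {n : Type*} [Fintype n] [DecidableEq n] {i j : n} (hij : i ≠ j)
    (s : F) :
    (Matrix.SpecialLinearGroup.transvection hij s : Matrix.SpecialLinearGroup n F) ^
      Fintype.card F = 1 := by
  rw [tv_pow, FiniteField.cast_card_eq_zero, zero_mul,
    Matrix.SpecialLinearGroup.transvection_coeff_zero]

/-- `[T_{x1}(a) T_{x0}(b), T_{12}(1)] = T_{x2}(a)` -/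
theorem gen4 {ι : Type*} [DecidableEq ι] [Fintype ι] {x i1 i0 i2 : ι} (hx1 : x ≠ i1)
    (hx0 : x ≠ i0) (hx2 : x ≠ i2) (h12 : i1 ≠ i2) (h10 : i1 ≠ i0) (h20 : i2 ≠ i0) (a b : F) :
    (Matrix.SpecialLinearGroup.transvection hx1 a *
        Matrix.SpecialLinearGroup.transvection hx0 b : Matrix.SpecialLinearGroup ι F) *
      Matrix.SpecialLinearGroup.transvection h12 (1 : F) =
      Matrix.SpecialLinearGroup.transvection hx2 a *
        Matrix.SpecialLinearGroup.transvection h12 (1 : F) *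
        (Matrix.SpecialLinearGroup.transvection hx1 a *
          Matrix.SpecialLinearGroup.transvection hx0 b) := by
  obtain ⟨E, hE, hEE, hE0⟩ := exists_E ι F
  apply Subtype.ext
  simp only [Matrix.SpecialLinearGroup.coe_mul, Matrix.SpecialLinearGroup.transvection_coe]
  show ((1 : Matrix ι ι F) + single x i1 a) * (1 + single x i0 b) * (1 + single i1 i2 1) =
    (1 + single x i2 a) * (1 + single i1 i2 1) * ((1 + single x i1 a) * (1 + single x i0 b))
  simp only [hE, mul_add, add_mul, mul_one, one_mul, smul_mul_assoc, mul_smul_comm, smul_smul,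
    hEE, hE0 _ _ _ _ hx1, hE0 _ _ _ _ hx1.symm, hE0 _ _ _ _ hx0, hE0 _ _ _ _ hx0.symm,
    hE0 _ _ _ _ hx2, hE0 _ _ _ _ hx2.symm, hE0 _ _ _ _ h12, hE0 _ _ _ _ h12.symm,
    hE0 _ _ _ _ h10, hE0 _ _ _ _ h10.symm, hE0 _ _ _ _ h20, hE0 _ _ _ _ h20.symm,
    smul_zero, add_zero, zero_add]
  module

end finite

section explicit

variable {F : Type*} [Field F]

/-- the semisimple element -/
def M4 (δ : F) : Matrix (Fin 4) (Fin 4) F :=
  !![1, 0, 0, 0; 5 * (δ - 1), δ, 0, 0; 1 - 14 * (1 - δ⁻¹), -5 * (1 - δ⁻¹), δ⁻¹, 0; -5, -1, 0, 1]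

/-- the companion matrix of `(X-1)^4` -/
def C4 : Matrix (Fin 4) (Fin 4) F := !![0, 0, 0, -1; 1, 0, 0, 4; 0, 1, 0, -6; 0, 0, 1, 4]

/-- `v - 1` -/
def V4 (δ : F) : Matrix (Fin 4) (Fin 4) F :=
  !![3, 1, 0, -1; -15, -5, 0, 4; 19 + 5 * δ, 6 + δ, -1, -6;
    14 * δ⁻¹ - 29, 5 * δ⁻¹ - 9, δ⁻¹, 3]

/-- `(v - 1)^2` -/
def W4 (δ : F) : Matrix (Fin 4) (Fin 4) F :=
  !![-14 * δ⁻¹ + 23, -5 * δ⁻¹ + 7, -δ⁻¹, -2; 56 * δ⁻¹ - 86, 20 * δ⁻¹ - 26, 4 * δ⁻¹, 7;
    -84 * δ⁻¹ + 122 - 5 * δ, -30 * δ⁻¹ + 37 - δ, -6 * δ⁻¹ + 1, -7 - δ;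
    28 * δ⁻¹ - 34, 10 * δ⁻¹ - 10, 2 * δ⁻¹, 2]

theorem M4_det {δ : F} (hδ : δ ≠ 0) : (M4 δ).det = 1 := by
  rw [Matrix.det_of_isLowerTriangular]
  · simp [Fin.prod_univ_four, M4, hδ]
  · intro i j hij
    have hij' : i < j := hij
    fin_cases i <;> fin_cases j <;> first | (exact absurd hij' (by decide)) | simp [M4]

theorem Cm_eq_C4 : (Cm (m := 1) : Matrix (Fin 4) (Fin 4) F) = C4 := by
  ext i j
  fin_cases i <;> fin_cases j <;> simp [Cm_apply, gam, beta, C4, Fin.last]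

theorem tv_coe4 {i j : Fin 4} (hij : i ≠ j) (s : F) :
    ((Matrix.SpecialLinearGroup.transvection hij s : Matrix.SpecialLinearGroup (Fin 4) F) :
      Matrix (Fin 4) (Fin 4) F) = 1 + single i j s := rfl

theorem tv30 (s : F) : (1 + single (3 : Fin 4) (0 : Fin 4) s : Matrix (Fin 4) (Fin 4) F) =
    !![1, 0, 0, 0; 0, 1, 0, 0; 0, 0, 1, 0; s, 0, 0, 1] := by
  ext i j
  fin_cases i <;> fin_cases j <;> simp [Matrix.single_apply, Matrix.one_apply]

theorem tv31 (s : F) : (1 + single (3 : Fin 4) (1 : Fin 4) s : Matrix (Fin 4) (Fin 4) F) =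
    !![1, 0, 0, 0; 0, 1, 0, 0; 0, 0, 1, 0; 0, s, 0, 1] := by
  ext i j
  fin_cases i <;> fin_cases j <;> simp [Matrix.single_apply, Matrix.one_apply]

theorem v_eq {δ : F} (hδ : δ ≠ 0) :
    (C4 : Matrix (Fin 4) (Fin 4) F) * (M4 δ * (1 + single (3 : Fin 4) (0 : Fin 4) (1 : F))) - 1 =
      V4 δ := by
  rw [tv30]
  ext i j
  fin_cases i <;> fin_cases j <;>
    simp [C4, M4, V4, Matrix.mul_apply, Fin.sum_univ_four, Matrix.one_apply] <;> ring

theorem V4_sq {δ : F} (hδ : δ ≠ 0) : V4 δ * V4 δ = W4 δ := by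
  ext i j
  fin_cases i <;> fin_cases j <;>
    simp [V4, W4, Matrix.mul_apply, Fin.sum_univ_four] <;>
    first | done | ring1 | (field_simp; done) | (field_simp; ring1)

theorem W4_sq {δ : F} (hδ : δ ≠ 0) : W4 δ * W4 δ = 0 := by
  ext i j
  fin_cases i <;> fin_cases j <;>
    simp [W4, Matrix.mul_apply, Fin.sum_univ_four] <;>
    first | done | ring1 | (field_simp; done) | (field_simp; ring1)

theorem W4V4 {δ : F} (hδ : δ ≠ 0) : (W4 δ * V4 δ) 0 3 = -1 := by
  simp [V4, W4, Matrix.mul_apply, Fin.sum_univ_four]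
  field_simp
  ring

theorem M4_comm (δ : F) :
    M4 δ * (1 + single (3 : Fin 4) (0 : Fin 4) (1 : F)) =
      (1 + single (3 : Fin 4) (0 : Fin 4) (1 : F)) * M4 δ := by
  rw [tv30]
  ext i j
  fin_cases i <;> fin_cases j <;>
    simp [M4, Matrix.mul_apply, Fin.sum_univ_four] <;>
    first | done | ring1

theorem M4_min {δ : F} (hδ : δ ≠ 0) :
    (M4 δ - 1) * (M4 δ - algebraMap F (Matrix (Fin 4) (Fin 4) F) δ) *
      (M4 δ - algebraMap F (Matrix (Fin 4) (Fin 4) F) δ⁻¹) = 0 := by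
  ext i j
  fin_cases i <;> fin_cases j <;>
    simp [M4, Matrix.mul_apply, Fin.sum_univ_four, Matrix.algebraMap_matrix_apply,
      Matrix.one_apply] <;>
    first | done | ring1 | (left; ring1) | (field_simp; done) | (field_simp; ring1)

theorem M4_scale {δ : F} (hδ : δ ≠ 0) :
    M4 δ * (1 + single (3 : Fin 4) (1 : Fin 4) (1 : F)) =
      (1 + single (3 : Fin 4) (1 : Fin 4) δ⁻¹) *
        (1 + single (3 : Fin 4) (0 : Fin 4) (-5 * (1 - δ⁻¹))) * M4 δ := by
  rw [tv30, tv31, tv31]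
  ext i j
  fin_cases i <;> fin_cases j <;>
    simp [M4, Matrix.mul_apply, Fin.sum_univ_four] <;>
    first | done | ring1 | (field_simp; done) | (field_simp; ring1)

end explicit

section main

variable {F : Type*} [Field F]

/-- **`n = 4`, `|F| ≥ 4`.** `SL_4(F)` is generated by two regular unipotent elements. -/
theorem pair_four [Fintype F] (h4 : 4 ≤ Fintype.card F) :
    ∃ u v : Matrix.SpecialLinearGroup (Fin (1 + 3)) F,
      (IsNilpotent ((u : Matrix (Fin (1 + 3)) (Fin (1 + 3)) F) - 1) ∧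
        ((u : Matrix (Fin (1 + 3)) (Fin (1 + 3)) F) - 1) ^ (1 + 3 - 1) ≠ 0) ∧
      (IsNilpotent ((v : Matrix (Fin (1 + 3)) (Fin (1 + 3)) F) - 1) ∧
        ((v : Matrix (Fin (1 + 3)) (Fin (1 + 3)) F) - 1) ^ (1 + 3 - 1) ≠ 0) ∧
      Subgroup.closure ({u, v} : Set (Matrix.SpecialLinearGroup (Fin (1 + 3)) F)) = ⊤ := by
  obtain ⟨δ, hδ0, hδ2, hgen⟩ := exists_gen4 (F := F) h4
  obtain ⟨c, hc, hreg⟩ := exists_comp (F := F) (m := 1)
  have hC : IsComp (c : Matrix (Fin (1 + 3)) (Fin (1 + 3)) F) (gam 1) := by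
    rw [hc]; exact Cm_isComp
  set ms : Matrix.SpecialLinearGroup (Fin (1 + 3)) F := ⟨M4 δ, M4_det hδ0⟩ with hms
  have hmsc : (ms : Matrix (Fin (1 + 3)) (Fin (1 + 3)) F) = M4 δ := rfl
  set T : Matrix.SpecialLinearGroup (Fin (1 + 3)) F :=
    Matrix.SpecialLinearGroup.transvection (last_ne_zero' (m := 1)) (1 : F) with hT
  have hTc : (T : Matrix (Fin (1 + 3)) (Fin (1 + 3)) F) =
      1 + single (3 : Fin 4) (0 : Fin 4) (1 : F) := rfl
  -- `v - 1`
  have hv : ((c * (ms * T) : Matrix.SpecialLinearGroup (Fin (1 + 3)) F) :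
      Matrix (Fin (1 + 3)) (Fin (1 + 3)) F) - 1 = V4 δ := by
    rw [Matrix.SpecialLinearGroup.coe_mul, Matrix.SpecialLinearGroup.coe_mul, hc, hmsc, hTc]
    have h := v_eq hδ0
    rw [← Cm_eq_C4] at h
    exact h
  have hregv : IsNilpotent (((c * (ms * T) : Matrix.SpecialLinearGroup (Fin (1 + 3)) F) :
      Matrix (Fin (1 + 3)) (Fin (1 + 3)) F) - 1) ∧
      (((c * (ms * T) : Matrix.SpecialLinearGroup (Fin (1 + 3)) F) :
        Matrix (Fin (1 + 3)) (Fin (1 + 3)) F) - 1) ^ (1 + 3 - 1) ≠ 0 := by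
    rw [hv]
    constructor
    · refine ⟨4, ?_⟩
      have e : V4 δ ^ 4 = (V4 δ * V4 δ) * (V4 δ * V4 δ) := by
        simp only [pow_succ, pow_zero, one_mul, mul_assoc]
      exact e.trans (by rw [V4_sq hδ0, W4_sq hδ0])
    · intro h
      have e : V4 δ ^ 3 = W4 δ * V4 δ := by
        rw [← V4_sq hδ0]
        simp only [pow_succ, pow_zero, one_mul]
      have h' : V4 δ ^ 3 = 0 := h
      rw [e] at h'
      have h3 := W4V4 hδ0
      rw [h'] at h3
      simp at h3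
  refine ⟨c, c * (ms * T), hreg, hregv, ?_⟩
  set H := Subgroup.closure ({c, c * (ms * T)} :
    Set (Matrix.SpecialLinearGroup (Fin (1 + 3)) F)) with hH
  have hcH : c ∈ H := Subgroup.subset_closure (by simp)
  have hvH : c * (ms * T) ∈ H := Subgroup.subset_closure (by simp)
  have hmT : ms * T ∈ H := by
    have e : ms * T = c⁻¹ * (c * (ms * T)) := by group
    rw [e]; exact H.mul_mem (H.inv_mem hcH) hvH
  have hcomm : Commute ms T := by
    show ms * T = T * ms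
    apply Subtype.ext
    rw [Matrix.SpecialLinearGroup.coe_mul, Matrix.SpecialLinearGroup.coe_mul, hmsc, hTc]
    exact M4_comm δ
  have hδ1 : δ ≠ 1 := by
    rintro rfl
    exact hδ2 (by simp)
  have hδi : δ ≠ δ⁻¹ := by
    intro h
    apply hδ2
    have h1 : δ * δ = δ * δ⁻¹ := by rw [← h]
    rw [mul_inv_cancel₀ hδ0] at h1
    rw [pow_two]; exact h1
  have hδi1 : δ⁻¹ ≠ 1 := by
    intro h
    exact hδ1 (inv_eq_one.mp h)
  have hmspow : ms ^ Fintype.card F = ms := by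
    apply Subtype.ext
    rw [Matrix.SpecialLinearGroup.coe_pow, hmsc]
    exact pow_card_of_min (M4 δ) δ hδ1 hδi hδi1 (M4_min hδ0)
  have hTpow : T ^ Fintype.card F = 1 := tv_pow_card _ _
  have hmsH : ms ∈ H := by
    have h := H.pow_mem hmT (Fintype.card F)
    rwa [hcomm.mul_pow, hmspow, hTpow, mul_one] at h
  have hTH : T ∈ H := by
    have e : T = ms⁻¹ * (ms * T) := by group
    rw [e]; exact H.mul_mem (H.inv_mem hmsH) hmT
  have hone := all_tv_one H c hcH (gam 1) gam_zero hC hTH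
  -- indices
  have h31 : (3 : Fin (1 + 3)) ≠ 1 := by decide
  have h30 : (3 : Fin (1 + 3)) ≠ 0 := by decide
  have h32 : (3 : Fin (1 + 3)) ≠ 2 := by decide
  have h12 : (1 : Fin (1 + 3)) ≠ 2 := by decide
  have h10 : (1 : Fin (1 + 3)) ≠ 0 := by decide
  have h20 : (2 : Fin (1 + 3)) ≠ 0 := by decide
  set Y : Matrix.SpecialLinearGroup (Fin (1 + 3)) F :=
    Matrix.SpecialLinearGroup.transvection h31 δ⁻¹ *
      Matrix.SpecialLinearGroup.transvection h30 (-5 * (1 - δ⁻¹)) with hY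
  have hYH : Y ∈ H := by
    have e : ms * Matrix.SpecialLinearGroup.transvection h31 (1 : F) = Y * ms := by
      apply Subtype.ext
      rw [hY, Matrix.SpecialLinearGroup.coe_mul, Matrix.SpecialLinearGroup.coe_mul,
        Matrix.SpecialLinearGroup.coe_mul, hmsc]
      exact M4_scale hδ0
    have e' := eq_mul_inv_of_mul_eq e.symm
    rw [e']
    exact H.mul_mem (H.mul_mem hmsH (hone _ _ _)) (H.inv_mem hmsH)
  have hT32 : Matrix.SpecialLinearGroup.transvection h32 δ⁻¹ ∈ H := by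
    have e := gen4 h31 h30 h32 h12 h10 h20 δ⁻¹ (-5 * (1 - δ⁻¹))
    have e2 : Matrix.SpecialLinearGroup.transvection h32 δ⁻¹ =
        Y * Matrix.SpecialLinearGroup.transvection h12 (1 : F) * Y⁻¹ *
          (Matrix.SpecialLinearGroup.transvection h12 (1 : F))⁻¹ := by
      rw [hY, e]; group
    rw [e2]
    exact H.mul_mem (H.mul_mem (H.mul_mem hYH (hone _ _ _)) (H.inv_mem hYH))
      (H.inv_mem (hone _ _ _))
  exact eq_top_of_tv H (by simp) hone h32 δ⁻¹ hT32 (fun S hS => hgen S (by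
    have := Cfsg.Agent.Lib.Helper53.SL3Gen.inv_mem_subring S hS
    rwa [inv_inv] at this))

end main

end Cfsg.Agent.Lib.Helper53.SL4Pair
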