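import Mathlib
import Cfsg.Agent.Lib.Helper53.SLnChain

set_option autoImplicit false
set_option linter.unusedSimpArgs false
set_option linter.unusedVariables false

namespace Cfsg.Agent.Lib.Helper53.SLnPair

open Matrix
open Cfsg.Agent.Lib.Helper53.SLnGen
open Cfsg.Agent.Lib.Helper53.SLnReg
open Cfsg.Agent.Lib.Helper53.SLnChain

section torus

variable {F : Type*} [Field F] {m : ℕ}

/-- the index `1` -/
def j1 : Fin (m + 3) := ⟨1, by omega⟩
/-- the index `2` -/
def j2 : Fin (m + 3) := ⟨2, by omega⟩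

theorem j1_ne_j2 : (j1 : Fin (m + 3)) ≠ j2 := by
  intro h; have := congrArg Fin.val h; simp [j1, j2] at this
theorem j1_ne_zero : (j1 : Fin (m + 3)) ≠ 0 := by
  intro h; have := congrArg Fin.val h; simp [j1] at this
theorem j2_ne_zero : (j2 : Fin (m + 3)) ≠ 0 := by
  intro h; have := congrArg Fin.val h; simp [j2] at this

/-- `1 + a E₁₁ + b E₂₂ + c E₂₀` -/
def G (a b c : F) : Matrix (Fin (m + 3)) (Fin (m + 3)) F :=
  1 + single j1 j1 a + single j2 j2 b + single j2 0 c

theorem G_congr {a b c a' b' c' : F} (ha : a = a') (hb : b = b') (hc : c = c') :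
    (G a b c : Matrix (Fin (m + 3)) (Fin (m + 3)) F) = G a' b' c' := by
  rw [ha, hb, hc]

theorem G_zero : (G 0 0 0 : Matrix (Fin (m + 3)) (Fin (m + 3)) F) = 1 := by
  simp [G]

theorem G_mul (a b c a' b' c' : F) :
    (G a b c : Matrix (Fin (m + 3)) (Fin (m + 3)) F) * G a' b' c' =
      G (a + a' + a * a') (b + b' + b * b') (c + c' + b * c') := by
  obtain ⟨E, hE, hEE, hE0⟩ := exists_E (Fin (m + 3)) F
  unfold G
  simp only [hE, mul_add, add_mul, mul_one, one_mul, smul_mul_assoc, mul_smul_comm, smul_smul,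
    hEE, hE0 _ _ _ _ (j1_ne_j2 (m := m)), hE0 _ _ _ _ (j1_ne_j2 (m := m)).symm,
    hE0 _ _ _ _ (j1_ne_zero (m := m)), hE0 _ _ _ _ (j1_ne_zero (m := m)).symm,
    hE0 _ _ _ _ (j2_ne_zero (m := m)), hE0 _ _ _ _ (j2_ne_zero (m := m)).symm,
    smul_zero, add_zero, zero_add]
  module

theorem G_apply (a b c : F) (i j : Fin (m + 3)) :
    (G a b c : Matrix (Fin (m + 3)) (Fin (m + 3)) F) i j =
      (if i = j then 1 else 0) + (if j1 = i ∧ j1 = j then a else 0) +
        (if j2 = i ∧ j2 = j then b else 0) + (if j2 = i ∧ 0 = j then c else 0) := by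
  simp [G, Matrix.add_apply, Matrix.one_apply, Matrix.single_apply]

theorem G_det (a b c : F) :
    (G a b c : Matrix (Fin (m + 3)) (Fin (m + 3)) F).det = (1 + a) * (1 + b) := by
  rw [Matrix.det_of_lowerTriangular]
  · rw [Fintype.prod_eq_mul (j1 : Fin (m + 3)) j2 j1_ne_j2]
    · rw [G_apply, G_apply]
      simp [j1_ne_j2, (j1_ne_j2 (m := m)).symm, (j2_ne_zero (m := m)).symm]
    · intro i hi
      rw [G_apply]
      simp [Ne.symm hi.1, Ne.symm hi.2]
  · intro i j hij
    have hij' : i.val < j.val := hij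
    rw [G_apply]
    have h1 : i ≠ j := fun h => by rw [h] at hij'; exact lt_irrefl _ hij'
    have h2 : ¬ ((j1 : Fin (m + 3)) = i ∧ j1 = j) := fun h => h1 (h.1.symm.trans h.2)
    have h3 : ¬ ((j2 : Fin (m + 3)) = i ∧ j2 = j) := fun h => h1 (h.1.symm.trans h.2)
    have h4 : ¬ ((j2 : Fin (m + 3)) = i ∧ 0 = j) := by
      intro h
      rw [← h.2] at hij'
      simp at hij'
    simp [h1, h2, h3, h4]

/-- the torus-like matrix -/
def Ms (w x : F) : Matrix (Fin (m + 3)) (Fin (m + 3)) F :=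
  G (x - 1) (x⁻¹ - 1) ((1 - x⁻¹) * w)

/-- the pseudo-reflection -/
def Dp (w x : F) : Matrix (Fin (m + 3)) (Fin (m + 3)) F :=
  G 0 (x - 1) (-(x - 1) * w)

theorem Ms_mul (w x y : F) :
    (Ms w x : Matrix (Fin (m + 3)) (Fin (m + 3)) F) * Ms w y = Ms w (x * y) := by
  unfold Ms
  rw [G_mul, mul_inv]
  apply G_congr <;> ring

theorem Ms_one (w : F) : (Ms w 1 : Matrix (Fin (m + 3)) (Fin (m + 3)) F) = 1 := by
  unfold Ms
  rw [← G_zero]
  apply G_congr <;> simp

theorem Ms_pow (w x : F) (k : ℕ) :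
    (Ms w x : Matrix (Fin (m + 3)) (Fin (m + 3)) F) ^ k = Ms w (x ^ k) := by
  induction k with
  | zero => rw [pow_zero, pow_zero, Ms_one]
  | succ k ih => rw [pow_succ, ih, Ms_mul, pow_succ]

theorem Ms_det (w : F) {x : F} (hx : x ≠ 0) :
    (Ms w x : Matrix (Fin (m + 3)) (Fin (m + 3)) F).det = 1 := by
  unfold Ms
  rw [G_det]
  field_simp
  ring

theorem Ms_Dp (w : F) {x : F} (hx : x ≠ 0) :
    (Ms w x : Matrix (Fin (m + 3)) (Fin (m + 3)) F) * Dp w x = G (x - 1) 0 0 := by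
  unfold Ms Dp
  rw [G_mul]
  apply G_congr
  · ring
  · field_simp; ring
  · field_simp; ring

theorem Dp_mul (w : F) {x : F} (hx : x ≠ 0) :
    (Dp w x : Matrix (Fin (m + 3)) (Fin (m + 3)) F) * Dp w x⁻¹ = 1 := by
  unfold Dp
  rw [G_mul, ← G_zero]
  apply G_congr
  · ring
  · field_simp; ring
  · field_simp; ring

/-- `Ms` commutes with the transvections away from the indices `0, 1, 2` -/
theorem Ms_comm (w x : F) {i j : Fin (m + 3)} (hi1 : i ≠ j1) (hi2 : i ≠ j2) (hi0 : i ≠ 0)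
    (hj1 : j ≠ j1) (hj2 : j ≠ j2) (s : F) :
    (Ms w x : Matrix (Fin (m + 3)) (Fin (m + 3)) F) * (1 + single i j s) =
      (1 + single i j s) * Ms w x := by
  obtain ⟨E, hE, hEE, hE0⟩ := exists_E (Fin (m + 3)) F
  unfold Ms G
  simp only [hE, mul_add, add_mul, mul_one, one_mul, smul_mul_assoc, mul_smul_comm, smul_smul,
    hEE, hE0 _ _ _ _ hi1, hE0 _ _ _ _ hi1.symm, hE0 _ _ _ _ hi2, hE0 _ _ _ _ hi2.symm,
    hE0 _ _ _ _ hi0, hE0 _ _ _ _ hi0.symm, hE0 _ _ _ _ hj1, hE0 _ _ _ _ hj1.symm,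
    hE0 _ _ _ _ hj2, hE0 _ _ _ _ hj2.symm,
    smul_zero, add_zero, zero_add]
  module

/-- conjugation by `Ms` scales `T_{1,l}` -/
theorem Ms_scale (w x : F) {l : Fin (m + 3)} (hl1 : l ≠ j1) (hl2 : l ≠ j2) :
    (Ms w x : Matrix (Fin (m + 3)) (Fin (m + 3)) F) * (1 + single j1 l 1) =
      (1 + single j1 l x) * Ms w x := by
  obtain ⟨E, hE, hEE, hE0⟩ := exists_E (Fin (m + 3)) F
  unfold Ms G
  simp only [hE, mul_add, add_mul, mul_one, one_mul, smul_mul_assoc, mul_smul_comm, smul_smul,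
    hEE, hE0 _ _ _ _ hl1, hE0 _ _ _ _ hl1.symm, hE0 _ _ _ _ hl2, hE0 _ _ _ _ hl2.symm,
    hE0 _ _ _ _ (j1_ne_j2 (m := m)), hE0 _ _ _ _ (j1_ne_j2 (m := m)).symm,
    hE0 _ _ _ _ (j1_ne_zero (m := m)), hE0 _ _ _ _ (j1_ne_zero (m := m)).symm,
    hE0 _ _ _ _ (j2_ne_zero (m := m)), hE0 _ _ _ _ (j2_ne_zero (m := m)).symm,
    smul_zero, add_zero, zero_add]
  module

/-- `Dp C = C (1 + (x-1) E₁₁)` for a companion-type `C` -/
theorem Dp_comp {C : Matrix (Fin (m + 3)) (Fin (m + 3)) F} {γ : Fin (m + 3) → ℤ}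
    (hC : IsComp C γ) (hγ0 : γ 0 = 1 ∨ γ 0 = -1) (x : F) :
    (Dp ((γ j2 : F) * (γ 0 : F)) x : Matrix (Fin (m + 3)) (Fin (m + 3)) F) * C =
      C * G (x - 1) 0 0 := by
  have hgg : ((γ 0 : ℤ) : F) * ((γ 0 : ℤ) : F) = 1 := by
    rcases hγ0 with h | h <;> rw [h] <;> simp
  unfold Dp G
  simp only [single_zero, add_zero]
  rw [add_mul, add_mul, mul_add, Matrix.one_mul, Matrix.mul_one, add_assoc]
  congr 1
  ext a b
  rw [Matrix.add_apply, single_mul_entry, single_mul_entry, mul_single_entry,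
    hC.col j1 j2 (by simp [j1, j2]), hC.row j1 j2 (by simp [j1, j2]), hC.row_zero]
  have hj1l : (j1 : Fin (m + 3)) ≠ Fin.last (m + 2) := by
    intro h; have := congrArg Fin.val h; simp [j1] at this
  by_cases ha : a = j2
  · subst ha
    by_cases hb : b = j1
    · subst hb
      simp [hj1l]
    · by_cases hbl : b = Fin.last (m + 2)
      · subst hbl
        simp [hb, hj1l.symm]
        linear_combination (-(x - 1) * (γ j2 : F)) * hgg
      · simp [hb, hbl]
  · simp [ha]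

end torus

section aux

variable {F : Type*} [Field F] {n : Type*} [Fintype n] [DecidableEq n]

/-- regular unipotency is transported along an intertwiner -/
theorem reg_of_intertwine (A B D D' : Matrix n n F) (h : A * D = D * B) (hD : D * D' = 1)
    (k : ℕ) (hB : IsNilpotent (B - 1) ∧ (B - 1) ^ k ≠ 0) :
    IsNilpotent (A - 1) ∧ (A - 1) ^ k ≠ 0 := by
  have hD' : D' * D = 1 := mul_eq_one_comm.mp hD
  have h1 : (A - 1) * D = D * (B - 1) := by
    rw [sub_mul, mul_sub, h, Matrix.one_mul, Matrix.mul_one]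
  have hp : ∀ j : ℕ, (A - 1) ^ j * D = D * (B - 1) ^ j := by
    intro j
    induction j with
    | zero => simp
    | succ j ih =>
      rw [pow_succ, Matrix.mul_assoc, h1, ← Matrix.mul_assoc, ih, Matrix.mul_assoc, ← pow_succ]
  obtain ⟨⟨N, hN⟩, hk⟩ := hB
  refine ⟨⟨N, ?_⟩, ?_⟩
  · have h2 := hp N
    rw [hN, Matrix.mul_zero] at h2
    calc (A - 1) ^ N = (A - 1) ^ N * (D * D') := by rw [hD, Matrix.mul_one]
      _ = (A - 1) ^ N * D * D' := by rw [Matrix.mul_assoc]
      _ = 0 := by rw [h2, Matrix.zero_mul]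
  · intro h0
    apply hk
    have h2 := hp k
    rw [h0, Matrix.zero_mul] at h2
    calc (B - 1) ^ k = (D' * D) * (B - 1) ^ k := by rw [hD', Matrix.one_mul]
      _ = D' * (D * (B - 1) ^ k) := by rw [Matrix.mul_assoc]
      _ = 0 := by rw [← h2, Matrix.mul_zero]

/-- a product of two "consecutive" transvections has order dividing `|F|` when `|F| ≥ 3` -/
theorem r0_pow [Fintype F] (h3 : 3 ≤ Fintype.card F) {p l z : n} (hpl : p ≠ l) (hlz : l ≠ z)
    (hpz : p ≠ z) (g s : F) :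
    (Matrix.SpecialLinearGroup.transvection hpl g *
      Matrix.SpecialLinearGroup.transvection hlz s : Matrix.SpecialLinearGroup n F) ^
        Fintype.card F = 1 := by
  obtain ⟨p', hchar⟩ := CharP.exists F
  have := hchar
  obtain ⟨k, hp', hcard⟩ := FiniteField.card F p'
  have : Fact p'.Prime := ⟨hp'⟩
  have : Nonempty n := ⟨p⟩
  obtain ⟨E, hE, hEE, hE0⟩ := exists_E n F
  set X : Matrix n n F := single p l g + single l z s + single p z (g * s) with hXdef
  have hX : ((Matrix.SpecialLinearGroup.transvection hpl g *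
      Matrix.SpecialLinearGroup.transvection hlz s : Matrix.SpecialLinearGroup n F) :
        Matrix n n F) = 1 + X := by
    rw [Matrix.SpecialLinearGroup.coe_mul]
    show ((1 : Matrix n n F) + single p l g) * (1 + single l z s) = 1 + X
    rw [hXdef]
    simp only [hE, mul_add, add_mul, mul_one, one_mul, smul_mul_assoc, mul_smul_comm, smul_smul,
      hEE]
    module
  have hX3 : X ^ 3 = 0 := by
    rw [pow_succ, pow_two, hXdef]
    simp only [hE, mul_add, add_mul, mul_one, one_mul, smul_mul_assoc, mul_smul_comm, smul_smul,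
      hEE, hE0 _ _ _ _ hpl, hE0 _ _ _ _ hpl.symm, hE0 _ _ _ _ hlz, hE0 _ _ _ _ hlz.symm,
      hE0 _ _ _ _ hpz, hE0 _ _ _ _ hpz.symm, smul_zero, add_zero, zero_add]
  apply Subtype.ext
  rw [Matrix.SpecialLinearGroup.coe_pow, hX, hcard,
    add_pow_char_pow_of_commute p' k (Commute.one_left X), one_pow]
  have h3' : 3 ≤ p' ^ (k : ℕ) := by rw [← hcard]; exact h3
  have e : p' ^ (k : ℕ) = 3 + (p' ^ (k : ℕ) - 3) := by omega
  rw [e, pow_add, hX3, Matrix.zero_mul, add_zero]
  rfl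

end aux

section main

variable {F : Type*} [Field F] {m : ℕ}

/-- **`n ≥ 5`, `|F| ≥ 3`.** `SL_{m+3}(F)`, `m ≥ 2`, is generated by two regular unipotent
elements. -/
theorem pair_ge5 (hm : 2 ≤ m) [Fintype F] (h3 : 3 ≤ Fintype.card F) :
    ∃ u v : Matrix.SpecialLinearGroup (Fin (m + 3)) F,
      (IsNilpotent ((u : Matrix (Fin (m + 3)) (Fin (m + 3)) F) - 1) ∧
        ((u : Matrix (Fin (m + 3)) (Fin (m + 3)) F) - 1) ^ (m + 3 - 1) ≠ 0) ∧
      (IsNilpotent ((v : Matrix (Fin (m + 3)) (Fin (m + 3)) F) - 1) ∧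
        ((v : Matrix (Fin (m + 3)) (Fin (m + 3)) F) - 1) ^ (m + 3 - 1) ≠ 0) ∧
      Subgroup.closure ({u, v} : Set (Matrix.SpecialLinearGroup (Fin (m + 3)) F)) = ⊤ := by
  obtain ⟨x, hx0, hxgen⟩ := Cfsg.Agent.Lib.Helper53.SL3Gen.exists_gen (F := F)
  obtain ⟨c, hc, hreg⟩ := exists_comp (F := F) (m := m)
  have hC : IsComp (c : Matrix (Fin (m + 3)) (Fin (m + 3)) F) (gam m) := by
    rw [hc]; exact Cm_isComp
  set w : F := ((gam m j2 : ℤ) : F) * ((gam m 0 : ℤ) : F) with hw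
  set ms : Matrix.SpecialLinearGroup (Fin (m + 3)) F := ⟨Ms w x, Ms_det w hx0⟩ with hms
  have hmsc : (ms : Matrix (Fin (m + 3)) (Fin (m + 3)) F) = Ms w x := rfl
  -- indices
  have hl1 : Fin.last (m + 2) ≠ (j1 : Fin (m + 3)) := by
    intro h; have := congrArg Fin.val h; simp [j1] at this
  have hl2 : Fin.last (m + 2) ≠ (j2 : Fin (m + 3)) := by
    intro h; have := congrArg Fin.val h; simp [j2] at this; omega
  have hp1 : (pI : Fin (m + 3)) ≠ j1 := by
    intro h; have := congrArg Fin.val h; simp [pI, j1] at this; omega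
  have hp2 : (pI : Fin (m + 3)) ≠ j2 := by
    intro h; have := congrArg Fin.val h; simp [pI, j2] at this; omega
  -- regularity of `c * ms`
  have hreg1 : IsNilpotent (((c * ms : Matrix.SpecialLinearGroup (Fin (m + 3)) F) :
      Matrix (Fin (m + 3)) (Fin (m + 3)) F) - 1) ∧
      (((c * ms : Matrix.SpecialLinearGroup (Fin (m + 3)) F) :
        Matrix (Fin (m + 3)) (Fin (m + 3)) F) - 1) ^ (m + 3 - 1) ≠ 0 := by
    refine reg_of_intertwine _ _ (Dp w x) (Dp w x⁻¹) ?_ (Dp_mul w hx0) _ hreg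
    rw [Matrix.SpecialLinearGroup.coe_mul, hmsc, Matrix.mul_assoc, Ms_Dp w hx0, hw,
      Dp_comp hC gam_zero x]
  refine ⟨c, Tl m 1 * (c * ms) * (Tl m 1)⁻¹, hreg, reg_conj _ _ _ hreg1, ?_⟩
  set H := Subgroup.closure ({c, Tl m 1 * (c * ms) * (Tl m 1)⁻¹} :
    Set (Matrix.SpecialLinearGroup (Fin (m + 3)) F)) with hH
  have hcH : c ∈ H := Subgroup.subset_closure (by simp)
  have hvH : Tl m 1 * (c * ms) * (Tl m 1)⁻¹ ∈ H := Subgroup.subset_closure (by simp)
  -- commutation of `ms` with the two factors of `r₀`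
  have hcomm1 : ms * Matrix.SpecialLinearGroup.transvection (pI_ne_last (m := m))
      ((gam m 0 : ℤ) : F) =
      Matrix.SpecialLinearGroup.transvection (pI_ne_last (m := m)) ((gam m 0 : ℤ) : F) * ms := by
    apply Subtype.ext
    rw [Matrix.SpecialLinearGroup.coe_mul, Matrix.SpecialLinearGroup.coe_mul, hmsc]
    exact Ms_comm w x hp1 hp2 pI_ne_zero hl1 hl2 _
  have hcomm2 : ms * Matrix.SpecialLinearGroup.transvection (last_ne_zero' (m := m)) (-1 : F) =
      Matrix.SpecialLinearGroup.transvection (last_ne_zero' (m := m)) (-1 : F) * ms := by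
    apply Subtype.ext
    rw [Matrix.SpecialLinearGroup.coe_mul, Matrix.SpecialLinearGroup.coe_mul, hmsc]
    exact Ms_comm w x hl1 hl2 last_ne_zero' (Ne.symm j1_ne_zero) (Ne.symm j2_ne_zero) _
  set R0 : Matrix.SpecialLinearGroup (Fin (m + 3)) F :=
    Matrix.SpecialLinearGroup.transvection (pI_ne_last (m := m)) ((gam m 0 : ℤ) : F) *
      Matrix.SpecialLinearGroup.transvection (last_ne_zero' (m := m)) (-1 : F) with hR0
  have hcomm : Commute ms R0 := by
    show ms * R0 = R0 * ms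
    rw [hR0, ← mul_assoc, hcomm1, mul_assoc, hcomm2, mul_assoc]
  have hrH : ms * R0 ∈ H := by
    have e1 := comp_E1 c hC pI (by simp [pI]) pI_ne_last (1 : F)
    rw [mul_one] at e1
    have e : ms * R0 = c⁻¹ * (Tl m 1 * (c * ms) * (Tl m 1)⁻¹) := by
      have e2 : Tl m 1 * (c * ms) * (Tl m 1)⁻¹ =
          c * (Matrix.SpecialLinearGroup.transvection (pI_ne_last (m := m))
            ((gam m 0 : ℤ) : F) * ms *
            Matrix.SpecialLinearGroup.transvection (last_ne_zero' (m := m)) (-1 : F)) := by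
        unfold Tl
        rw [← mul_assoc, e1, Matrix.SpecialLinearGroup.transvection_inv]
        simp only [mul_assoc]
      rw [e2, hR0, ← mul_assoc ms, hcomm1]
      group
    rw [e]
    exact H.mul_mem (H.inv_mem hcH) hvH
  have hmspow : ms ^ Fintype.card F = ms := by
    apply Subtype.ext
    rw [Matrix.SpecialLinearGroup.coe_pow, hmsc, Ms_pow, FiniteField.pow_card]
  have hR0pow : R0 ^ Fintype.card F = 1 :=
    r0_pow h3 pI_ne_last last_ne_zero' pI_ne_zero _ _
  have hmsH : ms ∈ H := by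
    have h := H.pow_mem hrH (Fintype.card F)
    rwa [hcomm.mul_pow, hmspow, hR0pow, mul_one] at h
  have hR0H : R0 ∈ H := by
    have e : R0 = ms⁻¹ * (ms * R0) := by group
    rw [e]; exact H.mul_mem (H.inv_mem hmsH) hrH
  have hone := all_of_r0 H (by omega) c hcH (gam m) gam_zero hC hR0H
  have hT : Matrix.SpecialLinearGroup.transvection (Ne.symm hl1) x ∈ H := by
    have e : ms * Matrix.SpecialLinearGroup.transvection (Ne.symm hl1) (1 : F) =
        Matrix.SpecialLinearGroup.transvection (Ne.symm hl1) x * ms := by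
      apply Subtype.ext
      rw [Matrix.SpecialLinearGroup.coe_mul, Matrix.SpecialLinearGroup.coe_mul, hmsc]
      exact Ms_scale w x hl1 hl2
    have e' := eq_mul_inv_of_mul_eq e.symm
    rw [e']
    exact H.mul_mem (H.mul_mem hmsH (hone _ _ _)) (H.inv_mem hmsH)
  exact eq_top_of_tv H (by simp) hone (Ne.symm hl1) x hT hxgen

end main

end Cfsg.Agent.Lib.Helper53.SLnPair
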