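import Cfsg.Agent.Lib.Helper53.Sp4ACT

/-!
# S5320 piece ACEN : `C_G(A) ≤ A`
-/

set_option autoImplicit false

namespace Cfsg.Agent.Lib.Helper53.Sp4ACEN

open Cfsg.Agent.Lib.Helper38.Sp4Stmt Cfsg.Agent.Lib.Helper53.Sp4ANF

universe u v

theorem main : ACEN.{u, v} := by
  intro G L _ _ ψ τ ε Q w hD hQ hQ8 g hcomm
  have hz := hcomm _ (z_mem ψ τ ε Q)
  have hτ := hcomm _ (tau_mem ψ τ ε Q)
  obtain ⟨a, b, rfl | rfl⟩ := hD.cent g hz
  · have h1 : ψ (a, b) = ψ (b, a) := by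
      rw [tau_mul hD] at hτ
      exact mul_right_cancel hτ
    obtain ⟨δ, hδ, rfl⟩ := Cfsg.Agent.Lib.Helper53.Sp4ACT.swap_eq hD h1
    have haQ : a ∈ Q := by
      apply hQ8.triv
      intro c hc
      have h3 := hcomm _ (diag_mem ψ τ ε hc)
      rw [psi_mul, psi_mul] at h3
      rcases psi_eq hD h3 with ⟨h4, -⟩ | ⟨h4, -⟩
      · left
        rw [h4, mul_inv_cancel_right]
      · right
        rw [h4, mul_assoc, mul_inv_cancel_right]
    exact mem_AA_psi hD haQ hδ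
  · have h1 : ψ (a, b) = ψ (b, a) := by
      rw [← mul_assoc, tau_mul hD] at hτ
      exact mul_right_cancel (mul_right_cancel hτ)
    obtain ⟨δ, hδ, rfl⟩ := Cfsg.Agent.Lib.Helper53.Sp4ACT.swap_eq hD h1
    have haQ : a ∈ Q := by
      apply hQ8.triv
      intro c hc
      have h3 := hcomm _ (diag_mem ψ τ ε hc)
      rw [mul_assoc, tau_mul hD, ← mul_assoc, ← mul_assoc, psi_mul, psi_mul] at h3
      rcases psi_eq hD (mul_right_cancel h3) with ⟨h4, -⟩ | ⟨h4, -⟩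
      · left
        rw [h4, mul_inv_cancel_right]
      · right
        rw [h4, mul_assoc, mul_inv_cancel_right]
    exact mem_AA_psi_tau hD haQ hδ

end Cfsg.Agent.Lib.Helper53.Sp4ACEN
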