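import Cfsg.Agent.Lib.Helper53.Sp4ANF

/-!
# S5320 piece ACT : `C_{S0}(τ) ≤ A`
-/

set_option autoImplicit false

namespace Cfsg.Agent.Lib.Helper53.Sp4ACT

open Cfsg.Agent.Lib.Helper38.Sp4Stmt Cfsg.Agent.Lib.Helper53.Sp4ANF

universe u v

/-- `ψ (a, b) = ψ (b, a)` forces `b = δ * a`, `δ ∈ {1, ε}` -/
theorem swap_eq {G : Type u} {L : Type v} [Group G] [Group L] {ψ : L × L →* G} {τ : G} {ε : L}
    (h : Data ψ τ ε) {a b : L} (heq : ψ (a, b) = ψ (b, a)) :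
    ∃ δ : L, (δ = 1 ∨ δ = ε) ∧ b = δ * a := by
  rcases psi_eq h heq with ⟨h1, -⟩ | ⟨-, h1⟩
  · exact ⟨1, Or.inl rfl, by rw [one_mul, h1]⟩
  · exact ⟨ε, Or.inr rfl, h1⟩

theorem main : ACT.{u, v} := by
  intro G L _ _ ψ τ ε Q hD hQ x hx hcomm
  obtain ⟨a, ha, b, hb, rfl | rfl⟩ := s0_nf hD hx
  · have h1 : ψ (a, b) = ψ (b, a) := by
      rw [tau_mul hD] at hcomm
      exact mul_right_cancel hcomm
    obtain ⟨δ, hδ, rfl⟩ := swap_eq hD h1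
    exact mem_AA_psi hD ha hδ
  · have h1 : ψ (a, b) = ψ (b, a) := by
      rw [← mul_assoc, tau_mul hD] at hcomm
      exact mul_right_cancel (mul_right_cancel hcomm)
    obtain ⟨δ, hδ, rfl⟩ := swap_eq hD h1
    exact mem_AA_psi_tau hD ha hδ

end Cfsg.Agent.Lib.Helper53.Sp4ACT
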