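import Cfsg.Agent.Lib.Helper38.Sp4Stmt

/-!
# S5320 piece ANF (normal form of the elements of `A`) and basic lemmas on `Data`
-/

set_option autoImplicit false

namespace Cfsg.Agent.Lib.Helper53.Sp4ANF

open Cfsg.Agent.Lib.Helper38.Sp4Stmt

universe u v

/-- closure induction by left multiplication with an inverse-closed generating set -/
theorem closure_left {G : Type u} [Group G] (s : Set G) (N : G → Prop) (h1 : N 1)
    (hinv : ∀ x ∈ s, x⁻¹ ∈ s) (hmul : ∀ x ∈ s, ∀ y, N y → N (x * y)) :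
    ∀ x ∈ Subgroup.closure s, N x := by
  intro x hx
  induction hx using Subgroup.closure_induction_left with
  | one => exact h1
  | mul_left x hx y hy ih => exact hmul x hx y ih
  | inv_mul_cancel x hx y hy ih => exact hmul x⁻¹ (hinv x hx) y ih

section

variable {G : Type u} {L : Type v} [Group G] [Group L] {ψ : L × L →* G} {τ : G} {ε : L}

theorem psi_mul (ψ : L × L →* G) (a b c d : L) : ψ (a, b) * ψ (c, d) = ψ (a * c, b * d) := by
  rw [← map_mul, Prod.mk_mul_mk]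

theorem psi_inv (ψ : L × L →* G) (a b : L) : (ψ (a, b))⁻¹ = ψ (a⁻¹, b⁻¹) := by
  rw [← map_inv, Prod.inv_mk]

theorem psi_one (ψ : L × L →* G) : ψ (1, 1) = 1 := map_one ψ

theorem tau_inv (h : Data ψ τ ε) : τ⁻¹ = τ := inv_eq_of_mul_eq_one_left h.tau_sq

theorem eps_inv (h : Data ψ τ ε) : ε⁻¹ = ε := inv_eq_of_mul_eq_one_left h.eps_sq

theorem tau_mul (h : Data ψ τ ε) (a b : L) : τ * ψ (a, b) = ψ (b, a) * τ := by
  rw [← h.tau_conj a b]
  group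

theorem psi_eps (h : Data ψ τ ε) (a b : L) : ψ (ε * a, ε * b) = ψ (a, b) := by
  rw [← psi_mul, h.ker_eps, one_mul]

theorem psi_eq (h : Data ψ τ ε) {a b c d : L} (heq : ψ (a, b) = ψ (c, d)) :
    (a = c ∧ b = d) ∨ (a = ε * c ∧ b = ε * d) := by
  have h1 : ψ (a * c⁻¹, b * d⁻¹) = 1 := by
    rw [← psi_mul, ← psi_inv, heq, mul_inv_cancel]
  rcases h.ker _ _ h1 with ⟨h2, h3⟩ | ⟨h2, h3⟩
  · left
    exact ⟨mul_inv_eq_one.mp h2, mul_inv_eq_one.mp h3⟩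
  · right
    exact ⟨mul_inv_eq_iff_eq_mul.mp h2, mul_inv_eq_iff_eq_mul.mp h3⟩

theorem psi_swap_eps (h : Data ψ τ ε) (a : L) : ψ (ε * a, a) = ψ (a, ε * a) := by
  have := psi_eps h a (ε * a)
  rw [← mul_assoc, h.eps_sq, one_mul] at this
  exact this

theorem z_mem (ψ : L × L →* G) (τ : G) (ε : L) (Q : Subgroup L) : ψ (ε, 1) ∈ AA ψ τ ε Q :=
  Subgroup.subset_closure (Or.inr (Or.inl rfl))

theorem tau_mem (ψ : L × L →* G) (τ : G) (ε : L) (Q : Subgroup L) : τ ∈ AA ψ τ ε Q :=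
  Subgroup.subset_closure (Or.inl rfl)

theorem diag_mem (ψ : L × L →* G) (τ : G) (ε : L) {Q : Subgroup L} {a : L} (ha : a ∈ Q) :
    ψ (a, a) ∈ AA ψ τ ε Q :=
  Subgroup.subset_closure (Or.inr (Or.inr ⟨a, ha, rfl⟩))

theorem mem_AA_psi (h : Data ψ τ ε) {Q : Subgroup L} {a δ : L} (ha : a ∈ Q)
    (hδ : δ = 1 ∨ δ = ε) : ψ (a, δ * a) ∈ AA ψ τ ε Q := by
  rcases hδ with h1 | h1
  · rw [h1, one_mul]
    exact diag_mem ψ τ ε ha
  · have h2 : ψ (a, ε * a) = ψ (ε, 1) * ψ (a, a) := by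
      rw [psi_mul, one_mul, psi_swap_eps h]
    rw [h1, h2]
    exact (AA ψ τ ε Q).mul_mem (z_mem ψ τ ε Q) (diag_mem ψ τ ε ha)

theorem mem_AA_psi_tau (h : Data ψ τ ε) {Q : Subgroup L} {a δ : L} (ha : a ∈ Q)
    (hδ : δ = 1 ∨ δ = ε) : ψ (a, δ * a) * τ ∈ AA ψ τ ε Q :=
  (AA ψ τ ε Q).mul_mem (mem_AA_psi h ha hδ) (tau_mem ψ τ ε Q)

/-- `δ * δ = 1` for `δ ∈ {1, ε}` -/
theorem delta_sq (h : Data ψ τ ε) {δ : L} (hδ : δ = 1 ∨ δ = ε) : δ * δ = 1 := by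
  rcases hδ with h1 | h1
  · rw [h1, one_mul]
  · rw [h1]
    exact h.eps_sq

theorem delta_comm (h : Data ψ τ ε) {δ : L} (hδ : δ = 1 ∨ δ = ε) (x : L) : δ * x = x * δ := by
  rcases hδ with h1 | h1
  · rw [h1, one_mul, mul_one]
  · rw [h1]
    exact h.eps_comm x

/-- normal form of the elements of `S0` (one direction) -/
theorem s0_nf (h : Data ψ τ ε) {Q : Subgroup L} {x : G} (hx : x ∈ S0 ψ τ Q) :
    ∃ a ∈ Q, ∃ b ∈ Q, x = ψ (a, b) ∨ x = ψ (a, b) * τ := by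
  refine closure_left _ (fun y => ∃ a ∈ Q, ∃ b ∈ Q, y = ψ (a, b) ∨ y = ψ (a, b) * τ)
    ⟨1, Q.one_mem, 1, Q.one_mem, Or.inl (psi_one ψ).symm⟩ ?_ ?_ x hx
  · rintro y (rfl | ⟨a, ha, b, hb, rfl⟩)
    · left
      exact tau_inv h
    · right
      exact ⟨a⁻¹, Q.inv_mem ha, b⁻¹, Q.inv_mem hb, psi_inv ψ a b⟩
  · rintro g (rfl | ⟨c, hc, d, hd, rfl⟩) y ⟨a, ha, b, hb, rfl | rfl⟩
    · exact ⟨b, hb, a, ha, Or.inr (tau_mul h a b)⟩
    · refine ⟨b, hb, a, ha, Or.inl ?_⟩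
      rw [← mul_assoc, tau_mul h, mul_assoc, h.tau_sq, mul_one]
    · exact ⟨c * a, Q.mul_mem hc ha, d * b, Q.mul_mem hd hb, Or.inl (psi_mul ψ c d a b)⟩
    · refine ⟨c * a, Q.mul_mem hc ha, d * b, Q.mul_mem hd hb, Or.inr ?_⟩
      rw [← mul_assoc, psi_mul]

/-- normal form of the elements of `A` (one direction) -/
theorem aa_nf (h : Data ψ τ ε) {Q : Subgroup L} (hQ : QData ε Q) {x : G}
    (hx : x ∈ AA ψ τ ε Q) :
    ∃ a ∈ Q, ∃ δ : L, (δ = 1 ∨ δ = ε) ∧ (x = ψ (a, δ * a) ∨ x = ψ (a, δ * a) * τ) := by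
  refine closure_left _ (fun y => ∃ a ∈ Q, ∃ δ : L, (δ = 1 ∨ δ = ε) ∧
      (y = ψ (a, δ * a) ∨ y = ψ (a, δ * a) * τ))
    ⟨1, Q.one_mem, 1, Or.inl rfl, Or.inl (by rw [one_mul]; exact (psi_one ψ).symm)⟩ ?_ ?_ x hx
  · rintro y (rfl | rfl | ⟨a, ha, rfl⟩)
    · left
      exact tau_inv h
    · right
      left
      rw [psi_inv, eps_inv h, inv_one]
    · right
      right
      exact ⟨a⁻¹, Q.inv_mem ha, psi_inv ψ a a⟩
  · have hδQ : ∀ δ : L, (δ = 1 ∨ δ = ε) → δ ∈ Q := by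
      rintro δ (h1 | h1)
      · rw [h1]
        exact Q.one_mem
      · rw [h1]
        exact hQ.eps_mem
    rintro g (rfl | rfl | ⟨c, hc, rfl⟩) y ⟨a, ha, δ, hδ, rfl | rfl⟩
    · -- τ * ψ (a, δ a) = ψ (δ a, a) * τ
      refine ⟨δ * a, Q.mul_mem (hδQ δ hδ) ha, δ, hδ, Or.inr ?_⟩
      rw [tau_mul h, ← mul_assoc δ δ a, delta_sq h hδ, one_mul]
    · refine ⟨δ * a, Q.mul_mem (hδQ δ hδ) ha, δ, hδ, Or.inl ?_⟩
      rw [← mul_assoc, tau_mul h, mul_assoc, h.tau_sq, mul_one, ← mul_assoc δ δ a,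
        delta_sq h hδ, one_mul]
    · -- ψ (ε, 1) * ψ (a, δ a) = ψ (ε a, δ a)
      refine ⟨ε * a, Q.mul_mem hQ.eps_mem ha, δ * ε, ?_, Or.inl ?_⟩
      · rcases hδ with h1 | h1
        · right
          rw [h1, one_mul]
        · left
          rw [h1]
          exact h.eps_sq
      · rw [psi_mul, one_mul, mul_assoc δ ε (ε * a), ← mul_assoc ε ε a, h.eps_sq, one_mul]
    · refine ⟨ε * a, Q.mul_mem hQ.eps_mem ha, δ * ε, ?_, Or.inr ?_⟩
      · rcases hδ with h1 | h1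
        · right
          rw [h1, one_mul]
        · left
          rw [h1]
          exact h.eps_sq
      · rw [← mul_assoc, psi_mul, one_mul, mul_assoc δ ε (ε * a), ← mul_assoc ε ε a, h.eps_sq,
          one_mul]
    · -- ψ (c, c) * ψ (a, δ a) = ψ (c a, c δ a)
      refine ⟨c * a, Q.mul_mem hc ha, δ, hδ, Or.inl ?_⟩
      rw [psi_mul, ← mul_assoc c δ a, ← delta_comm h hδ c, mul_assoc]
    · refine ⟨c * a, Q.mul_mem hc ha, δ, hδ, Or.inr ?_⟩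
      rw [← mul_assoc, psi_mul, ← mul_assoc c δ a, ← delta_comm h hδ c, mul_assoc]

end

theorem main : ANF.{u, v} := by
  intro G L _ _ ψ τ ε Q hD hQ x
  constructor
  · intro hx
    obtain ⟨a, ha, δ, hδ, hx⟩ := aa_nf hD hQ hx
    refine ⟨a, ha, ?_⟩
    rcases hδ with h1 | h1
    · rw [h1, one_mul] at hx
      rcases hx with hx | hx
      · exact Or.inl hx
      · exact Or.inr (Or.inr (Or.inl hx))
    · rw [h1] at hx
      rcases hx with hx | hx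
      · exact Or.inr (Or.inl hx)
      · exact Or.inr (Or.inr (Or.inr hx))
  · rintro ⟨a, ha, rfl | rfl | rfl | rfl⟩
    · exact diag_mem ψ τ ε ha
    · exact mem_AA_psi hD ha (Or.inr rfl)
    · exact (AA ψ τ ε Q).mul_mem (diag_mem ψ τ ε ha) (tau_mem ψ τ ε Q)
    · exact mem_AA_psi_tau hD ha (Or.inr rfl)

end Cfsg.Agent.Lib.Helper53.Sp4ANF
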