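import Cfsg.Agent.Lib.Helper53.Sp4ANF

/-!
# S5320 piece ANS : `A ≤ S0` and `A` is normal in `S0`
-/

set_option autoImplicit false

namespace Cfsg.Agent.Lib.Helper53.Sp4ANS

open Cfsg.Agent.Lib.Helper38.Sp4Stmt Cfsg.Agent.Lib.Helper53.Sp4ANF

universe u v

section

variable {G : Type u} {L : Type v} [Group G] [Group L] {ψ : L × L →* G} {τ : G} {ε : L}

/-- conjugation by `ψ (c, d)`, `c d ∈ Q`, maps `A` into `A` -/
theorem conj_psi (hD : Data ψ τ ε) {Q : Subgroup L} {w : L} (hQ : QData ε Q)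
    (hQ8 : Q8Data ε Q w) {c d : L} (hc : c ∈ Q) (hd : d ∈ Q) :
    ∀ x ∈ AA ψ τ ε Q, ψ (c, d) * x * (ψ (c, d))⁻¹ ∈ AA ψ τ ε Q := by
  intro x hx
  induction hx using Subgroup.closure_induction with
  | mem x hx =>
    rcases hx with h0 | h0 | ⟨a, ha, h0⟩
    · -- τ
      rw [h0]
      have h1 : ψ (c, d) * τ * (ψ (c, d))⁻¹ = ψ (c * d⁻¹, d * c⁻¹) * τ := by
        rw [psi_inv, mul_assoc, tau_mul hD, ← mul_assoc, psi_mul]
      rw [h1]
      have he : c * d⁻¹ ∈ Q := Q.mul_mem hc (Q.inv_mem hd)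
      have h2 : d * c⁻¹ = (c * d⁻¹)⁻¹ := by group
      rcases hQ8.sq _ he with h3 | h3
      · have h4 : (c * d⁻¹)⁻¹ = 1 * (c * d⁻¹) := by
          rw [one_mul]
          exact inv_eq_of_mul_eq_one_left h3
        rw [h2, h4]
        exact mem_AA_psi_tau hD he (Or.inl rfl)
      · have h4 : (c * d⁻¹)⁻¹ = ε * (c * d⁻¹) := by
          apply inv_eq_of_mul_eq_one_left
          rw [mul_assoc, h3, hD.eps_sq]
        rw [h2, h4]
        exact mem_AA_psi_tau hD he (Or.inr rfl)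
    · -- ψ (ε, 1)
      rw [h0]
      have h1 : ψ (c, d) * ψ (ε, 1) * (ψ (c, d))⁻¹ = ψ (ε, 1) := by
        rw [psi_inv, psi_mul, psi_mul, mul_one, mul_inv_cancel, ← hD.eps_comm c,
          mul_inv_cancel_right]
      rw [h1]
      exact z_mem ψ τ ε Q
    · -- ψ (a, a)
      rw [h0]
      have h1 : ψ (c, d) * ψ (a, a) * (ψ (c, d))⁻¹ = ψ (c * a * c⁻¹, d * a * d⁻¹) := by
        rw [psi_inv, psi_mul, psi_mul]
      rw [h1]
      rcases hQ8.conj a ha c hc with h2 | h2 <;> rcases hQ8.conj a ha d hd with h3 | h3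
      · rw [h2, h3]
        exact diag_mem ψ τ ε ha
      · rw [h2, h3]
        exact mem_AA_psi hD ha (Or.inr rfl)
      · rw [h2, h3, psi_swap_eps hD]
        exact mem_AA_psi hD ha (Or.inr rfl)
      · rw [h2, h3]
        exact diag_mem ψ τ ε (Q.mul_mem hQ.eps_mem ha)
  | one =>
    rw [mul_one, mul_inv_cancel]
    exact (AA ψ τ ε Q).one_mem
  | mul x y hx hy ihx ihy =>
    have h1 : ψ (c, d) * (x * y) * (ψ (c, d))⁻¹ =
        (ψ (c, d) * x * (ψ (c, d))⁻¹) * (ψ (c, d) * y * (ψ (c, d))⁻¹) := by group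
    rw [h1]
    exact (AA ψ τ ε Q).mul_mem ihx ihy
  | inv x hx ih =>
    have h1 : ψ (c, d) * x⁻¹ * (ψ (c, d))⁻¹ = (ψ (c, d) * x * (ψ (c, d))⁻¹)⁻¹ := by group
    rw [h1]
    exact (AA ψ τ ε Q).inv_mem ih

end

theorem main : ANS.{u, v} := by
  intro G L _ _ ψ τ ε Q w hD hQ hQ8
  constructor
  · apply (Subgroup.closure_le _).mpr
    rintro x (rfl | rfl | ⟨a, ha, rfl⟩)
    · exact Subgroup.subset_closure (Or.inl rfl)
    · exact Subgroup.subset_closure (Or.inr ⟨ε, hQ.eps_mem, 1, Q.one_mem, rfl⟩)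
    · exact Subgroup.subset_closure (Or.inr ⟨a, ha, a, ha, rfl⟩)
  · intro s hs
    refine closure_left _ (fun s => ∀ x ∈ AA ψ τ ε Q, s * x * s⁻¹ ∈ AA ψ τ ε Q) ?_ ?_ ?_ s hs
    · intro x hx
      rw [one_mul, inv_one, mul_one]
      exact hx
    · rintro y (rfl | ⟨a, ha, b, hb, rfl⟩)
      · left
        exact tau_inv hD
      · right
        exact ⟨a⁻¹, Q.inv_mem ha, b⁻¹, Q.inv_mem hb, psi_inv ψ a b⟩
    · rintro g hg y hy x hx
      have h1 : g * y * x * (g * y)⁻¹ = g * (y * x * y⁻¹) * g⁻¹ := by group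
      rw [h1]
      rcases hg with h0 | ⟨c, hc, d, hd, h0⟩
      · rw [h0]
        exact (AA ψ τ ε Q).mul_mem ((AA ψ τ ε Q).mul_mem (tau_mem ψ τ ε Q) (hy x hx))
          ((AA ψ τ ε Q).inv_mem (tau_mem ψ τ ε Q))
      · rw [h0]
        exact conj_psi hD hQ hQ8 hc hd _ (hy x hx)

end Cfsg.Agent.Lib.Helper53.Sp4ANS
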